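import Mathlib

/-!
# CALL S1906 piece DIAG (helper59 double): simultaneous diagonalization of a finite group of
commuting involutions on a `3`-space, `2 ≠ 0`
-/

set_option autoImplicit false

namespace Cfsg.Agent.Helper59.S1906P

variable {F : Type*} [Field F] {V : Type*} [AddCommGroup V] [Module F V] {P : Type*} [Group P]

/-- common `±1`-eigenvectors of finitely many commuting involutions span (`2 ≠ 0`). -/
theorem diag_span (h2 : (2 : F) ≠ 0) (ρ : Representation F P V) (E : Subgroup P)
    (hab : ∀ a ∈ E, ∀ a' ∈ E, a * a' = a' * a) (hsq : ∀ a ∈ E, a * a = 1)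
    (s : Finset P) (hs : ∀ a ∈ s, a ∈ E) :
    Submodule.span F {u : V | ∀ a ∈ s, ρ a u = u ∨ ρ a u = -u} = ⊤ := by
  classical
  have hinvol : ∀ a ∈ E, ∀ u : V, ρ a (ρ a u) = u := by
    intro a ha u
    rw [← Module.End.mul_apply, ← map_mul, hsq a ha, map_one, Module.End.one_apply]
  induction s using Finset.induction_on with
  | empty =>
    have h0 : {u : V | ∀ a ∈ (∅ : Finset P), ρ a u = u ∨ ρ a u = -u} = Set.univ := by
      ext u
      simp
    rw [h0]
    exact Submodule.span_univ
  | insert a s ha ih =>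
    have haE : a ∈ E := hs a (Finset.mem_insert_self a s)
    have hsE : ∀ a' ∈ s, a' ∈ E := fun a' ha' => hs a' (Finset.mem_insert_of_mem ha')
    rw [eq_top_iff, ← ih hsE, Submodule.span_le]
    intro u hu
    have hu' : ∀ a' ∈ s, ρ a' u = u ∨ ρ a' u = -u := hu
    have hplus : (2⁻¹ : F) • (u + ρ a u)
        ∈ {u : V | ∀ a' ∈ insert a s, ρ a' u = u ∨ ρ a' u = -u} := by
      intro a' ha'
      rcases Finset.mem_insert.mp ha' with rfl | ha's
      · left
        rw [map_smul, map_add, hinvol a' haE, add_comm]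
      · have hc : ρ a' (ρ a u) = ρ a (ρ a' u) := by
          rw [← Module.End.mul_apply, ← map_mul, hab a' (hsE a' ha's) a haE, map_mul,
            Module.End.mul_apply]
        rcases hu' a' ha's with h1 | h1
        · left
          rw [map_smul, map_add, hc, h1]
        · right
          rw [map_smul, map_add, hc, h1, map_neg, ← smul_neg, neg_add]
    have hminus : (2⁻¹ : F) • (u - ρ a u)
        ∈ {u : V | ∀ a' ∈ insert a s, ρ a' u = u ∨ ρ a' u = -u} := by
      intro a' ha'
      rcases Finset.mem_insert.mp ha' with rfl | ha's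
      · right
        rw [map_smul, map_sub, hinvol a' haE, ← smul_neg, neg_sub]
      · have hc : ρ a' (ρ a u) = ρ a (ρ a' u) := by
          rw [← Module.End.mul_apply, ← map_mul, hab a' (hsE a' ha's) a haE, map_mul,
            Module.End.mul_apply]
        rcases hu' a' ha's with h1 | h1
        · left
          rw [map_smul, map_sub, hc, h1]
        · right
          rw [map_smul, map_sub, hc, h1, map_neg, ← smul_neg]
          congr 1
          abel
    have hsum : u = (2⁻¹ : F) • (u + ρ a u) + (2⁻¹ : F) • (u - ρ a u) := by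
      rw [← smul_add]
      have e : u + ρ a u + (u - ρ a u) = (2 : F) • u := by
        rw [two_smul]; abel
      rw [e, smul_smul, inv_mul_cancel₀ h2, one_smul]
    have hmem : (2⁻¹ : F) • (u + ρ a u) + (2⁻¹ : F) • (u - ρ a u) ∈ Submodule.span F
        {u : V | ∀ a' ∈ insert a s, ρ a' u = u ∨ ρ a' u = -u} :=
      Submodule.add_mem _ (Submodule.subset_span hplus) (Submodule.subset_span hminus)
    rw [← hsum] at hmem
    exact hmem

/-- DIAG. Simultaneous diagonalization of `E` (abelian of exponent `2`, order `8`, faithful) on the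
`3`-space `V`. -/
theorem s1906_diag (h2 : (2 : F) ≠ 0) (hV : Module.finrank F V = 3)
    (ρ : Representation F P V) (E : Subgroup P)
    (hab : ∀ a ∈ E, ∀ a' ∈ E, a * a' = a' * a) (hsq : ∀ a ∈ E, a * a = 1)
    (hfaith : ∀ a ∈ E, (∀ v : V, ρ a v = v) → a = 1) (hcard : Nat.card E = 8) :
    ∃ b : Module.Basis (Fin 3) F V, ∀ a ∈ E, ∀ j, ρ a (b j) = b j ∨ ρ a (b j) = -b j := by
  classical
  have hfinE : Finite ↥E := Nat.finite_of_card_ne_zero (by rw [hcard]; norm_num)
  have hfin : (E : Set P).Finite := Set.toFinite _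
  have hspan : Submodule.span F {u : V | ∀ a ∈ E, ρ a u = u ∨ ρ a u = -u} = ⊤ := by
    have h := diag_span h2 ρ E hab hsq hfin.toFinset (fun a ha => hfin.mem_toFinset.mp ha)
    have hset : {u : V | ∀ a ∈ hfin.toFinset, ρ a u = u ∨ ρ a u = -u}
        = {u : V | ∀ a ∈ E, ρ a u = u ∨ ρ a u = -u} := by
      ext u
      constructor
      · intro hu a ha
        exact hu a (hfin.mem_toFinset.mpr ha)
      · intro hu a ha
        exact hu a (hfin.mem_toFinset.mp ha)
    rw [← hset]; exact h
  let b0 := Module.Basis.ofSpan (le_of_eq hspan.symm)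
  have hcardι := Module.finrank_eq_nat_card_basis b0
  rw [hV] at hcardι
  have hfinι := Nat.finite_of_card_ne_zero (by rw [← hcardι]; norm_num)
  let e := Finite.equivFinOfCardEq hcardι.symm
  refine ⟨b0.reindex e, ?_⟩
  intro a ha j
  have hmem : b0.reindex e j ∈ {u : V | ∀ a ∈ E, ρ a u = u ∨ ρ a u = -u} := by
    rw [Module.Basis.reindex_apply]
    exact Module.Basis.ofSpan_subset _ (Set.mem_range_self _)
  exact hmem a ha

end Cfsg.Agent.Helper59.S1906P
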