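import Mathlib

/-!
# CALL S1906 piece SPLIT (helper59 double): position of an invariant line and an invariant
complement with respect to the sign basis
-/

set_option autoImplicit false

namespace Cfsg.Agent.Helper59.S1906P

variable {F : Type*} [Field F] {V : Type*} [AddCommGroup V] [Module F V] {P : Type*} [Group P]

omit [Field F] [Module F V] in
/-- the two other indices of `Fin 3` -/
theorem split_others (i : Fin 3) : ∃ j k : Fin 3, j ≠ i ∧ k ≠ i ∧ k ≠ j ∧
    ∀ f : Fin 3 → V, ∑ l, f l = f i + f j + f k := by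
  fin_cases i
  · refine ⟨1, 2, by decide, by decide, by decide, fun f => ?_⟩
    rw [Fin.sum_univ_three]; rfl
  · refine ⟨0, 2, by decide, by decide, by decide, fun f => ?_⟩
    rw [Fin.sum_univ_three]
    show f 0 + f 1 + f 2 = f 1 + f 0 + f 2
    abel
  · refine ⟨0, 1, by decide, by decide, by decide, fun f => ?_⟩
    rw [Fin.sum_univ_three]
    show f 0 + f 1 + f 2 = f 2 + f 0 + f 1
    abel

/-- SPLIT. Position of `L`, `W` with respect to the sign basis. -/
theorem s1906_split (h2 : (2 : F) ≠ 0) (hV : Module.finrank F V = 3) (ρ : Representation F P V)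
    (E : Subgroup P) (b : Module.Basis (Fin 3) F V)
    (hfull : ∀ i : Fin 3, ∃ a ∈ E, ∀ j, ρ a (b j) = if j = i then -b j else b j)
    (L W : Submodule F V) (hL1 : Module.finrank F L = 1) (hLW : IsCompl L W)
    (hL : ∀ a ∈ E, ∀ v ∈ L, ρ a v ∈ L) (hW : ∀ a ∈ E, ∀ v ∈ W, ρ a v ∈ W) :
    ∃ u ∈ E, ∃ d ∈ E, (∀ v ∈ L, ρ u v = -v) ∧ (∀ v ∈ W, ρ u v = v) ∧
      ∃ v₁ ∈ W, ∃ v₂ ∈ W, v₁ ≠ 0 ∧ v₂ ≠ 0 ∧ ρ d v₁ = -v₁ ∧ ρ d v₂ = v₂ ∧
        ∀ v ∈ W, ∃ c₁ c₂ : F, v = c₁ • v₁ + c₂ • v₂ := by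
  classical
  choose e heE he using hfull
  -- the formula for the sign change
  have hform : ∀ (i : Fin 3) (v : V), ρ (e i) v = v - (2 * b.repr v i) • b i := by
    intro i v
    have hT : ρ (e i) = LinearMap.id - (2 : F) • (b.coord i).smulRight (b i) := by
      apply b.ext
      intro l
      rw [he i l]
      simp only [LinearMap.sub_apply, LinearMap.id_coe, id_eq, LinearMap.smul_apply,
        LinearMap.smulRight_apply, Module.Basis.coord_apply, Module.Basis.repr_self_apply]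
      by_cases hl : l = i
      · subst hl
        rw [if_pos rfl, if_pos rfl, one_smul, two_smul]
        abel
      · rw [if_neg hl, if_neg hl, zero_smul, smul_zero, sub_zero]
    rw [hT]
    simp only [LinearMap.sub_apply, LinearMap.id_coe, id_eq, LinearMap.smul_apply,
      LinearMap.smulRight_apply, Module.Basis.coord_apply, smul_smul]
  -- a generator of `L`
  obtain ⟨ℓ', hℓ'0, hℓ'⟩ := finrank_eq_one_iff'.mp hL1
  have hℓ0 : (ℓ' : V) ≠ 0 := fun h => hℓ'0 (Subtype.ext h)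
  have hℓgen : ∀ v ∈ L, ∃ c : F, c • (ℓ' : V) = v := by
    intro v hv
    obtain ⟨c, hc⟩ := hℓ' ⟨v, hv⟩
    exact ⟨c, congrArg Subtype.val hc⟩
  obtain ⟨i, hi⟩ : ∃ i, b.repr (ℓ' : V) i ≠ 0 := by
    by_contra hcon
    push Not at hcon
    apply hℓ0
    have : b.repr (ℓ' : V) = 0 := by
      ext l
      rw [hcon l]; rfl
    exact (LinearEquiv.map_eq_zero_iff b.repr).mp this
  obtain ⟨μ, hμ⟩ := hℓgen _ (hL (e i) (heE i) _ ℓ'.2)
  rw [hform] at hμ
  have hrel : (2 * b.repr (ℓ' : V) i) • b i = (1 - μ) • (ℓ' : V) := by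
    rw [sub_smul, one_smul, hμ]; abel
  have h2c : 2 * b.repr (ℓ' : V) i ≠ 0 := mul_ne_zero h2 hi
  have hμ1 : 1 - μ ≠ 0 := by
    intro h
    rw [h, zero_smul] at hrel
    rcases smul_eq_zero.mp hrel with h' | h'
    · exact h2c h'
    · exact b.ne_zero i h'
  have hbi : b i = ((2 * b.repr (ℓ' : V) i)⁻¹ * (1 - μ)) • (ℓ' : V) := by
    rw [mul_smul, ← hrel, smul_smul, inv_mul_cancel₀ h2c, one_smul]
  have hbiL : b i ∈ L := by
    rw [hbi]; exact L.smul_mem _ ℓ'.2
  have hℓbi : (ℓ' : V) = ((1 - μ)⁻¹ * (2 * b.repr (ℓ' : V) i)) • b i := by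
    rw [mul_smul, hrel, smul_smul, inv_mul_cancel₀ hμ1, one_smul]
  have hLspan : ∀ v ∈ L, ∃ t : F, v = t • b i := by
    intro v hv
    obtain ⟨c, hc⟩ := hℓgen v hv
    refine ⟨c * ((1 - μ)⁻¹ * (2 * b.repr (ℓ' : V) i)), ?_⟩
    rw [mul_smul, ← hℓbi, hc]
  have hdisj : ∀ x ∈ L, x ∈ W → x = 0 := Submodule.disjoint_def.mp hLW.disjoint
  -- coordinates of `W`
  have hWi : ∀ w ∈ W, b.repr w i = 0 := by
    intro w hw
    have h1 : ρ (e i) w ∈ W := hW (e i) (heE i) w hw
    rw [hform] at h1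
    have h3 : (2 * b.repr w i) • b i ∈ W := by
      have : (2 * b.repr w i) • b i = w - (w - (2 * b.repr w i) • b i) := by abel
      rw [this]; exact W.sub_mem hw h1
    have h4 := hdisj _ (L.smul_mem _ hbiL) h3
    rcases smul_eq_zero.mp h4 with h' | h'
    · rcases mul_eq_zero.mp h' with h'' | h''
      · exact absurd h'' h2
      · exact h''
    · exact absurd h' (b.ne_zero i)
  have hbW : ∀ l : Fin 3, l ≠ i → b l ∈ W := by
    intro l hl
    have htop : b l ∈ L ⊔ W := by rw [hLW.sup_eq_top]; trivial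
    obtain ⟨x, hx, w, hw, hxw⟩ := Submodule.mem_sup.mp htop
    obtain ⟨t, rfl⟩ := hLspan x hx
    have h1 := congrArg (fun v => b.repr v i) hxw
    simp only [map_add, map_smul, Finsupp.add_apply, Finsupp.smul_apply,
      Module.Basis.repr_self_apply, smul_eq_mul] at h1
    rw [if_pos trivial, hWi w hw, if_neg hl] at h1
    have ht : t = 0 := by simpa using h1
    rw [ht, zero_smul, zero_add] at hxw
    rw [← hxw]; exact hw
  obtain ⟨j, k, hji, hki, hkj, hsum⟩ := split_others (V := V) i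
  refine ⟨e i, heE i, e j, heE j, ?_, ?_, b j, hbW j hji, b k, hbW k hki, b.ne_zero j,
    b.ne_zero k, ?_, ?_, ?_⟩
  · intro v hv
    obtain ⟨t, rfl⟩ := hLspan v hv
    rw [map_smul, he i i, if_pos rfl, smul_neg]
  · intro w hw
    rw [hform, hWi w hw, mul_zero, zero_smul, sub_zero]
  · rw [he j j, if_pos rfl]
  · rw [he j k, if_neg hkj]
  · intro v hv
    refine ⟨b.repr v j, b.repr v k, ?_⟩
    have h1 := b.sum_repr v
    rw [hsum, hWi v hv, zero_smul, zero_add] at h1
    exact h1.symm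

end Cfsg.Agent.Helper59.S1906P
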