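import Cfsg.Agent.Helper40.DZDefs

set_option autoImplicit false

/-!
CALL S4538 piece A3b (helper59): the permutation character of `GL_n` on `GL_n / P` restricted to
`SL_n` is the permutation character of `SL_n` on `SL_n / (P ∩ SL_n)` (for `P` containing the
upper triangular subgroup).
-/

namespace Cfsg.Agent.Helper59.DZ

open Cfsg.Agent.Helper40.DZ Cfsg.Agent.Helper44.PSLn Matrix

universe u

section Mat

variable {n : ℕ} {F : Type u} [Field F]

local notation "SLn" => Matrix.SpecialLinearGroup (Fin n) F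

/-- the diagonal matrix `diag(c, 1, …, 1)` -/
noncomputable def dzDg (hn : 0 < n) (c : Fˣ) : GL (Fin n) F :=
  Matrix.GeneralLinearGroup.mkOfDetNeZero
    (Matrix.diagonal fun i : Fin n => if i = ⟨0, hn⟩ then (c : F) else 1)
    (by
      rw [Matrix.det_diagonal, Finset.prod_ite_eq' Finset.univ (⟨0, hn⟩ : Fin n) fun _ => (c : F)]
      simp)

theorem dzDg_det (hn : 0 < n) (c : Fˣ) : Matrix.GeneralLinearGroup.det (dzDg hn c) = c := by
  apply Units.ext
  rw [Matrix.GeneralLinearGroup.val_det_apply]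
  show (Matrix.diagonal fun i : Fin n => if i = ⟨0, hn⟩ then (c : F) else 1).det = c
  rw [Matrix.det_diagonal, Finset.prod_ite_eq' Finset.univ (⟨0, hn⟩ : Fin n) fun _ => (c : F)]
  simp

theorem dzDg_mem (hn : 0 < n) (c : Fˣ) : dzDg hn c ∈ Cfsg.upperTriangularGL n F :=
  Matrix.blockTriangular_diagonal _

/-- every element of `GL_n` is an element of `SL_n` times an upper triangular matrix -/
theorem dz_exists_SL (hn : 0 < n) (g : GL (Fin n) F) :
    ∃ s : SLn, ∃ d ∈ Cfsg.upperTriangularGL n F,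
      g = Matrix.SpecialLinearGroup.toGL s * d := by
  obtain ⟨d, hd⟩ : ∃ d, d = dzDg hn (Matrix.GeneralLinearGroup.det g) := ⟨_, rfl⟩
  have hdet : Matrix.GeneralLinearGroup.det (g * d⁻¹) = 1 := by
    rw [map_mul, map_inv, hd, dzDg_det, mul_inv_cancel]
  have h1 : ((g * d⁻¹ : GL (Fin n) F) : Matrix (Fin n) (Fin n) F).det = 1 := by
    have h := congrArg Units.val hdet
    rwa [Matrix.GeneralLinearGroup.val_det_apply, Units.val_one] at h
  refine ⟨⟨((g * d⁻¹ : GL (Fin n) F) : Matrix (Fin n) (Fin n) F), h1⟩, d, ?_, ?_⟩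
  · rw [hd]; exact dzDg_mem hn _
  · have h2 : Matrix.SpecialLinearGroup.toGL
        (⟨((g * d⁻¹ : GL (Fin n) F) : Matrix (Fin n) (Fin n) F), h1⟩ : SLn) = g * d⁻¹ := by
      apply Units.ext
      rfl
    rw [h2]
    group

/-- A3b: the permutation character of `GL_n` on `GL_n / P` restricted to `SL_n` is the
permutation character of `SL_n` on `SL_n / (P ∩ SL_n)`. -/
theorem fpc_SL (hn : 0 < n) (P : Subgroup (GL (Fin n) F)) (hP : Cfsg.upperTriangularGL n F ≤ P)
    (s : SLn) :
    Cfsg.fixedPointCharacter P (Matrix.SpecialLinearGroup.toGL s) =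
      Cfsg.fixedPointCharacter (P.comap Matrix.SpecialLinearGroup.toGL) s := by
  classical
  obtain ⟨ι, hι⟩ : ∃ ι : SLn →* GL (Fin n) F, ι = Matrix.SpecialLinearGroup.toGL := ⟨_, rfl⟩
  rw [← hι]
  let φ : SLn ⧸ P.comap ι → GL (Fin n) F ⧸ P :=
    Quotient.map' (fun x => ι x) (by
      intro x y hxy
      rw [QuotientGroup.leftRel_apply] at hxy ⊢
      have h : ι (x⁻¹ * y) ∈ P := hxy
      rwa [map_mul, map_inv] at h)
  have hφ : ∀ x : SLn, φ (x : SLn ⧸ P.comap ι) = ((ι x : GL (Fin n) F) : GL (Fin n) F ⧸ P) :=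
    fun x => rfl
  have hinj : Function.Injective φ := by
    intro a b
    induction a using QuotientGroup.induction_on with | H a => ?_
    induction b using QuotientGroup.induction_on with | H b => ?_
    intro h
    rw [hφ, hφ, QuotientGroup.eq] at h
    rw [QuotientGroup.eq]
    show ι (a⁻¹ * b) ∈ P
    rwa [map_mul, map_inv]
  have hsurj : Function.Surjective φ := by
    intro b
    induction b using QuotientGroup.induction_on with | H g => ?_
    obtain ⟨s', d, hd, hg⟩ := dz_exists_SL hn g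
    refine ⟨(s' : SLn ⧸ P.comap ι), ?_⟩
    rw [hφ, QuotientGroup.eq, hg, hι]
    have h1 : (Matrix.SpecialLinearGroup.toGL s')⁻¹ * (Matrix.SpecialLinearGroup.toGL s' * d) =
        d := by group
    rw [h1]
    exact hP hd
  have hequiv : ∀ (t : SLn) (q : SLn ⧸ P.comap ι), φ (t • q) = ι t • φ q := by
    intro t q
    induction q using QuotientGroup.induction_on with | H x => ?_
    show φ ((t * x : SLn) : SLn ⧸ P.comap ι) = _
    rw [hφ, hφ, map_mul]
    rfl
  unfold Cfsg.fixedPointCharacter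
  congr 1
  symm
  apply Nat.card_congr
  exact (Equiv.ofBijective φ ⟨hinj, hsurj⟩).subtypeEquiv (fun q => by
    show q ∈ MulAction.fixedBy _ s ↔ φ q ∈ MulAction.fixedBy _ (ι s)
    rw [MulAction.mem_fixedBy, MulAction.mem_fixedBy, ← hequiv]
    exact ⟨fun h => by rw [h], fun h => hinj h⟩)

end Mat

end Cfsg.Agent.Helper59.DZ
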