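import Cfsg.Agent.Helper40.DZDefs

set_option autoImplicit false

/-!
CALL S4538 piece LA5 (helper59): an element of `SL_n(F)` commuting with `qSet W`
(`W ≠ ⊥, ⊤`) satisfies `(x - c)² = 0`.
-/

namespace Cfsg.Agent.Helper59.DZ

open Cfsg.Agent.Helper40.DZ Cfsg.Agent.Helper44.PSLn Matrix

universe u

section Mat

variable {n : ℕ} {F : Type u} [Field F]

local notation "SLn" => Matrix.SpecialLinearGroup (Fin n) F

/-- a linear functional on `F^n` is a dot product -/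
theorem dz_functional_vec (f : (Fin n → F) →ₗ[F] F) :
    ∃ l : Fin n → F, ∀ v : Fin n → F, f v = l ⬝ᵥ v := by
  refine ⟨fun i => f (Pi.single i 1), fun v => ?_⟩
  have h := LinearMap.pi_apply_eq_sum_univ f v
  rw [h, dotProduct]
  refine Finset.sum_congr rfl fun i _ => ?_
  rw [smul_eq_mul, mul_comm]
  congr 2
  ext j
  simp [Pi.single_apply, eq_comm]

/-- separation: a vector outside `W` is detected by a dot product vanishing on `W` -/
theorem dz_sep (W : Submodule F (Fin n → F)) {u : Fin n → F} (hu : u ∉ W) :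
    ∃ l : Fin n → F, (∀ w ∈ W, l ⬝ᵥ w = 0) ∧ l ⬝ᵥ u ≠ 0 := by
  obtain ⟨f, hf, hW⟩ := Submodule.exists_le_ker_of_notMem hu
  obtain ⟨l, hl⟩ := dz_functional_vec f
  refine ⟨l, fun w hw => ?_, ?_⟩
  · rw [← hl]; exact hW hw
  · rw [← hl]; exact hf

/-- the transvection-like element `1 + w λᵀ` with `λ ⊥ W`, `w ∈ W` -/
theorem dz_elt_mem (W : Submodule F (Fin n → F)) {w l : Fin n → F} (hw : w ∈ W)
    (hl : ∀ w' ∈ W, l ⬝ᵥ w' = 0) :
    ∃ g : SLn, g ∈ qSet W ∧
      (g : Matrix (Fin n) (Fin n) F) = 1 + Matrix.vecMulVec w l := by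
  have hdet : (1 + Matrix.vecMulVec w l : Matrix (Fin n) (Fin n) F).det = 1 := by
    have h := Matrix.det_one_add_replicateCol_mul_replicateRow (ι := Unit) w l
    rw [← Matrix.vecMulVec_eq Unit] at h
    rw [h, hl w hw, add_zero]
  refine ⟨⟨_, hdet⟩, ⟨fun v => ?_, fun w' hw' => ?_⟩, rfl⟩
  · show (1 + Matrix.vecMulVec w l : Matrix (Fin n) (Fin n) F).mulVec v - v ∈ W
    rw [Matrix.add_mulVec, Matrix.one_mulVec, add_sub_cancel_left, Matrix.vecMulVec_mulVec,
      op_smul_eq_smul]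
    exact W.smul_mem _ hw
  · show (1 + Matrix.vecMulVec w l : Matrix (Fin n) (Fin n) F).mulVec w' = w'
    rw [Matrix.add_mulVec, Matrix.one_mulVec, Matrix.vecMulVec_mulVec, op_smul_eq_smul,
      hl w' hw', zero_smul, add_zero]

/-- LA5: an element commuting with `qSet W` (`W ≠ ⊥, ⊤`) satisfies `(x - c)² = 0`. -/
theorem LA5 (W : Submodule F (Fin n → F)) (hW0 : W ≠ ⊥) (hW1 : W ≠ ⊤) (x : SLn)
    (hx : ∀ g ∈ qSet W, g * x = x * g) :
    ∃ c : F, ((x : Matrix (Fin n) (Fin n) F) - c • (1 : Matrix (Fin n) (Fin n) F)) *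
      ((x : Matrix (Fin n) (Fin n) F) - c • (1 : Matrix (Fin n) (Fin n) F)) = 0 := by
  -- key identity
  have key : ∀ w ∈ W, ∀ l : Fin n → F, (∀ w' ∈ W, l ⬝ᵥ w' = 0) → ∀ v : Fin n → F,
      (l ⬝ᵥ ((x : Matrix (Fin n) (Fin n) F).mulVec v)) • w =
        (l ⬝ᵥ v) • ((x : Matrix (Fin n) (Fin n) F).mulVec w) := by
    intro w hw l hl v
    obtain ⟨g, hg, hgc⟩ := dz_elt_mem W hw hl
    have h1 := hx g hg
    have h2 : (g : Matrix (Fin n) (Fin n) F) * (x : Matrix (Fin n) (Fin n) F) =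
        (x : Matrix (Fin n) (Fin n) F) * (g : Matrix (Fin n) (Fin n) F) := by
      have := congrArg (fun y : SLn => (y : Matrix (Fin n) (Fin n) F)) h1
      simpa using this
    rw [hgc, add_mul, mul_add, one_mul, mul_one] at h2
    have h3 : Matrix.vecMulVec w l * (x : Matrix (Fin n) (Fin n) F) =
        (x : Matrix (Fin n) (Fin n) F) * Matrix.vecMulVec w l := add_left_cancel h2
    have h4 := congrArg (fun M : Matrix (Fin n) (Fin n) F => M.mulVec v) h3
    simp only [← Matrix.mulVec_mulVec, Matrix.vecMulVec_mulVec, Matrix.mulVec_smul,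
      op_smul_eq_smul] at h4
    exact h4
  -- a nonzero vector of W
  obtain ⟨w₁, hw₁, hw₁0⟩ := (Submodule.ne_bot_iff W).mp hW0
  -- a vector outside W
  obtain ⟨v₀, hv₀⟩ : ∃ v₀ : Fin n → F, v₀ ∉ W := by
    by_contra hcon
    push Not at hcon
    exact hW1 (top_le_iff.mp fun v _ => hcon v)
  obtain ⟨l₀, hl₀, hl₀v⟩ := dz_sep W hv₀
  -- scalar c
  set c : F := (l₀ ⬝ᵥ v₀)⁻¹ * (l₀ ⬝ᵥ ((x : Matrix (Fin n) (Fin n) F).mulVec v₀)) with hc
  have hxw : ∀ w ∈ W, (x : Matrix (Fin n) (Fin n) F).mulVec w = c • w := by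
    intro w hw
    have h := key w hw l₀ hl₀ v₀
    have h' : (x : Matrix (Fin n) (Fin n) F).mulVec w =
        (l₀ ⬝ᵥ v₀)⁻¹ • ((l₀ ⬝ᵥ v₀) • ((x : Matrix (Fin n) (Fin n) F).mulVec w)) := by
      rw [smul_smul, inv_mul_cancel₀ hl₀v, one_smul]
    rw [h', ← h, smul_smul]
  refine ⟨c, ?_⟩
  -- (x - c) v ∈ W
  have hmem : ∀ v : Fin n → F,
      ((x : Matrix (Fin n) (Fin n) F) - c • (1 : Matrix (Fin n) (Fin n) F)).mulVec v ∈ W := by
    intro v
    by_contra hnot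
    obtain ⟨l, hl, hlu⟩ := dz_sep W hnot
    apply hlu
    have h := key w₁ hw₁ l hl v
    rw [hxw w₁ hw₁, smul_smul] at h
    have h5 : l ⬝ᵥ ((x : Matrix (Fin n) (Fin n) F).mulVec v) = (l ⬝ᵥ v) * c := by
      by_contra hne
      have h6 : (l ⬝ᵥ ((x : Matrix (Fin n) (Fin n) F).mulVec v) - (l ⬝ᵥ v) * c) • w₁ = 0 := by
        rw [sub_smul, h, sub_self]
      rcases smul_eq_zero.mp h6 with h7 | h7
      · exact hne (sub_eq_zero.mp h7)
      · exact hw₁0 h7
    rw [Matrix.sub_mulVec, Matrix.smul_mulVec, Matrix.one_mulVec, dotProduct_sub,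
      dotProduct_smul, h5, smul_eq_mul, mul_comm, sub_self]
  -- conclude
  have hzero : ∀ v : Fin n → F,
      (((x : Matrix (Fin n) (Fin n) F) - c • (1 : Matrix (Fin n) (Fin n) F)) *
        ((x : Matrix (Fin n) (Fin n) F) - c • (1 : Matrix (Fin n) (Fin n) F))).mulVec v = 0 := by
    intro v
    rw [← Matrix.mulVec_mulVec]
    have h := hmem v
    set u := ((x : Matrix (Fin n) (Fin n) F) - c • (1 : Matrix (Fin n) (Fin n) F)).mulVec v
    rw [Matrix.sub_mulVec, Matrix.smul_mulVec, Matrix.one_mulVec, hxw u h, sub_self]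
  apply Matrix.toLin'.injective
  apply LinearMap.ext
  intro v
  rw [Matrix.toLin'_apply, hzero v]
  simp

end Mat

end Cfsg.Agent.Helper59.DZ
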