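import Mathlib

/-!
# Helper59: PIECE FUS of CALL S0984 (helper82): the fusion argument for a group of order 2520.
-/

set_option autoImplicit false

universe u

namespace Cfsg.Agent.Helper59.A7FUS

theorem sylow3_card_2520 {G : Type u} [Group G] [Finite G] (hG : Nat.card G = 2520)
    (P : Sylow 3 G) : Nat.card (P : Subgroup G) = 9 := by
  have : Fact (Nat.Prime 3) := ⟨by norm_num⟩
  rw [Sylow.card_eq_multiplicity, hG]
  have h1 : (2520 : ℕ) = 3 ^ 2 * 280 := by norm_num
  rw [h1, Nat.factorization_mul (by norm_num) (by norm_num), Finsupp.add_apply,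
    Nat.Prime.factorization_pow Nat.prime_three,
    Nat.factorization_eq_zero_of_not_dvd (show ¬ 3 ∣ 280 by norm_num)]
  simp

theorem conj_mem_smul_sylow {G : Type u} [Group G] (c p : G) (P : Sylow 3 G)
    (hp : p ∈ (P : Subgroup G)) : c * p * c⁻¹ ∈ ((c • P : Sylow 3 G) : Subgroup G) := by
  rw [Sylow.smul_def, Sylow.pointwise_smul_def]
  exact Subgroup.smul_mem_pointwise_smul p (MulAut.conj c) _ hp

theorem orderOf_conj_eq {G : Type u} [Group G] (g a : G) : orderOf (g * a * g⁻¹) = orderOf a :=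
  orderOf_injective (MulAut.conj g).toMonoidHom (MulAut.conj g).injective a

/-- PIECE FUS -/
theorem a7_fusion {G : Type u} [Group G] [Finite G]
    (hG : Nat.card G = 2520) (P : Sylow 3 G)
    (hCP : Nat.card (Subgroup.centralizer ((P : Subgroup G) : Set G)) = 9)
    (x : G) (hxP : x ∈ (P : Subgroup G)) (hx : orderOf x = 3)
    (hcent : ∀ m ∈ Subgroup.normalizer ((P : Subgroup G) : Set G), m * x = x * m →
      m ∈ (P : Subgroup G))
    (k : G) (hk : orderOf k = 2) (hkx : k * x = x * k)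
    (hall : ∀ g : G, orderOf g = 2 → IsConj g k)
    (s : G) (hs : orderOf s = 2) (hsN : s ∈ Subgroup.normalizer ((P : Subgroup G) : Set G))
    (y : G) (hyP : y ∈ (P : Subgroup G)) (hy1 : y ≠ 1) (hsy : s * y = y * s) : False := by
  have : Fact (Nat.Prime 3) := ⟨by norm_num⟩
  have hP9 : Nat.card (P : Subgroup G) = 9 := sylow3_card_2520 hG P
  have hPcomm : IsMulCommutative (P : Subgroup G) := by
    have h : Nat.card (P : Subgroup G) = 3 ^ 2 := by rw [hP9]; norm_num
    exact IsPGroup.isMulCommutative_of_card_eq_prime_sq h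
  -- an element of order 3 of `P` commuting with `s`
  obtain ⟨y₁, hy₁P, hy₁, hsy₁⟩ : ∃ y₁ ∈ (P : Subgroup G), orderOf y₁ = 3 ∧ s * y₁ = y₁ * s := by
    have hdvd : orderOf y ∣ 3 ^ 2 := by
      have h := Subgroup.orderOf_dvd_natCard (P : Subgroup G) hyP
      rw [hP9] at h
      exact h
    obtain ⟨m, hm, hmeq⟩ := (Nat.dvd_prime_pow Nat.prime_three).mp hdvd
    interval_cases m
    · exfalso
      apply hy1
      exact orderOf_eq_one_iff.mp (by simpa using hmeq)
    · exact ⟨y, hyP, by simpa using hmeq, hsy⟩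
    · refine ⟨y ^ 3, Subgroup.pow_mem _ hyP 3, ?_, ?_⟩
      · rw [orderOf_pow' y (by norm_num), hmeq]
        norm_num
      · have hc : Commute s y := hsy
        exact (hc.pow_right 3).eq
  -- conjugate `s` to `k`
  obtain ⟨g, hg⟩ := isConj_iff.mp (hall s hs)
  have hy'k : k * (g * y₁ * g⁻¹) = g * y₁ * g⁻¹ * k := by
    rw [← hg]
    calc g * s * g⁻¹ * (g * y₁ * g⁻¹) = g * (s * y₁) * g⁻¹ := by group
      _ = g * (y₁ * s) * g⁻¹ := by rw [hsy₁]
      _ = g * y₁ * g⁻¹ * (g * s * g⁻¹) := by group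
  have hy'3 : orderOf (g * y₁ * g⁻¹) = 3 := by rw [orderOf_conj_eq, hy₁]
  -- `9` does not divide `|C(k)|`
  have h9 : ¬ 9 ∣ Nat.card (Subgroup.centralizer ({k} : Set G)) := by
    intro h9
    obtain ⟨K, hK⟩ := Sylow.exists_subgroup_card_pow_prime 3
      (show 3 ^ 2 ∣ Nat.card (Subgroup.centralizer ({k} : Set G)) by simpa using h9)
    have hRcard : Nat.card (K.map (Subgroup.centralizer ({k} : Set G)).subtype) = 3 ^ 2 := by
      rw [Subgroup.card_map_of_injective (Subgroup.subtype_injective _)]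
      exact hK
    have hRp : IsPGroup 3 (K.map (Subgroup.centralizer ({k} : Set G)).subtype) :=
      IsPGroup.of_card hRcard
    obtain ⟨Q, hQ⟩ := hRp.exists_le_sylow
    have hQ9 : Nat.card (Q : Subgroup G) = 9 := sylow3_card_2520 hG Q
    have hRQ : K.map (Subgroup.centralizer ({k} : Set G)).subtype = (Q : Subgroup G) :=
      Subgroup.eq_of_le_of_card_ge hQ (by rw [hQ9, hRcard]; norm_num)
    obtain ⟨c, hc⟩ := MulAction.exists_smul_eq G P Q
    have hmem : c⁻¹ * k * c ∈ Subgroup.centralizer ((P : Subgroup G) : Set G) := by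
      rw [Subgroup.mem_centralizer_iff]
      intro p hp
      have h1 : c * p * c⁻¹ ∈ (Q : Subgroup G) := by
        rw [← hc]
        exact conj_mem_smul_sylow c p P hp
      rw [← hRQ] at h1
      obtain ⟨w, _, hw⟩ := h1
      have h2 : c * p * c⁻¹ ∈ Subgroup.centralizer ({k} : Set G) := by
        rw [← hw]
        exact w.2
      rw [Subgroup.mem_centralizer_singleton_iff] at h2
      calc p * (c⁻¹ * k * c) = c⁻¹ * (c * p * c⁻¹ * k) * c := by group
        _ = c⁻¹ * (k * (c * p * c⁻¹)) * c := by rw [h2]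
        _ = c⁻¹ * k * c * p := by group
    have hord : orderOf (c⁻¹ * k * c) = 2 := by
      have := orderOf_conj_eq c⁻¹ k
      rw [inv_inv] at this
      rw [this, hk]
    have h3 := Subgroup.orderOf_dvd_natCard _ hmem
    rw [hord, hCP] at h3
    omega
  -- Sylow `3`-subgroups of `C(k)`
  have hxC : x ∈ Subgroup.centralizer ({k} : Set G) := by
    rw [Subgroup.mem_centralizer_singleton_iff]
    exact hkx.symm
  have hy'C : g * y₁ * g⁻¹ ∈ Subgroup.centralizer ({k} : Set G) := by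
    rw [Subgroup.mem_centralizer_singleton_iff]
    exact hy'k.symm
  have hxc3 : orderOf (⟨x, hxC⟩ : Subgroup.centralizer ({k} : Set G)) = 3 := by
    rw [Subgroup.orderOf_mk, hx]
  have hyc3 : orderOf (⟨g * y₁ * g⁻¹, hy'C⟩ : Subgroup.centralizer ({k} : Set G)) = 3 := by
    rw [Subgroup.orderOf_mk, hy'3]
  have hQcard : ∀ (Q : Sylow 3 (Subgroup.centralizer ({k} : Set G)))
      (w : Subgroup.centralizer ({k} : Set G)), orderOf w = 3 →
      Subgroup.zpowers w ≤ (Q : Subgroup (Subgroup.centralizer ({k} : Set G))) →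
      (Q : Subgroup (Subgroup.centralizer ({k} : Set G))) = Subgroup.zpowers w := by
    intro Q w hw hle
    obtain ⟨n, hn⟩ := IsPGroup.iff_card.mp Q.2
    have hzc : Nat.card (Subgroup.zpowers w) = 3 := by rw [Nat.card_zpowers, hw]
    have hn2 : n < 2 := by
      by_contra hcon
      push Not at hcon
      apply h9
      have h1 : 3 ^ 2 ∣ 3 ^ n := pow_dvd_pow 3 hcon
      have h2 := Subgroup.card_subgroup_dvd_card (Q : Subgroup (Subgroup.centralizer ({k} : Set G)))
      rw [hn] at h2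
      have h3 := h1.trans h2
      norm_num at h3
      exact h3
    have hle' : Nat.card (Subgroup.zpowers w) ≤
        Nat.card (Q : Subgroup (Subgroup.centralizer ({k} : Set G))) :=
      Subgroup.card_le_of_le hle
    have hn1 : n = 1 := by
      interval_cases n
      · rw [hzc, hn] at hle'
        norm_num at hle'
      · rfl
    symm
    apply Subgroup.eq_of_le_of_card_ge hle
    rw [hn, hn1, hzc]
    norm_num
  obtain ⟨Q₁, hQ₁⟩ := (IsPGroup.of_card (n := 1) (by rw [Nat.card_zpowers, hxc3]; norm_num) :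
    IsPGroup 3 (Subgroup.zpowers (⟨x, hxC⟩ : Subgroup.centralizer ({k} : Set G)))).exists_le_sylow
  obtain ⟨Q₂, hQ₂⟩ := (IsPGroup.of_card (n := 1) (by rw [Nat.card_zpowers, hyc3]; norm_num) :
    IsPGroup 3 (Subgroup.zpowers
      (⟨g * y₁ * g⁻¹, hy'C⟩ : Subgroup.centralizer ({k} : Set G)))).exists_le_sylow
  have e₁ := hQcard Q₁ _ hxc3 hQ₁
  have e₂ := hQcard Q₂ _ hyc3 hQ₂
  obtain ⟨c, hc⟩ := MulAction.exists_smul_eq (Subgroup.centralizer ({k} : Set G)) Q₂ Q₁
  have hmem : c * (⟨g * y₁ * g⁻¹, hy'C⟩ : Subgroup.centralizer ({k} : Set G)) * c⁻¹ ∈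
      (Q₁ : Subgroup (Subgroup.centralizer ({k} : Set G))) := by
    rw [← hc]
    apply conj_mem_smul_sylow
    rw [e₂]
    exact Subgroup.mem_zpowers _
  rw [e₁] at hmem
  have hw : (c : G) * (g * y₁ * g⁻¹) * (c : G)⁻¹ ∈ Subgroup.zpowers x := by
    obtain ⟨i, hi⟩ := Subgroup.mem_zpowers_iff.mp hmem
    refine Subgroup.mem_zpowers_iff.mpr ⟨i, ?_⟩
    have := congrArg Subtype.val hi
    simpa using this
  -- Burnside's fusion lemma
  have hwP : (((c : G) * g)⁻¹)⁻¹ * y₁ * ((c : G) * g)⁻¹ ∈ (P : Subgroup G) := by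
    have h1 : (((c : G) * g)⁻¹)⁻¹ * y₁ * ((c : G) * g)⁻¹ = (c : G) * (g * y₁ * g⁻¹) * (c : G)⁻¹ := by
      group
    rw [h1]
    exact (Subgroup.zpowers_le.mpr hxP) hw
  obtain ⟨n', hn', hnn⟩ := P.conj_eq_normalizer_conj_of_mem y₁ ((c : G) * g)⁻¹ hy₁P hwP
  have hn : n'⁻¹ ∈ Subgroup.normalizer ((P : Subgroup G) : Set G) := inv_mem hn'
  have hw' : n'⁻¹ * y₁ * n' ∈ Subgroup.zpowers x := by
    rw [← hnn]
    have h1 : (((c : G) * g)⁻¹)⁻¹ * y₁ * ((c : G) * g)⁻¹ = (c : G) * (g * y₁ * g⁻¹) * (c : G)⁻¹ := by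
      group
    rw [h1]
    exact hw
  have hw3 : orderOf (n'⁻¹ * y₁ * n') = 3 := by
    have := orderOf_conj_eq n'⁻¹ y₁
    rw [inv_inv] at this
    rw [this, hy₁]
  have hzeq : Subgroup.zpowers (n'⁻¹ * y₁ * n') = Subgroup.zpowers x := by
    apply Subgroup.eq_of_le_of_card_ge (Subgroup.zpowers_le.mpr hw')
    rw [Nat.card_zpowers, Nat.card_zpowers, hw3, hx]
  have hxw : x ∈ Subgroup.zpowers (n'⁻¹ * y₁ * n') := by
    rw [hzeq]
    exact Subgroup.mem_zpowers x
  obtain ⟨i, hi⟩ := Subgroup.mem_zpowers_iff.mp hxw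
  have hcomm : Commute (n'⁻¹ * s * n') (n'⁻¹ * y₁ * n') := by
    show n'⁻¹ * s * n' * (n'⁻¹ * y₁ * n') = n'⁻¹ * y₁ * n' * (n'⁻¹ * s * n')
    calc n'⁻¹ * s * n' * (n'⁻¹ * y₁ * n') = n'⁻¹ * (s * y₁) * n' := by group
      _ = n'⁻¹ * (y₁ * s) * n' := by rw [hsy₁]
      _ = n'⁻¹ * y₁ * n' * (n'⁻¹ * s * n') := by group
  have hcx : n'⁻¹ * s * n' * x = x * (n'⁻¹ * s * n') := by
    rw [← hi]
    exact (hcomm.zpow_right i).eq
  have hsN' : n'⁻¹ * s * n' ∈ Subgroup.normalizer ((P : Subgroup G) : Set G) :=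
    mul_mem (mul_mem hn hsN) hn'
  have hsP := hcent _ hsN' hcx
  have hord : orderOf (n'⁻¹ * s * n') = 2 := by
    have := orderOf_conj_eq n'⁻¹ s
    rw [inv_inv] at this
    rw [this, hs]
  have h3 := Subgroup.orderOf_dvd_natCard _ hsP
  rw [hord, hP9] at h3
  omega

end Cfsg.Agent.Helper59.A7FUS
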