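import Cfsg.Agent.Helper40.DZDefs

set_option autoImplicit false

/-!
CALL S4538 piece LA6 (helper59): a `p`-regular element of `SL_n(F)` (characteristic `p`) with
`(x - c)² = 0` is central.
-/

namespace Cfsg.Agent.Helper59.DZ

open Cfsg.Agent.Helper40.DZ Cfsg.Agent.Helper44.PSLn Matrix

universe u

section Mat

variable {n : ℕ} {F : Type u} [Field F]

local notation "SLn" => Matrix.SpecialLinearGroup (Fin n) F

/-- powers of `c + N` with `N² = 0` -/
theorem dz_pow_nilp (X N : Matrix (Fin n) (Fin n) F) (c : F)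
    (hX : X = c • (1 : Matrix (Fin n) (Fin n) F) + N) (hN : N * N = 0) (k : ℕ) :
    X ^ (k + 1) = (c ^ (k + 1)) • (1 : Matrix (Fin n) (Fin n) F) +
      (((k + 1 : ℕ) : F) * c ^ k) • N := by
  induction k with
  | zero => simp [hX]
  | succ k ih =>
    rw [pow_succ, ih]
    nth_rewrite 1 [hX]
    simp only [add_mul, mul_add, smul_mul_assoc, mul_smul_comm, one_mul, mul_one, hN, smul_zero,
      add_zero, smul_smul]
    push_cast
    module

/-- LA6: a `p`-regular element with `(x - c)² = 0` is central. -/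
theorem LA6 (p : ℕ) [Fact p.Prime] [CharP F p] (x : SLn) (hreg : ¬ p ∣ orderOf x) (c : F)
    (hc : ((x : Matrix (Fin n) (Fin n) F) - c • (1 : Matrix (Fin n) (Fin n) F)) *
      ((x : Matrix (Fin n) (Fin n) F) - c • (1 : Matrix (Fin n) (Fin n) F)) = 0) :
    x ∈ Subgroup.center SLn := by
  obtain ⟨N, hNdef⟩ : ∃ N : Matrix (Fin n) (Fin n) F,
      N = (x : Matrix (Fin n) (Fin n) F) - c • (1 : Matrix (Fin n) (Fin n) F) := ⟨_, rfl⟩
  rw [← hNdef] at hc
  have hX : (x : Matrix (Fin n) (Fin n) F) = c • (1 : Matrix (Fin n) (Fin n) F) + N := by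
    rw [hNdef]; abel
  have hk0 : orderOf x ≠ 0 := by
    intro h
    rw [h] at hreg
    exact hreg (dvd_zero p)
  obtain ⟨j, hj⟩ : ∃ j, orderOf x = j + 1 := ⟨orderOf x - 1, by omega⟩
  have hpow : (x : Matrix (Fin n) (Fin n) F) ^ (j + 1) = 1 := by
    have h := pow_orderOf_eq_one x
    rw [hj] at h
    have h2 := congrArg (fun y : SLn => (y : Matrix (Fin n) (Fin n) F)) h
    simpa using h2
  have h1 := dz_pow_nilp (x : Matrix (Fin n) (Fin n) F) N c hX hc j
  rw [hpow] at h1
  -- multiply by N
  have h2 : N = (c ^ (j + 1)) • N := by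
    have h := congrArg (fun M : Matrix (Fin n) (Fin n) F => M * N) h1
    simp only [add_mul, smul_mul_assoc, one_mul, hc, smul_zero, add_zero] at h
    exact h
  have hN0 : N = 0 := by
    by_cases hck : c ^ (j + 1) = 1
    · rw [hck, one_smul] at h1
      have h3 : (((j + 1 : ℕ) : F) * c ^ j) • N = 0 := by
        have h4 : (1 : Matrix (Fin n) (Fin n) F) + (((j + 1 : ℕ) : F) * c ^ j) • N = 1 + 0 := by
          rw [add_zero]; exact h1.symm
        exact add_left_cancel h4
      rcases smul_eq_zero.mp h3 with h5 | h5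
      · exfalso
        rcases mul_eq_zero.mp h5 with h6 | h6
        · rw [CharP.cast_eq_zero_iff F p, ← hj] at h6
          exact hreg h6
        · have hc0 : c = 0 := pow_eq_zero_iff (n := j) (by
            intro hj0
            rw [hj0, pow_zero] at h6
            exact one_ne_zero h6) |>.mp h6
          rw [hc0, zero_pow (Nat.succ_ne_zero j)] at hck
          exact zero_ne_one hck
      · exact h5
    · have h3 : (1 - c ^ (j + 1)) • N = 0 := by
        rw [sub_smul, one_smul, ← h2, sub_self]
      rcases smul_eq_zero.mp h3 with h5 | h5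
      · exact absurd (sub_eq_zero.mp h5).symm hck
      · exact h5
  rw [hN0, add_zero] at hX
  rw [Subgroup.mem_center_iff]
  intro g
  apply Subtype.ext
  show (g : Matrix (Fin n) (Fin n) F) * (x : Matrix (Fin n) (Fin n) F) =
    (x : Matrix (Fin n) (Fin n) F) * (g : Matrix (Fin n) (Fin n) F)
  rw [hX]
  simp

end Mat

end Cfsg.Agent.Helper59.DZ
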