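import Mathlib
import Cfsg.Agent.Helper59.Deg11B
import Cfsg.Agent.Helper59.SylowPrime
import Cfsg.Agent.Helper58.Burnside
import Cfsg.Agent.Helper58.SylowNorm
import Cfsg.Agent.Helper58.Deg7
import Cfsg.Agent.Helper12.SharpK
import Cfsg.Agent.S0676
import Cfsg.Agent.S4706

/-!
# Transitive groups of degree 11: assembly
-/

set_option autoImplicit false
set_option linter.unusedSectionVars false
set_option linter.style.haveILetI false

namespace Cfsg.Agent.Helper59

open MulAction

section abstract

variable {G α : Type*} [Group G] [Finite G] [MulAction G α] [Fintype α] [DecidableEq α]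

theorem tr3_of_mp {G α : Type*} [Group G] [MulAction G α]
    (h : IsMultiplyPretransitive G α 3) : Tr3 G α := by
  intro a b c a' b' c' hab hac hbc hab' hac' hbc'
  have inj : ∀ {x y z : α}, x ≠ y → x ≠ z → y ≠ z → Function.Injective ![x, y, z] := by
    intro x y z hxy hxz hyz i j hij
    fin_cases i <;> fin_cases j <;> simp_all
  obtain ⟨g, hg⟩ := Cfsg.Agent.Helper12.sharpK_ex h ![a, b, c] ![a', b', c']
    (inj hab hac hbc) (inj hab' hac' hbc')
  exact ⟨g, hg 0, hg 1, hg 2⟩

/-- A three-point stabilizer of order 8 acting semiregularly on the other 8 points is regular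
on them. -/
theorem D11.reg_of_eight (D : D11 G α) {a b c : α} (hab : a ≠ b) (hac : a ≠ c) (hbc : b ≠ c)
    (hK : Nat.card (stabilizer G a ⊓ stabilizer G b ⊓ stabilizer G c : Subgroup G) = 8)
    (hE : ∀ (e : α) (g : G), e ≠ a → e ≠ b → e ≠ c → g • a = a → g • b = b → g • c = c →
      g • e = e → g = 1)
    {e e' : α} (hea : e ≠ a) (heb : e ≠ b) (hec : e ≠ c) (hea' : e' ≠ a) (heb' : e' ≠ b)
    (hec' : e' ≠ c) : ∃ g : G, g • a = a ∧ g • b = b ∧ g • c = c ∧ g • e = e' := by
  set K : Subgroup G := stabilizer G a ⊓ stabilizer G b ⊓ stabilizer G c with hKdef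
  have hfix : ∀ g ∈ K, g • a = a ∧ g • b = b ∧ g • c = c := by
    intro g hg
    rw [hKdef, Subgroup.mem_inf, Subgroup.mem_inf, mem_stabilizer_iff, mem_stabilizer_iff,
      mem_stabilizer_iff] at hg
    exact ⟨hg.1.1, hg.1.2, hg.2⟩
  have hbot : (K ⊓ stabilizer G e : Subgroup G) = ⊥ := by
    rw [Subgroup.eq_bot_iff_forall]
    intro g hg
    rw [Subgroup.mem_inf, mem_stabilizer_iff] at hg
    obtain ⟨h1, h2, h3⟩ := hfix g hg.1
    exact hE e g hea heb hec h1 h2 h3 hg.2
  have horb := card_orbit_subgroup K e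
  rw [hbot, Subgroup.card_bot, mul_one, hK] at horb
  set Δ : Finset α := ((Finset.univ.erase a).erase b).erase c with hΔ
  have hcardΔ : Δ.card = 8 := by
    rw [hΔ, Finset.card_erase_of_mem (by simp [hac.symm, hbc.symm]),
      Finset.card_erase_of_mem (by simp [hab.symm]),
      Finset.card_erase_of_mem (Finset.mem_univ a), Finset.card_univ, D.card]
  have hsub : orbit K e ⊆ (Δ : Set α) := by
    rintro x ⟨t, rfl⟩
    rw [Finset.mem_coe, hΔ, Finset.mem_erase, Finset.mem_erase, Finset.mem_erase]
    obtain ⟨h1, h2, h3⟩ := hfix t.1 t.2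
    exact ⟨fun h => hec (MulAction.injective t.1 (h.trans h3.symm)),
      fun h => heb (MulAction.injective t.1 (h.trans h2.symm)),
      fun h => hea (MulAction.injective t.1 (h.trans h1.symm)), Finset.mem_univ _⟩
  have heq : orbit K e = (Δ : Set α) := by
    apply Set.eq_of_subset_of_ncard_le hsub _ (Set.toFinite _)
    rw [Set.ncard_coe_finset, hcardΔ, ← Nat.card_coe_set_eq, horb]
  have he' : e' ∈ orbit K e := by
    rw [heq, Finset.mem_coe, hΔ, Finset.mem_erase, Finset.mem_erase, Finset.mem_erase]
    exact ⟨hec', heb', hea', Finset.mem_univ _⟩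
  obtain ⟨t, ht⟩ := he'
  obtain ⟨h1, h2, h3⟩ := hfix t.1 t.2
  exact ⟨t.1, h1, h2, h3, ht⟩

end abstract

section concrete

variable {α : Type*} [Fintype α] [DecidableEq α]

/-- The normalizer of a Sylow 11-subgroup is not the Sylow subgroup itself. -/
theorem deg11_normalizer_ne (hα : Fintype.card α = 11) (G : Subgroup (Equiv.Perm α))
    [MulAction.IsPretransitive G α] (hprim : IsPreprimitive G α) (h110 : 110 ∣ Nat.card G)
    (P : Sylow 11 G) : Nat.card (Subgroup.normalizer ((P : Subgroup G) : Set G)) ≠ 11 := by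
  haveI : Fact (Nat.Prime 11) := ⟨by norm_num⟩
  intro hN
  have hcardP : Nat.card (P : Subgroup G) = 11 := Cfsg.Agent.Helper58.card_sylow_prime_degree hα G P
  have hNP : (P : Subgroup G) = Subgroup.normalizer ((P : Subgroup G) : Set G) :=
    Subgroup.eq_of_le_of_card_ge Subgroup.le_normalizer (by rw [hN, hcardP])
  haveI hcyc : IsCyclic (P : Subgroup G) := isCyclic_of_prime_card hcardP
  have hle : Subgroup.normalizer ((P : Subgroup G) : Set G) ≤
      Subgroup.centralizer ((P : Subgroup G) : Set G) := by
    intro x hx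
    rw [← hNP] at hx
    rw [Subgroup.mem_centralizer_iff]
    intro y hy
    have h1 := (IsCyclic.commGroup (α := (P : Subgroup G))).mul_comm ⟨y, hy⟩ ⟨x, hx⟩
    exact congrArg Subtype.val h1
  have hcompl := MonoidHom.ker_transferSylow_isComplement' P hle
  have hcop := MonoidHom.not_dvd_card_ker_transferSylow P hle
  have hmul := hcompl.card_mul_card
  set K : Subgroup G := (MonoidHom.transferSylow P hle).ker with hK
  haveI : K.Normal := by rw [hK]; infer_instance
  by_cases hKbot : K = ⊥
  · rw [hKbot, Subgroup.card_bot, one_mul, hcardP] at hmul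
    rw [← hmul] at h110
    norm_num at h110
  · haveI : Nonempty α := Fintype.card_pos_iff.mp (by rw [hα]; norm_num)
    have htr := Cfsg.Agent.Helper58.transitive_of_normal_ne_bot G hprim K hKbot
    have hdvd := card_dvd_of_transitive (K.map G.subtype) htr (Classical.arbitrary α)
    rw [Nat.card_eq_fintype_card, hα,
      Subgroup.card_map_of_injective (Subgroup.subtype_injective _)] at hdvd
    exact hcop hdvd

/-- The normalizer of a Sylow 11-subgroup does not have order 22. -/
theorem deg11_normalizer_ne' (hα : Fintype.card α = 11) (G : Subgroup (Equiv.Perm α))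
    [MulAction.IsPretransitive G α] (h110 : 110 ∣ Nat.card G)
    (P : Sylow 11 G) : Nat.card (Subgroup.normalizer ((P : Subgroup G) : Set G)) ≠ 22 := by
  haveI : Fact (Nat.Prime 11) := ⟨by norm_num⟩
  intro hN
  rcases Cfsg.Agent.S4706.result (by norm_num) hα G P hN with hn | ⟨k, F, _, _, hk, -, -⟩
  · have htop : Subgroup.normalizer ((P : Subgroup G) : Set G) = ⊤ :=
      Subgroup.normalizer_eq_top_iff.mpr hn
    rw [htop, Subgroup.card_top] at hN
    rw [hN] at h110
    norm_num at h110
  · have hk3 : k ≤ 3 := by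
      by_contra hlt
      push Not at hlt
      have : 2 ^ 4 ≤ 2 ^ k := Nat.pow_le_pow_right (by norm_num) hlt
      omega
    interval_cases k <;> omega

/-- Assembly: the degree 11 theorem, given the local pieces as hypotheses. -/
theorem deg11_main (hα : Fintype.card α = 11) (G : Subgroup (Equiv.Perm α))
    [MulAction.IsPretransitive G α] (hG : ¬ Group.IsSolvable G)
    (h2 : IsMultiplyPretransitive G α 2) (D : D11 G α)
    (pN : Tr3 G α → ∀ (a b c : α) (z : G), a ≠ b → a ≠ c → b ≠ c → orderOf z = 3 →
      z • a = a → z • b = b → z • c = c → False)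
    (pE : Tr3 G α → ∀ (a b c : α), a ≠ b → a ≠ c → b ≠ c →
      Nat.card (stabilizer G a ⊓ stabilizer G b ⊓ stabilizer G c : Subgroup G) = 8 →
      ∀ (e : α) (g : G), e ≠ a → e ≠ b → e ≠ c → g • a = a → g • b = b → g • c = c →
        g • e = e → g = 1)
    (pS : Tr3 G α → ∀ (a b c : α), a ≠ b → a ≠ c → b ≠ c →
      Nat.card (stabilizer G a ⊓ stabilizer G b ⊓ stabilizer G c : Subgroup G) ≠ 16)
    (pH : ¬ Tr3 G α → ∀ (a b : α), a ≠ b →
      Nat.card (stabilizer G a ⊓ stabilizer G b : Subgroup G) ≠ 72)
    (pL : Nat.card G = 660 →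
      Nonempty (G ≃* Matrix.ProjectiveSpecialLinearGroup (Fin 2) (ZMod 11))) :
    (IsMultiplyPretransitive G α 4 ∧ ∀ x : Fin 4 ↪ α, stabilizer G x = ⊥) ∨
      Nonempty (G ≃* Matrix.ProjectiveSpecialLinearGroup (Fin 2) (ZMod 11)) := by
  classical
  haveI : Fact (Nat.Prime 11) := ⟨by norm_num⟩
  have hprim : IsPreprimitive G α := isPreprimitive_of_is_two_pretransitive h2
  obtain ⟨a, b, hab⟩ := D.exists_pair
  obtain ⟨c, hca, hcb⟩ := D.exists_third a b
  have hac : a ≠ c := hca.symm
  have hbc : b ≠ c := hcb.symm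
  have hcardG := D.card_eq hab
  have h110 : 110 ∣ Nat.card G := by rw [hcardG]; exact Dvd.intro _ rfl
  obtain ⟨P⟩ : Nonempty (Sylow 11 G) := inferInstance
  have hN1 := Cfsg.Agent.Helper58.card_normalizer_dvd hα G P
  have hN2 := Cfsg.Agent.Helper58.dvd_card_normalizer hα G P
  have hsyl : Nat.card (Sylow 11 G) ≡ 1 [MOD 11] := card_sylow_modEq_one 11 G
  have hidxN : Nat.card (Sylow 11 G) =
      (Subgroup.normalizer ((P : Subgroup G) : Set G)).index := Sylow.card_eq_index_normalizer P
  have hNi := Subgroup.card_mul_index (Subgroup.normalizer ((P : Subgroup G) : Set G))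
  rw [hidxN] at hsyl
  have hsyl' : (Subgroup.normalizer ((P : Subgroup G) : Set G)).index % 11 = 1 := hsyl
  have hne11 := deg11_normalizer_ne hα G hprim h110 P
  have hne22 := deg11_normalizer_ne' hα G h110 P
  have heven : Even (Nat.card (Subgroup.normalizer ((P : Subgroup G) : Set G))) → Tr3 G α :=
    fun he => tr3_of_mp (Cfsg.Agent.S0676.result hα G hG P he)
  generalize (Subgroup.normalizer ((P : Subgroup G) : Set G)).index = n at hNi hsyl'
  generalize Nat.card (Subgroup.normalizer ((P : Subgroup G) : Set G)) = cN at *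
  have hc_mem : cN = 55 ∨ cN = 110 := by
    have h1 : cN ∈ Nat.divisors 110 := Nat.mem_divisors.mpr ⟨hN1, by norm_num⟩
    have h2 : Nat.divisors 110 = {1, 2, 5, 10, 11, 22, 55, 110} := by decide
    rw [h2] at h1
    simp only [Finset.mem_insert, Finset.mem_singleton] at h1
    rcases h1 with h | h | h | h | h | h | h | h <;> omega
  by_cases h3 : Tr3 G α
  · -- 3-transitive
    obtain ⟨j, hj7, hk⟩ := D.card_stab_three h3 (pN h3) hab hac hbc
    have hcard3 := D.card_eq3 h3 hab hac hbc
    rw [hk] at hcard3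
    have hj : (cN = 55 ∧ j = 3) ∨ (cN = 110 ∧ j = 4) := by
      rcases hc_mem with rfl | rfl
      · left
        refine ⟨rfl, ?_⟩
        rw [hcard3] at hNi
        interval_cases j <;> omega
      · right
        refine ⟨rfl, ?_⟩
        rw [hcard3] at hNi
        interval_cases j <;> omega
    rcases hj with ⟨-, rfl⟩ | ⟨-, rfl⟩
    · -- order 8: sharply 4-transitive
      left
      have hK8 : ∀ x y z : α, x ≠ y → x ≠ z → y ≠ z →
          Nat.card (stabilizer G x ⊓ stabilizer G y ⊓ stabilizer G z : Subgroup G) = 8 := by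
        intro x y z hxy hxz hyz
        have := D.card_eq3 h3 hxy hxz hyz
        rw [hcard3] at this
        omega
      constructor
      · refine ⟨fun x y => ?_⟩
        have hx : ∀ i j : Fin 4, i ≠ j → x i ≠ x j := fun i j hij h => hij (x.injective h)
        have hy : ∀ i j : Fin 4, i ≠ j → y i ≠ y j := fun i j hij h => hij (y.injective h)
        obtain ⟨g1, h10, h11, h12⟩ := h3 (x 0) (x 1) (x 2) (y 0) (y 1) (y 2)
          (hx 0 1 (by decide)) (hx 0 2 (by decide)) (hx 1 2 (by decide))
          (hy 0 1 (by decide)) (hy 0 2 (by decide)) (hy 1 2 (by decide))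
        obtain ⟨k, hk0, hk1, hk2, hk3⟩ := D.reg_of_eight
          (hy 0 1 (by decide)) (hy 0 2 (by decide)) (hy 1 2 (by decide))
          (hK8 _ _ _ (hy 0 1 (by decide)) (hy 0 2 (by decide)) (hy 1 2 (by decide)))
          (pE h3 _ _ _ (hy 0 1 (by decide)) (hy 0 2 (by decide)) (hy 1 2 (by decide))
            (hK8 _ _ _ (hy 0 1 (by decide)) (hy 0 2 (by decide)) (hy 1 2 (by decide))))
          (e := g1 • x 3) (e' := y 3)
          (by rw [← h10]; exact fun h => hx 3 0 (by decide) (MulAction.injective g1 h))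
          (by rw [← h11]; exact fun h => hx 3 1 (by decide) (MulAction.injective g1 h))
          (by rw [← h12]; exact fun h => hx 3 2 (by decide) (MulAction.injective g1 h))
          (hy 3 0 (by decide)) (hy 3 1 (by decide)) (hy 3 2 (by decide))
        refine ⟨k * g1, ?_⟩
        ext i
        rw [Function.Embedding.smul_apply, mul_smul]
        fin_cases i
        · change k • g1 • x 0 = y 0
          rw [h10, hk0]
        · change k • g1 • x 1 = y 1
          rw [h11, hk1]
        · change k • g1 • x 2 = y 2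
          rw [h12, hk2]
        · change k • g1 • x 3 = y 3
          rw [hk3]
      · intro x
        have hx : ∀ i j : Fin 4, i ≠ j → x i ≠ x j := fun i j hij h => hij (x.injective h)
        rw [Subgroup.eq_bot_iff_forall]
        intro g hg
        rw [mem_stabilizer_iff] at hg
        have hgi : ∀ i, g • x i = x i := fun i =>
          (Function.Embedding.smul_apply g x i).symm.trans
            (congrArg (fun e : Fin 4 ↪ α => e i) hg)
        exact pE h3 _ _ _ (hx 0 1 (by decide)) (hx 0 2 (by decide)) (hx 1 2 (by decide))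
          (hK8 _ _ _ (hx 0 1 (by decide)) (hx 0 2 (by decide)) (hx 1 2 (by decide)))
          (x 3) g (hx 3 0 (by decide)) (hx 3 1 (by decide)) (hx 3 2 (by decide))
          (hgi 0) (hgi 1) (hgi 2) (hgi 3)
    · exact absurd hk (pS h3 a b c hab hac hbc)
  · -- not 3-transitive
    right
    have hc55 : cN = 55 := by
      rcases hc_mem with h | h
      · exact h
      · exact absurd (heven (by rw [h]; decide)) h3
    subst hc55
    obtain ⟨i, j, hi, hj, hh⟩ := D.card_stab_two hab
    have h27 := D.not_dvd_27 h3 hab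
    rw [hh] at h27
    have hj2 : j ≤ 2 := by
      by_contra hlt
      push Not at hlt
      exact h27 (Dvd.dvd.mul_left (pow_dvd_pow 3 hlt) _)
    rw [hh] at hcardG
    have h72 := pH h3 a b hab
    rw [hh] at h72
    have h660 : Nat.card G = 660 := by
      rw [hcardG] at hNi ⊢
      interval_cases i <;> interval_cases j <;> omega
    exact pL h660

end concrete

end Cfsg.Agent.Helper59
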