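-- helper59, CALL S4415 (helper63), piece c7b: `b` centralizes `y` modulo `T`.
import Cfsg.Prelude.Def_Transfer
import Cfsg.Prelude.Def_Solvable
import Cfsg.Agent.Helper63.N15Defs

set_option autoImplicit false

namespace Cfsg.Agent.Helper59.N15

open Cfsg.Agent.Helper63.N15

theorem c7b_commAB {Q : Type*} [Group Q] {u u' : Q} (hc : Commute u u') (i j i' j' : ℕ) :
    Commute (u ^ i' * u' ^ j') (u ^ i * u' ^ j) :=
  Commute.mul_left
    (Commute.mul_right ((Commute.refl u).pow_pow i' i) (hc.pow_pow i' j))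
    (Commute.mul_right (hc.symm.pow_pow j' i) ((Commute.refl u').pow_pow j' j))

theorem c7b_pow5 {Q : Type*} [Group Q] {u u' : Q} (hc : Commute u u') (h5 : u ^ 5 = 1)
    (h5' : u' ^ 5 = 1) (i j : ℕ) : (u ^ i * u' ^ j) ^ 5 = 1 := by
  rw [(hc.pow_pow i j).mul_pow, ← pow_mul, ← pow_mul, mul_comm i 5, mul_comm j 5, pow_mul,
    pow_mul, h5, h5', one_pow, one_pow, one_mul]

theorem c7b_pow5' {Q : Type*} [Group Q] {u u' : Q} (hc : Commute u u') (h5 : u ^ 5 = 1)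
    (h5' : u' ^ 5 = 1) (i j i' j' : ℕ) : ((u ^ i' * u' ^ j')⁻¹ * (u ^ i * u' ^ j)) ^ 5 = 1 := by
  rw [(Commute.inv_left (c7b_commAB hc i j i' j')).mul_pow, inv_pow, c7b_pow5 hc h5 h5',
    c7b_pow5 hc h5 h5', inv_one, one_mul]

theorem c7b_cube (K : ℤ) (h : (5 : ℤ) ∣ K * K * K - 1) : (5 : ℤ) ∣ K - 1 := by
  have h1 : ((K * K * K - 1 : ℤ) : ZMod 5) = 0 := (ZMod.intCast_zmod_eq_zero_iff_dvd _ 5).mpr h
  push_cast at h1
  have h2 : ∀ x : ZMod 5, x * x * x - 1 = 0 → x - 1 = 0 := by decide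
  have h3 := h2 _ h1
  refine (ZMod.intCast_zmod_eq_zero_iff_dvd (K - 1) 5).mp ?_
  push_cast
  exact h3

/-- from `u ^ a = u' ^ c` with `c ≢ 0 mod 5`: `u'` is a power of `u`. -/
theorem c7b_power {Q : Type*} [Group Q] {u u' : Q} (h5' : u' ^ 5 = 1) (a cc : ℤ)
    (heq : u ^ a = u' ^ cc) (hc0 : cc ≠ 0) (hc1 : -5 < cc) (hc2 : cc < 5) :
    ∃ K : ℤ, u' = u ^ K := by
  have h5z : u' ^ (5 : ℤ) = 1 := by
    rw [show (5 : ℤ) = ((5 : ℕ) : ℤ) from rfl, zpow_natCast]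
    exact h5'
  obtain ⟨m, e, hme⟩ : ∃ m e : ℤ, cc * m = 1 + 5 * e := by
    have hcases : cc = -4 ∨ cc = -3 ∨ cc = -2 ∨ cc = -1 ∨ cc = 1 ∨ cc = 2 ∨ cc = 3 ∨ cc = 4 := by
      omega
    rcases hcases with rfl | rfl | rfl | rfl | rfl | rfl | rfl | rfl
    · exact ⟨1, -1, by norm_num⟩
    · exact ⟨3, -2, by norm_num⟩
    · exact ⟨2, -1, by norm_num⟩
    · exact ⟨4, -1, by norm_num⟩
    · exact ⟨1, 0, by norm_num⟩
    · exact ⟨3, 1, by norm_num⟩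
    · exact ⟨2, 1, by norm_num⟩
    · exact ⟨4, 3, by norm_num⟩
  refine ⟨a * m, ?_⟩
  have h1 : u' ^ (cc * m) = u' := by
    rw [hme, zpow_add, zpow_one, zpow_mul, h5z, one_zpow, mul_one]
  rw [zpow_mul, heq, ← zpow_mul, h1]

section abs

variable {G : Type*} [Group G] [Finite G] {V : Type*} [AddCommGroup V] [Module (ZMod 3) V]
  [Finite V] {ρ : Representation (ZMod 3) G V} {R : Subgroup G} {b q₁ q₂ q₃ : G} {v₁ v₂ v₃ : V}

theorem c7b (c : Cfg ρ R b q₁ q₂ q₃ v₁ v₂ v₃) (htp : TProps R (T2 R))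
    (hz : ZProps ρ (T2 R)) (hTnZ : ∃ t ∈ T2 R, ¬ IsZ ρ t) (h32 : Nat.card (T2 R) ≤ 32)
    (Y : Subgroup G) (hYn : Y.Normal) (hTY : T2 R ≤ Y)
    (hYab : ∀ x ∈ Y, ∀ y ∈ Y, x * y * x⁻¹ * y⁻¹ ∈ T2 R)
    (hfpf : ∀ y' ∈ Y, y' ∉ T2 R → y' ^ 5 = 1 →
      ∀ t ∈ T2 R, IsZ ρ (y' * t * y'⁻¹ * t⁻¹) → IsZ ρ t)
    (y : G) (hy : y ∈ Y) (hyT : y ∉ T2 R) (hy5 : y ^ 5 = 1) :
    b * y * b⁻¹ * y⁻¹ ∈ T2 R := by
  classical
  obtain ⟨T, hT⟩ : ∃ T : Subgroup G, T = T2 R := ⟨_, rfl⟩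
  rw [← hT] at htp hz hTnZ h32 hTY hYab hfpf hyT ⊢
  obtain ⟨hTn, hTR, hT2, -⟩ := htp
  obtain ⟨hzsq, hzcomm, hzcen⟩ := hz
  haveI : T.Normal := hTn
  haveI : Fact (Nat.Prime 2) := ⟨Nat.prime_two⟩
  haveI : Fact (Nat.Prime 5) := ⟨by norm_num⟩
  -- facts on `IsZ`
  have Z1 : IsZ ρ (1 : G) := Or.inl rfl
  have Zmul : ∀ x x' : G, IsZ ρ x → IsZ ρ x' → IsZ ρ (x * x') := by
    intro x x' hx hx'
    rcases hx with rfl | hx
    · rw [one_mul]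
      exact hx'
    · rcases hx' with rfl | hx'
      · rw [mul_one]
        exact Or.inr hx
      · left
        apply c.faith
        intro v
        rw [map_mul, Module.End.mul_apply, hx', map_neg, hx, neg_neg]
  have Zconj : ∀ (g x : G), IsZ ρ x → IsZ ρ (g * x * g⁻¹) := by
    intro g x hx
    rcases hx with rfl | hx
    · left
      group
    · right
      intro v
      rw [map_mul, map_mul, Module.End.mul_apply, Module.End.mul_apply, hx, map_neg,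
        ← Module.End.mul_apply, ← map_mul, mul_inv_cancel, map_one, Module.End.one_apply]
  have Zinv : ∀ x : G, IsZ ρ x → IsZ ρ x⁻¹ := by
    intro x hx
    rcases hx with rfl | hx
    · left
      exact inv_one
    · right
      intro v
      have h1 : ρ x (ρ x⁻¹ v) = v := by
        rw [← Module.End.mul_apply, ← map_mul, mul_inv_cancel, map_one, Module.End.one_apply]
      rw [hx] at h1
      exact neg_eq_iff_eq_neg.mp h1
  -- the central involution `z` of `T`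
  obtain ⟨z, hzT, hz1, hzact⟩ : ∃ z ∈ T, z ≠ 1 ∧ ∀ v, ρ z v = -v := by
    by_contra hcon
    have htriv : ∀ t ∈ T, IsZ ρ t → t = 1 := by
      intro t ht hZ
      rcases hZ with h | h
      · exact h
      · by_contra h1
        exact hcon ⟨t, ht, h1, h⟩
    obtain ⟨t₀, ht₀, hnZ⟩ := hTnZ
    apply hnZ
    apply hzcen t₀ ht₀
    intro s hs
    have h1 := htriv _ (T.mul_mem (T.mul_mem (T.mul_mem ht₀ hs) (T.inv_mem ht₀)) (T.inv_mem hs))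
      (hzcomm t₀ ht₀ s hs)
    calc t₀ * s = t₀ * s * t₀⁻¹ * s⁻¹ * (s * t₀) := by group
      _ = s * t₀ := by rw [h1, one_mul]
  -- fixed-point-freeness for every element of `Y ∖ T` whose fifth power is in `T`
  have hFPF : ∀ g ∈ Y, g ∉ T → g ^ 5 ∈ T → ∀ t ∈ T, IsZ ρ (g * t * g⁻¹ * t⁻¹) → IsZ ρ t := by
    intro g hgY hgT hg5 t ht hZ
    obtain ⟨s, hs⟩ := IsPGroup.exists_card_eq hT2
    have hpow : (g ^ 5) ^ (2 ^ s) = 1 := by
      have h1 : (⟨g ^ 5, hg5⟩ : ↥T) ^ Nat.card T = 1 := pow_card_eq_one'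
      have h2 : (((⟨g ^ 5, hg5⟩ : ↥T) ^ Nat.card T : ↥T) : G) = ((1 : ↥T) : G) :=
        congrArg Subtype.val h1
      rw [Subgroup.coe_pow, Subgroup.coe_one, hs] at h2
      exact h2
    have hcop : Nat.Coprime (2 ^ s) 5 := Nat.Coprime.pow_left s (by decide)
    obtain ⟨l, -, hl⟩ := Nat.exists_mul_mod_eq_one_of_coprime hcop (by norm_num)
    obtain ⟨K, hK⟩ : ∃ K, K = 2 ^ s * l := ⟨_, rfl⟩
    rw [← hK] at hl
    obtain ⟨d, hd⟩ : ∃ d, K = 1 + 5 * d := ⟨K / 5, by omega⟩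
    obtain ⟨g', hg'⟩ : ∃ g' : G, g' = g ^ K := ⟨_, rfl⟩
    have hg'5 : g' ^ 5 = 1 := by
      rw [hg', ← pow_mul, mul_comm K 5, hK, pow_mul, pow_mul, hpow, one_pow]
    have hτ : (g ^ 5) ^ d ∈ T := T.pow_mem hg5 d
    have hg'eq : g' = g * (g ^ 5) ^ d := by
      rw [hg', hd, pow_add, pow_one, pow_mul]
    have hg'Y : g' ∈ Y := by
      rw [hg']
      exact Y.pow_mem hgY _
    have hg'T : g' ∉ T := by
      intro h
      apply hgT
      have h1 : g = g' * ((g ^ 5) ^ d)⁻¹ := by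
        rw [hg'eq]
        group
      rw [h1]
      exact T.mul_mem h (T.inv_mem hτ)
    apply hfpf g' hg'Y hg'T hg'5 t ht
    have e : g' * t * g'⁻¹ * t⁻¹ = g * ((g ^ 5) ^ d * t * ((g ^ 5) ^ d)⁻¹ * t⁻¹) * g⁻¹ *
        (g * t * g⁻¹ * t⁻¹) := by
      rw [hg'eq]
      group
    rw [e]
    exact Zmul _ _ (Zconj g _ (hzcomm _ hτ t ht)) hZ
  -- the quotient by `T`
  obtain ⟨t₀, ht₀, hnZ⟩ := hTnZ
  obtain ⟨y', hy'⟩ : ∃ y' : G, y' = b * y * b⁻¹ := ⟨_, rfl⟩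
  have hy'Y : y' ∈ Y := by
    rw [hy']
    exact hYn.conj_mem y hy b
  have hπ : ∀ x : G, QuotientGroup.mk' T x = 1 ↔ x ∈ T := fun x => QuotientGroup.eq_one_iff x
  obtain ⟨u, hu⟩ : ∃ u : G ⧸ T, u = QuotientGroup.mk' T y := ⟨_, rfl⟩
  obtain ⟨u', hu'⟩ : ∃ u' : G ⧸ T, u' = QuotientGroup.mk' T y' := ⟨_, rfl⟩
  obtain ⟨β, hβ⟩ : ∃ β : G ⧸ T, β = QuotientGroup.mk' T b := ⟨_, rfl⟩
  have hu5 : u ^ 5 = 1 := by rw [hu, ← map_pow, hy5, map_one]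
  have hu1 : u ≠ 1 := by
    rw [hu]
    exact fun h => hyT ((hπ y).mp h)
  have hu'β : u' = β * u * β⁻¹ := by
    rw [hu', hy', hβ, hu, map_mul, map_mul, map_inv]
  have hu'5 : u' ^ 5 = 1 := by
    rw [hu'β, conj_pow, hu5, mul_one, mul_inv_cancel]
  have hcomm : Commute u u' := by
    have h1 := (hπ _).mpr (hYab y hy y' hy'Y)
    rw [map_mul, map_mul, map_mul, map_inv, map_inv, ← hu, ← hu'] at h1
    show u * u' = u' * u
    calc u * u' = u * u' * u⁻¹ * u'⁻¹ * (u' * u) := by group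
      _ = u' * u := by rw [h1, one_mul]
  have hβ3 : β ^ 3 = 1 := by rw [hβ, ← map_pow, c.b3, map_one]
  have hord : orderOf u = 5 := orderOf_eq_prime hu5 hu1
  -- the pigeonhole
  have hfmem : ∀ a : Fin 5 × Fin 5 × Bool,
      (y ^ (a.1 : ℕ) * y' ^ (a.2.1 : ℕ)) * t₀ * (y ^ (a.1 : ℕ) * y' ^ (a.2.1 : ℕ))⁻¹ *
        (if a.2.2 then z else 1) ∈ T := by
    intro a
    refine T.mul_mem (hTn.conj_mem t₀ ht₀ _) ?_
    split_ifs
    · exact hzT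
    · exact T.one_mem
  have hninj : ¬ Function.Injective
      (fun a : Fin 5 × Fin 5 × Bool => (⟨_, hfmem a⟩ : ↥T)) := by
    intro hinj
    have h1 := Nat.card_le_card_of_injective _ hinj
    have h2 : Nat.card (Fin 5 × Fin 5 × Bool) = 50 := by
      rw [Nat.card_eq_fintype_card]
      rfl
    omega
  obtain ⟨a, a', hfa, hne⟩ := Function.not_injective_iff.mp hninj
  have hfa' : (y ^ (a.1 : ℕ) * y' ^ (a.2.1 : ℕ)) * t₀ * (y ^ (a.1 : ℕ) * y' ^ (a.2.1 : ℕ))⁻¹ *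
        (if a.2.2 then z else 1) =
      (y ^ (a'.1 : ℕ) * y' ^ (a'.2.1 : ℕ)) * t₀ * (y ^ (a'.1 : ℕ) * y' ^ (a'.2.1 : ℕ))⁻¹ *
        (if a'.2.2 then z else 1) := congrArg Subtype.val hfa
  obtain ⟨i, j, ε⟩ := a
  obtain ⟨i', j', ε'⟩ := a'
  simp only at hfa'
  have hζ : ∀ ε : Bool, IsZ ρ (if ε then z else 1) := by
    intro ε
    split_ifs
    · exact Or.inr hzact
    · exact Z1
  by_cases hij : i = i' ∧ j = j'
  · exfalso
    obtain ⟨rfl, rfl⟩ := hij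
    have h1 : (if ε then z else 1) = (if ε' then z else 1) := mul_left_cancel hfa'
    apply hne
    have h2 : ε = ε' := by
      cases ε <;> cases ε'
      · rfl
      · simp only [Bool.false_eq_true, if_false, if_true] at h1
        exact absurd h1.symm hz1
      · simp only [Bool.false_eq_true, if_false, if_true] at h1
        exact absurd h1 hz1
      · rfl
    rw [h2]
  · obtain ⟨g, hg⟩ : ∃ g : G, g = y ^ (i : ℕ) * y' ^ (j : ℕ) := ⟨_, rfl⟩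
    obtain ⟨g', hg'⟩ : ∃ g' : G, g' = y ^ (i' : ℕ) * y' ^ (j' : ℕ) := ⟨_, rfl⟩
    rw [← hg, ← hg'] at hfa'
    have h1 : g * t₀ * g⁻¹ = g' * t₀ * g'⁻¹ * (if ε' then z else 1) * (if ε then z else 1)⁻¹ :=
      eq_mul_inv_of_mul_eq hfa'
    have e : (g'⁻¹ * g) * t₀ * (g'⁻¹ * g)⁻¹ * t₀⁻¹ =
        (t₀ * g'⁻¹) * ((if ε' then z else 1) * (if ε then z else 1)⁻¹) * (t₀ * g'⁻¹)⁻¹ := by
      calc (g'⁻¹ * g) * t₀ * (g'⁻¹ * g)⁻¹ * t₀⁻¹ = g'⁻¹ * (g * t₀ * g⁻¹) * g' * t₀⁻¹ := by group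
        _ = g'⁻¹ * (g' * t₀ * g'⁻¹ * (if ε' then z else 1) * (if ε then z else 1)⁻¹) * g' * t₀⁻¹ := by
            rw [h1]
        _ = _ := by group
    have hZh : IsZ ρ ((g'⁻¹ * g) * t₀ * (g'⁻¹ * g)⁻¹ * t₀⁻¹) := by
      rw [e]
      exact Zconj _ _ (Zmul _ _ (hζ ε') (Zinv _ (hζ ε)))
    have hgY : g ∈ Y := by
      rw [hg]
      exact Y.mul_mem (Y.pow_mem hy _) (Y.pow_mem hy'Y _)
    have hg'Y : g' ∈ Y := by
      rw [hg']
      exact Y.mul_mem (Y.pow_mem hy _) (Y.pow_mem hy'Y _)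
    have hhY : g'⁻¹ * g ∈ Y := Y.mul_mem (Y.inv_mem hg'Y) hgY
    have hπh : QuotientGroup.mk' T (g'⁻¹ * g) =
        (u ^ (i' : ℕ) * u' ^ (j' : ℕ))⁻¹ * (u ^ (i : ℕ) * u' ^ (j : ℕ)) := by
      rw [hg, hg', map_mul, map_inv, map_mul, map_mul, map_pow, map_pow, map_pow, map_pow,
        ← hu, ← hu']
    have hh5 : (g'⁻¹ * g) ^ 5 ∈ T := by
      rw [← hπ, map_pow, hπh]
      exact c7b_pow5' hcomm hu5 hu'5 _ _ _ _
    have hhT : g'⁻¹ * g ∈ T := by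
      by_contra hhT
      exact hnZ (hFPF _ hhY hhT hh5 t₀ ht₀ hZh)
    have hAB : u ^ (i : ℕ) * u' ^ (j : ℕ) = u ^ (i' : ℕ) * u' ^ (j' : ℕ) := by
      have h2 := (hπ _).mpr hhT
      rw [hπh] at h2
      exact (inv_mul_eq_one.mp h2).symm
    -- `u ^ (i - i') = u' ^ (j' - j)`
    have heq : u ^ ((i : ℕ) - (i' : ℕ) : ℤ) = u' ^ ((j' : ℕ) - (j : ℕ) : ℤ) := by
      rw [zpow_sub, zpow_sub, zpow_natCast, zpow_natCast, zpow_natCast, zpow_natCast]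
      have h3 : (u ^ (i' : ℕ))⁻¹ * (u ^ (i : ℕ) * u' ^ (j : ℕ)) * (u' ^ (j : ℕ))⁻¹ =
          (u ^ (i' : ℕ))⁻¹ * (u ^ (i' : ℕ) * u' ^ (j' : ℕ)) * (u' ^ (j : ℕ))⁻¹ := by rw [hAB]
      have h4 : (u ^ (i' : ℕ))⁻¹ * (u ^ (i : ℕ) * u' ^ (j : ℕ)) * (u' ^ (j : ℕ))⁻¹ =
          (u ^ (i' : ℕ))⁻¹ * u ^ (i : ℕ) := by group
      have h5 : (u ^ (i' : ℕ))⁻¹ * (u ^ (i' : ℕ) * u' ^ (j' : ℕ)) * (u' ^ (j : ℕ))⁻¹ =
          u' ^ (j' : ℕ) * (u' ^ (j : ℕ))⁻¹ := by group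
      rw [h4, h5] at h3
      rw [← h3]
      exact ((Commute.refl u).pow_pow (i : ℕ) (i' : ℕ)).inv_right.eq
    have hi := i.2
    have hi' := i'.2
    have hj := j.2
    have hj' := j'.2
    have hcc : ((j' : ℕ) - (j : ℕ) : ℤ) ≠ 0 := by
      intro h0
      have hjj : j = j' := by
        apply Fin.ext
        omega
      rw [h0, zpow_zero] at heq
      have h6 := orderOf_dvd_iff_zpow_eq_one.mpr heq
      rw [hord] at h6
      have hii : i = i' := by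
        apply Fin.ext
        have h7 : ((5 : ℕ) : ℤ) ∣ ((i : ℕ) - (i' : ℕ) : ℤ) := h6
        omega
      exact hij ⟨hii, hjj⟩
    obtain ⟨K, hK⟩ := c7b_power hu'5 _ _ heq hcc (by omega) (by omega)
    -- `u = u ^ (K * K * K)`
    have k1 : β * u * β⁻¹ = u ^ K := by rw [← hu'β, hK]
    have k2 : β * u ^ K * β⁻¹ = (u ^ K) ^ K := by rw [← conj_zpow, k1]
    have k3 : β * (u ^ K) ^ K * β⁻¹ = ((u ^ K) ^ K) ^ K := by rw [← conj_zpow, k2]
    have k4 : u = ((u ^ K) ^ K) ^ K := by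
      rw [← k3, ← k2, ← k1]
      have hβinv : β⁻¹ * β⁻¹ * β⁻¹ = 1 := by
        have h8 : (β⁻¹) ^ 3 = 1 := by rw [inv_pow, hβ3, inv_one]
        rw [pow_succ, pow_two] at h8
        exact h8
      have hβ3' : β * β * β = 1 := by
        have h8 := hβ3
        rw [pow_succ, pow_two] at h8
        exact h8
      calc u = (β * β * β) * u * (β⁻¹ * β⁻¹ * β⁻¹) := by rw [hβinv, hβ3', one_mul, mul_one]
        _ = β * (β * (β * u * β⁻¹) * β⁻¹) * β⁻¹ := by simp only [mul_assoc]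
    have k5 : u ^ (K * K * K - 1) = 1 := by
      rw [zpow_sub, zpow_one, zpow_mul, zpow_mul, ← k4, mul_inv_cancel]
    have k6 : ((5 : ℕ) : ℤ) ∣ K * K * K - 1 := by
      rw [← hord]
      exact orderOf_dvd_iff_zpow_eq_one.mpr k5
    obtain ⟨e', he'⟩ := c7b_cube K k6
    have k7 : u ^ K = u := by
      have h9 : K = 1 + 5 * e' := by omega
      have h5z : u ^ (5 : ℤ) = 1 := by
        rw [show (5 : ℤ) = ((5 : ℕ) : ℤ) from rfl, zpow_natCast]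
        exact hu5
      rw [h9, zpow_add, zpow_one, zpow_mul, h5z, one_zpow, mul_one]
    rw [← hπ, map_mul, map_inv, ← hu, ← hy', ← hu', hK, k7, mul_inv_cancel]

end abs

end Cfsg.Agent.Helper59.N15
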