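-- helper59, CALL S4415 (helper63), piece m1a: simultaneous diagonalization of a normal subgroup
-- of exponent `2` acting on a module over `ZMod 3`.
import Cfsg.Prelude.Def_Transfer
import Cfsg.Prelude.Def_Solvable
import Cfsg.Agent.Helper63.N15Defs

set_option autoImplicit false

namespace Cfsg.Agent.Helper59.N15

open Cfsg.Agent.Helper63.N15

section abs

variable {G : Type*} [Group G] [Finite G] {V : Type*} [AddCommGroup V] [Module (ZMod 3) V]
  [Finite V] {ρ : Representation (ZMod 3) G V} {R : Subgroup G} {b q₁ q₂ q₃ : G} {v₁ v₂ v₃ : V}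

omit [Finite G] [Finite V] in
theorem m1a_three (u : V) : u + u + u = 0 := by
  have h : (1 + 1 + 1 : ZMod 3) • u = 0 := by
    have h0 : (1 + 1 + 1 : ZMod 3) = 0 := by decide
    rw [h0, zero_smul]
  rw [add_smul, add_smul, one_smul] at h
  exact h

omit [Finite G] [Finite V] in
/-- the weight space of a function `ξ : A → ZMod 3`. -/
theorem m1a_wt_exists (ρ : Representation (ZMod 3) G V) (A : Subgroup G) (ξ : ↥A → ZMod 3) :
    ∃ W : Submodule (ZMod 3) V, ∀ v : V, v ∈ W ↔ ∀ a : ↥A, ρ (a : G) v = ξ a • v := by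
  refine ⟨{ carrier := {v | ∀ a : ↥A, ρ (a : G) v = ξ a • v}
            add_mem' := ?_
            zero_mem' := ?_
            smul_mem' := ?_ }, fun v => Iff.rfl⟩
  · intro x y hx hy a
    rw [map_add, hx a, hy a, smul_add]
  · intro a
    rw [map_zero, smul_zero]
  · intro t x hx a
    rw [map_smul, hx a, smul_comm]

omit [Finite G] [Finite V] in
/-- common `±1`-eigenvectors of finitely many commuting involutions span. -/
theorem m1a_span (ρ : Representation (ZMod 3) G V) (A : Subgroup G)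
    (hA2 : ∀ x ∈ A, x ^ 2 = 1) (s : Finset G) (hs : ∀ a ∈ s, a ∈ A) :
    Submodule.span (ZMod 3) {u : V | ∀ a ∈ s, ρ a u = u ∨ ρ a u = -u} = ⊤ := by
  classical
  have hinvol : ∀ a ∈ A, ∀ u : V, ρ a (ρ a u) = u := by
    intro a ha u
    rw [← Module.End.mul_apply, ← map_mul, ← pow_two, hA2 a ha, map_one, Module.End.one_apply]
  have hcomm : ∀ a ∈ A, ∀ a' ∈ A, a * a' = a' * a := by
    intro a ha a' ha'
    have h1 : a * a' * (a * a') = 1 := by
      rw [← pow_two]
      exact hA2 _ (A.mul_mem ha ha')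
    have h2 : a * a = 1 := by rw [← pow_two]; exact hA2 a ha
    have h3 : a' * a' = 1 := by rw [← pow_two]; exact hA2 a' ha'
    have ha_inv : a⁻¹ = a := inv_eq_iff_mul_eq_one.mpr h2
    have ha'_inv : a'⁻¹ = a' := inv_eq_iff_mul_eq_one.mpr h3
    calc a * a' = (a * a')⁻¹ := (inv_eq_iff_mul_eq_one.mpr h1).symm
      _ = a'⁻¹ * a⁻¹ := mul_inv_rev a a'
      _ = a' * a := by rw [ha_inv, ha'_inv]
  induction s using Finset.induction_on with
  | empty =>
    have h0 : {u : V | ∀ a ∈ (∅ : Finset G), ρ a u = u ∨ ρ a u = -u} = Set.univ := by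
      ext u
      simp
    rw [h0]
    exact Submodule.span_univ
  | insert a s ha ih =>
    have haA : a ∈ A := hs a (Finset.mem_insert_self a s)
    have hsA : ∀ a' ∈ s, a' ∈ A := fun a' ha' => hs a' (Finset.mem_insert_of_mem ha')
    rw [eq_top_iff, ← ih hsA, Submodule.span_le]
    intro u hu
    have hu' : ∀ a' ∈ s, ρ a' u = u ∨ ρ a' u = -u := hu
    have hplus : -(u + ρ a u) ∈ {u : V | ∀ a' ∈ insert a s, ρ a' u = u ∨ ρ a' u = -u} := by
      intro a' ha'
      rcases Finset.mem_insert.mp ha' with rfl | ha's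
      · left
        rw [map_neg, map_add, hinvol a' haA, add_comm]
      · have hc : ρ a' (ρ a u) = ρ a (ρ a' u) := by
          rw [← Module.End.mul_apply, ← map_mul, hcomm a' (hsA a' ha's) a haA, map_mul,
            Module.End.mul_apply]
        rcases hu' a' ha's with h1 | h1
        · left
          rw [map_neg, map_add, hc, h1]
        · right
          rw [map_neg, map_add, hc, h1, map_neg]
          abel
    have hminus : -(u - ρ a u) ∈ {u : V | ∀ a' ∈ insert a s, ρ a' u = u ∨ ρ a' u = -u} := by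
      intro a' ha'
      rcases Finset.mem_insert.mp ha' with rfl | ha's
      · right
        rw [map_neg, map_sub, hinvol a' haA]
        abel
      · have hc : ρ a' (ρ a u) = ρ a (ρ a' u) := by
          rw [← Module.End.mul_apply, ← map_mul, hcomm a' (hsA a' ha's) a haA, map_mul,
            Module.End.mul_apply]
        rcases hu' a' ha's with h1 | h1
        · left
          rw [map_neg, map_sub, hc, h1]
        · right
          rw [map_neg, map_sub, hc, h1, map_neg]
          abel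
    have hsum : u = -(u + ρ a u) + -(u - ρ a u) := by
      have h3 := m1a_three u
      have e : -(u + ρ a u) + -(u - ρ a u) = u - (u + u + u) := by abel
      rw [e, h3, sub_zero]
    have hmem : -(u + ρ a u) + -(u - ρ a u) ∈ Submodule.span (ZMod 3)
        {u : V | ∀ a' ∈ insert a s, ρ a' u = u ∨ ρ a' u = -u} :=
      Submodule.add_mem _ (Submodule.subset_span hplus) (Submodule.subset_span hminus)
    rw [← hsum] at hmem
    exact hmem

omit [Finite G] [Finite V] in
/-- independence of weight spaces with pairwise distinct characters. -/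
theorem m1a_indep (ρ : Representation (ZMod 3) G V) (A : Subgroup G) (m : ℕ)
    (W : Fin m → Submodule (ZMod 3) V) (χ : Fin m → G → ZMod 3)
    (h2 : ∀ i, ∀ v : V, v ∈ W i ↔ ∀ a ∈ A, ρ a v = χ i a • v)
    (h3 : ∀ i j, i ≠ j → ∃ a ∈ A, χ i a ≠ χ j a) (s : Finset (Fin m)) :
    ∀ f : Fin m → V, (∀ i ∈ s, f i ∈ W i) → ∑ i ∈ s, f i = 0 → ∀ i ∈ s, f i = 0 := by
  classical
  induction s using Finset.induction_on with
  | empty =>
    intro f _ _ i hi
    exact absurd hi (Finset.notMem_empty i)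
  | insert j t hj ih =>
    intro f hf hsum
    rw [Finset.sum_insert hj] at hsum
    have hft : ∀ i ∈ t, f i ∈ W i := fun i hi => hf i (Finset.mem_insert_of_mem hi)
    have hfj : f j ∈ W j := hf j (Finset.mem_insert_self j t)
    have hzero : ∀ i ∈ t, f i = 0 := by
      intro i hi
      have hij : i ≠ j := fun h => hj (h ▸ hi)
      obtain ⟨a, ha, hne⟩ := h3 i j hij
      have h4 : ∑ k ∈ t, (χ k a - χ j a) • f k = 0 := by
        have h5 := congrArg (fun v => ρ a v) hsum
        simp only [map_add, map_sum, map_zero] at h5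
        rw [(h2 j (f j)).mp hfj a ha] at h5
        have h6 : ∑ k ∈ t, ρ a (f k) = ∑ k ∈ t, χ k a • f k :=
          Finset.sum_congr rfl (fun k hk => (h2 k (f k)).mp (hft k hk) a ha)
        rw [h6] at h5
        have h7 : χ j a • (f j + ∑ k ∈ t, f k) = 0 := by rw [hsum, smul_zero]
        rw [smul_add, Finset.smul_sum] at h7
        have h8 : ∑ k ∈ t, (χ k a - χ j a) • f k
            = (χ j a • f j + ∑ k ∈ t, χ k a • f k) - (χ j a • f j + ∑ k ∈ t, χ j a • f k) := by
          simp only [sub_smul, Finset.sum_sub_distrib]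
          abel
        rw [h8, h5, h7, sub_zero]
      have h9 := ih (fun k => (χ k a - χ j a) • f k)
        (fun k hk => (W k).smul_mem _ (hft k hk)) h4 i hi
      rcases smul_eq_zero.mp h9 with h10 | h10
      · exact absurd (sub_eq_zero.mp h10) hne
      · exact h10
    intro i hi
    rcases Finset.mem_insert.mp hi with rfl | hit
    · rw [Finset.sum_eq_zero hzero, add_zero] at hsum
      exact hsum
    · exact hzero i hit

theorem m1a (ρ : Representation (ZMod 3) G V) (A : Subgroup G) (hAn : A.Normal)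
    (hA2 : ∀ x ∈ A, x ^ 2 = 1) :
    ∃ (m : ℕ) (W : Fin m → Submodule (ZMod 3) V) (χ : Fin m → G → ZMod 3),
      IsWeightDec ρ A m W χ := by
  classical
  choose wt hwt using m1a_wt_exists ρ A
  haveI : Finite {ξ : ↥A → ZMod 3 // wt ξ ≠ ⊥} := inferInstance
  obtain ⟨m, ⟨enum⟩⟩ : ∃ m : ℕ, Nonempty (Fin m ≃ {ξ : ↥A → ZMod 3 // wt ξ ≠ ⊥}) := by
    obtain ⟨n, ⟨e⟩⟩ := Finite.exists_equiv_fin {ξ : ↥A → ZMod 3 // wt ξ ≠ ⊥}
    exact ⟨n, ⟨e.symm⟩⟩
  obtain ⟨W, hW⟩ : ∃ W : Fin m → Submodule (ZMod 3) V, ∀ i, W i = wt (enum i).1 := ⟨_, fun _ => rfl⟩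
  obtain ⟨χ, hχ⟩ : ∃ χ : Fin m → G → ZMod 3,
      ∀ i g, χ i g = if hg : g ∈ A then (enum i).1 ⟨g, hg⟩ else 0 := ⟨_, fun _ _ => rfl⟩
  have hχA : ∀ i (a : ↥A), χ i (a : G) = (enum i).1 a := by
    intro i a
    rw [hχ, dif_pos a.2]
  have hinvol : ∀ a ∈ A, ∀ u : V, ρ a (ρ a u) = u := by
    intro a ha u
    rw [← Module.End.mul_apply, ← map_mul, ← pow_two, hA2 a ha, map_one, Module.End.one_apply]
  have h2 : ∀ i, ∀ v : V, v ∈ W i ↔ ∀ a ∈ A, ρ a v = χ i a • v := by
    intro i v
    rw [hW, hwt]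
    constructor
    · intro h a ha
      have h1 := h ⟨a, ha⟩
      rw [← hχA i ⟨a, ha⟩] at h1
      exact h1
    · intro h a
      rw [← hχA i a]
      exact h a.1 a.2
  have h3 : ∀ i j, i ≠ j → ∃ a ∈ A, χ i a ≠ χ j a := by
    intro i j hij
    have h1 : (enum i).1 ≠ (enum j).1 := by
      intro h
      exact hij (enum.injective (Subtype.ext h))
    obtain ⟨a, ha⟩ := Function.ne_iff.mp h1
    refine ⟨a.1, a.2, ?_⟩
    rw [hχA, hχA]
    exact ha
  have h1 : ∀ i, W i ≠ ⊥ := by
    intro i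
    rw [hW]
    exact (enum i).2
  have hsq : ∀ t : ZMod 3, t * t = 1 → t = 1 ∨ t = -1 := by decide
  have h4 : ∀ i, ∀ a ∈ A, χ i a = 1 ∨ χ i a = -1 := by
    intro i a ha
    obtain ⟨v, hv, hv0⟩ := (Submodule.ne_bot_iff _).mp (h1 i)
    have h5 := (h2 i v).mp hv a ha
    have h6 := hinvol a ha v
    rw [h5, map_smul, h5, smul_smul] at h6
    apply hsq
    by_contra hne
    have h7 : (χ i a * χ i a - 1) • v = 0 := by rw [sub_smul, h6, one_smul, sub_self]
    rcases smul_eq_zero.mp h7 with h8 | h8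
    · exact hne (sub_eq_zero.mp h8)
    · exact hv0 h8
  -- an index for every nonzero common eigenvector
  have hidx : ∀ u : V, u ≠ 0 → (∀ a ∈ A, ρ a u = u ∨ ρ a u = -u) → ∃ i, u ∈ W i := by
    intro u hu0 hu
    obtain ⟨ξ, hξ⟩ : ∃ ξ : ↥A → ZMod 3, ∀ a : ↥A, ξ a = if ρ (a : G) u = u then 1 else -1 :=
      ⟨_, fun _ => rfl⟩
    have hmem : u ∈ wt ξ := by
      rw [hwt]
      intro a
      rw [hξ]
      by_cases h : ρ (a : G) u = u
      · rw [if_pos h, one_smul, h]
      · rw [if_neg h, neg_smul, one_smul]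
        rcases hu a.1 a.2 with h' | h'
        · exact absurd h' h
        · exact h'
    have hne : wt ξ ≠ ⊥ := by
      intro hbot
      rw [hbot, Submodule.mem_bot] at hmem
      exact hu0 hmem
    refine ⟨enum.symm ⟨ξ, hne⟩, ?_⟩
    rw [hW, Equiv.apply_symm_apply]
    exact hmem
  -- spanning
  have h5 : ∀ v : V, ∃ f : Fin m → V, (∀ i, f i ∈ W i) ∧ v = ∑ i, f i := by
    obtain ⟨S, hS⟩ : ∃ S : Submodule (ZMod 3) V,
        ∀ v : V, v ∈ S ↔ ∃ f : Fin m → V, (∀ i, f i ∈ W i) ∧ v = ∑ i, f i := by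
      refine ⟨{ carrier := {v | ∃ f : Fin m → V, (∀ i, f i ∈ W i) ∧ v = ∑ i, f i}
                add_mem' := ?_
                zero_mem' := ?_
                smul_mem' := ?_ }, fun v => Iff.rfl⟩
      · rintro x y ⟨f, hf, rfl⟩ ⟨g, hg, rfl⟩
        exact ⟨fun i => f i + g i, fun i => (W i).add_mem (hf i) (hg i),
          Finset.sum_add_distrib.symm⟩
      · exact ⟨fun _ => 0, fun i => (W i).zero_mem, Finset.sum_const_zero.symm⟩
      · rintro t x ⟨f, hf, rfl⟩
        exact ⟨fun i => t • f i, fun i => (W i).smul_mem t (hf i), Finset.smul_sum⟩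
    haveI : Fintype G := Fintype.ofFinite G
    have hspan := m1a_span ρ A hA2 (Finset.univ.filter (fun g : G => g ∈ A))
      (fun a ha => (Finset.mem_filter.mp ha).2)
    have hle : Submodule.span (ZMod 3)
        {u : V | ∀ a ∈ Finset.univ.filter (fun g : G => g ∈ A), ρ a u = u ∨ ρ a u = -u} ≤ S := by
      rw [Submodule.span_le]
      intro u hu
      have hu' : ∀ a ∈ A, ρ a u = u ∨ ρ a u = -u :=
        fun a ha => hu a (Finset.mem_filter.mpr ⟨Finset.mem_univ a, ha⟩)
      by_cases hu0 : u = 0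
      · rw [hu0]
        exact S.zero_mem
      · obtain ⟨i, hi⟩ := hidx u hu0 hu'
        rw [SetLike.mem_coe, hS]
        refine ⟨fun k => if k = i then u else 0, ?_, ?_⟩
        · intro k
          show (if k = i then u else 0) ∈ W k
          by_cases hk : k = i
          · rw [if_pos hk, hk]
            exact hi
          · rw [if_neg hk]
            exact (W k).zero_mem
        · rw [Finset.sum_ite_eq' Finset.univ i (fun _ => u), if_pos (Finset.mem_univ i)]
    intro v
    rw [← hS]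
    exact hle (by rw [hspan]; exact Submodule.mem_top)
  -- independence
  have h6 : ∀ f : Fin m → V, (∀ i, f i ∈ W i) → ∑ i, f i = 0 → ∀ i, f i = 0 := by
    intro f hf hsum i
    exact m1a_indep ρ A m W χ h2 h3 Finset.univ f (fun i _ => hf i) hsum i (Finset.mem_univ i)
  -- `G` permutes the weight spaces
  have h7 : ∀ g : G, ∀ i, ∃ j, ∀ v ∈ W i, ρ g v ∈ W j := by
    intro g i
    have hconj : ∀ a : ↥A, g⁻¹ * (a : G) * g ∈ A := by
      intro a
      have h8 := hAn.conj_mem a.1 a.2 g⁻¹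
      rw [inv_inv] at h8
      exact h8
    obtain ⟨ξ', hξ'⟩ : ∃ ξ' : ↥A → ZMod 3, ∀ a : ↥A, ξ' a = (enum i).1 ⟨g⁻¹ * (a : G) * g, hconj a⟩ :=
      ⟨_, fun _ => rfl⟩
    have hmap : ∀ v ∈ W i, ρ g v ∈ wt ξ' := by
      intro v hv
      rw [hW, hwt] at hv
      rw [hwt]
      intro a
      have h8 := hv ⟨g⁻¹ * (a : G) * g, hconj a⟩
      rw [hξ', ← map_smul, ← h8, ← Module.End.mul_apply, ← map_mul, ← Module.End.mul_apply,
        ← map_mul]
      congr 2
      group
    have hne : wt ξ' ≠ ⊥ := by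
      obtain ⟨v, hv, hv0⟩ := (Submodule.ne_bot_iff _).mp (h1 i)
      intro hbot
      have h8 := hmap v hv
      rw [hbot, Submodule.mem_bot] at h8
      apply hv0
      have h9 : ρ g⁻¹ (ρ g v) = v := by
        rw [← Module.End.mul_apply, ← map_mul, inv_mul_cancel, map_one, Module.End.one_apply]
      rw [← h9, h8, map_zero]
    refine ⟨enum.symm ⟨ξ', hne⟩, ?_⟩
    intro v hv
    rw [hW, Equiv.apply_symm_apply]
    exact hmap v hv
  exact ⟨m, W, χ, h1, h2, h3, h4, h5, h6, h7⟩

end abs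

end Cfsg.Agent.Helper59.N15
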