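-- helper59, CALL S4415 (helper63), piece m2: the permutation lemma `n ≤ 4`.
import Cfsg.Prelude.Def_Transfer
import Cfsg.Prelude.Def_Solvable
import Cfsg.Agent.Helper63.N15Defs

set_option autoImplicit false

namespace Cfsg.Agent.Helper59.N15

open Cfsg.Agent.Helper63.N15

/-- `c` acts on the points as the `3`-cycle `u₁ → u₂ → u₃ → u₁`. -/
def M2Tri {G : Type*} {n : ℕ} (p : G → Fin n → Fin n) (c : G) (u₁ u₂ u₃ : Fin n) : Prop :=
  u₁ ≠ u₂ ∧ u₂ ≠ u₃ ∧ u₁ ≠ u₃ ∧ p c u₁ = u₂ ∧ p c u₂ = u₃ ∧ p c u₃ = u₁ ∧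
    ∀ j, j ≠ u₁ → j ≠ u₂ → j ≠ u₃ → p c j = j

/-- membership in a triple. -/
def M2In {n : ℕ} (u₁ u₂ u₃ j : Fin n) : Prop := j = u₁ ∨ j = u₂ ∨ j = u₃

section perm

variable {G : Type*} [Group G] {n : ℕ} {p : G → Fin n → Fin n}

theorem m2_inv_left (hmul : ∀ g h i, p (g * h) i = p g (p h i)) (hone : ∀ i, p 1 i = i)
    (g : G) (i : Fin n) : p g⁻¹ (p g i) = i := by
  rw [← hmul, inv_mul_cancel, hone]

theorem m2_inv_right (hmul : ∀ g h i, p (g * h) i = p g (p h i)) (hone : ∀ i, p 1 i = i)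
    (g : G) (i : Fin n) : p g (p g⁻¹ i) = i := by
  rw [← hmul, mul_inv_cancel, hone]

theorem m2_inj (hmul : ∀ g h i, p (g * h) i = p g (p h i)) (hone : ∀ i, p 1 i = i)
    (g : G) {i j : Fin n} (h : p g i = p g j) : i = j := by
  rw [← m2_inv_left hmul hone g i, h, m2_inv_left hmul hone]

theorem m2_rot {c : G} {u₁ u₂ u₃ : Fin n} (h : M2Tri p c u₁ u₂ u₃) : M2Tri p c u₂ u₃ u₁ := by
  obtain ⟨h12, h23, h13, e1, e2, e3, hfix⟩ := h
  exact ⟨h23, h13.symm, h12.symm, e2, e3, e1, fun j a b c' => hfix j c' a b⟩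

theorem m2_conj (hmul : ∀ g h i, p (g * h) i = p g (p h i)) (hone : ∀ i, p 1 i = i)
    (g : G) {c : G} {u₁ u₂ u₃ : Fin n} (h : M2Tri p c u₁ u₂ u₃) :
    M2Tri p (g * c * g⁻¹) (p g u₁) (p g u₂) (p g u₃) := by
  obtain ⟨h12, h23, h13, e1, e2, e3, hfix⟩ := h
  have hc : ∀ u, p (g * c * g⁻¹) (p g u) = p g (p c u) := by
    intro u
    rw [hmul, hmul, m2_inv_left hmul hone]
  refine ⟨fun h => h12 (m2_inj hmul hone g h), fun h => h23 (m2_inj hmul hone g h),
    fun h => h13 (m2_inj hmul hone g h), ?_, ?_, ?_, ?_⟩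
  · rw [hc, e1]
  · rw [hc, e2]
  · rw [hc, e3]
  · intro j j1 j2 j3
    have hj : j = p g (p g⁻¹ j) := (m2_inv_right hmul hone g j).symm
    have k1 : p g⁻¹ j ≠ u₁ := fun h => j1 (by rw [hj, h])
    have k2 : p g⁻¹ j ≠ u₂ := fun h => j2 (by rw [hj, h])
    have k3 : p g⁻¹ j ≠ u₃ := fun h => j3 (by rw [hj, h])
    rw [hmul, hmul, hfix _ k1 k2 k3, m2_inv_right hmul hone]

/-- two `3`-cycles whose supports meet in exactly one point (first version). -/
theorem m2_key (hmul : ∀ g h i, p (g * h) i = p g (p h i)) (hone : ∀ i, p 1 i = i)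
    (hord : ∀ g h : G, ∃ k : ℕ, Nat.Coprime k 3 ∧ (g * h * g⁻¹ * h⁻¹) ^ k = 1)
    {c d : G} {x a a' b b' : Fin n} (hc : M2Tri p c x a a') (hd : M2Tri p d x b b')
    (h1 : a ≠ b) (h2 : a ≠ b') (h3 : a' ≠ b) (h4 : a' ≠ b') : False := by
  obtain ⟨cxa, caa', cxa', ec1, ec2, ec3, cfix⟩ := hc
  obtain ⟨dxb, dbb', dxb', ed1, ed2, ed3, dfix⟩ := hd
  -- inverse actions
  have ic1 : p c⁻¹ a = x := by rw [← ec1, m2_inv_left hmul hone]
  have ic3 : p c⁻¹ x = a' := by rw [← ec3, m2_inv_left hmul hone]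
  have id1 : p d⁻¹ b = x := by rw [← ed1, m2_inv_left hmul hone]
  have id3 : p d⁻¹ x = b' := by rw [← ed3, m2_inv_left hmul hone]
  have cb : p c b = b := cfix b dxb.symm (Ne.symm h1) (Ne.symm h3)
  have cb' : p c b' = b' := cfix b' dxb'.symm (Ne.symm h2) (Ne.symm h4)
  have da : p d a = a := dfix a cxa.symm h1 h2
  have da' : p d a' = a' := dfix a' cxa'.symm h3 h4
  have icb' : p c⁻¹ b' = b' := by
    have := m2_inv_left hmul hone c b'
    rw [cb'] at this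
    exact this
  have ida : p d⁻¹ a = a := by
    have := m2_inv_left hmul hone d a
    rw [da] at this
    exact this
  obtain ⟨w, hw⟩ : ∃ w : G, w = c * d * c⁻¹ * d⁻¹ := ⟨_, rfl⟩
  have hwx : p w x = a := by
    rw [hw, hmul, hmul, hmul, id3, icb', ed3, ec1]
  have hwa : p w a = b := by
    rw [hw, hmul, hmul, hmul, ida, ic1, ed1, cb]
  have hwb : p w b = x := by
    rw [hw, hmul, hmul, hmul, id1, ic3, da', ec3]
  have hpow : ∀ j : ℕ, p (w ^ j) x = if j % 3 = 0 then x else if j % 3 = 1 then a else b := by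
    intro j
    induction j with
    | zero => simp [hone]
    | succ j ih =>
      rw [pow_succ', hmul, ih]
      have h3 : j % 3 = 0 ∨ j % 3 = 1 ∨ j % 3 = 2 := by omega
      rcases h3 with h | h | h
      · have h' : (j + 1) % 3 = 1 := by omega
        rw [if_pos h, if_neg (by omega), if_pos h', hwx]
      · have h' : (j + 1) % 3 = 2 := by omega
        rw [if_neg (by omega), if_pos h, if_neg (by omega), if_neg (by omega), hwa]
      · have h' : (j + 1) % 3 = 0 := by omega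
        rw [if_neg (by omega), if_neg (by omega), if_pos h', hwb]
  obtain ⟨k, hk3, hk⟩ := hord c d
  rw [← hw] at hk
  have h5 := hpow k
  rw [hk, hone] at h5
  have hk' : k % 3 ≠ 0 := by
    intro h0
    have h6 : 3 ∣ k := Nat.dvd_of_mod_eq_zero h0
    have h7 : Nat.gcd k 3 = 3 := Nat.gcd_eq_right h6
    rw [Nat.Coprime] at hk3
    omega
  rw [if_neg hk'] at h5
  by_cases h8 : k % 3 = 1
  · rw [if_pos h8] at h5
    exact cxa h5
  · rw [if_neg h8] at h5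
    exact dxb h5

theorem m2_first {c : G} {u₁ u₂ u₃ x : Fin n} (h : M2Tri p c u₁ u₂ u₃) (hx : M2In u₁ u₂ u₃ x) :
    ∃ a a', M2Tri p c x a a' ∧ M2In u₁ u₂ u₃ a ∧ M2In u₁ u₂ u₃ a' := by
  rcases hx with rfl | rfl | rfl
  · exact ⟨u₂, u₃, h, Or.inr (Or.inl rfl), Or.inr (Or.inr rfl)⟩
  · exact ⟨u₃, u₁, m2_rot h, Or.inr (Or.inr rfl), Or.inl rfl⟩
  · exact ⟨u₁, u₂, m2_rot (m2_rot h), Or.inl rfl, Or.inr (Or.inl rfl)⟩

/-- two `3`-cycles whose supports meet in exactly one point: impossible. -/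
theorem m2_one (hmul : ∀ g h i, p (g * h) i = p g (p h i)) (hone : ∀ i, p 1 i = i)
    (hord : ∀ g h : G, ∃ k : ℕ, Nat.Coprime k 3 ∧ (g * h * g⁻¹ * h⁻¹) ^ k = 1)
    {c d : G} {u₁ u₂ u₃ w₁ w₂ w₃ : Fin n} (hc : M2Tri p c u₁ u₂ u₃) (hd : M2Tri p d w₁ w₂ w₃)
    (x : Fin n) (hxu : M2In u₁ u₂ u₃ x) (hxw : M2In w₁ w₂ w₃ x)
    (huniq : ∀ y, M2In u₁ u₂ u₃ y → M2In w₁ w₂ w₃ y → y = x) : False := by
  obtain ⟨a, a', hc', ha, ha'⟩ := m2_first hc hxu
  obtain ⟨b, b', hd', hb, hb'⟩ := m2_first hd hxw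
  have hxa : x ≠ a := hc'.1
  have hxa' : x ≠ a' := hc'.2.2.1
  have hxb : x ≠ b := hd'.1
  have hxb' : x ≠ b' := hd'.2.2.1
  refine m2_key hmul hone hord hc' hd' ?_ ?_ ?_ ?_
  · intro h
    exact hxa (huniq a ha (h ▸ hb)).symm
  · intro h
    exact hxa (huniq a ha (h ▸ hb')).symm
  · intro h
    exact hxa' (huniq a' ha' (h ▸ hb)).symm
  · intro h
    exact hxa' (huniq a' ha' (h ▸ hb')).symm

/-- a `3`-cycle whose support is neither inside nor disjoint from the support of another one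
meets it in exactly two points. -/
theorem m2_two (hmul : ∀ g h i, p (g * h) i = p g (p h i)) (hone : ∀ i, p 1 i = i)
    (hord : ∀ g h : G, ∃ k : ℕ, Nat.Coprime k 3 ∧ (g * h * g⁻¹ * h⁻¹) ^ k = 1)
    {c d : G} {t₁ t₂ t₃ w₁ w₂ w₃ : Fin n} (hc : M2Tri p c t₁ t₂ t₃) (hd : M2Tri p d w₁ w₂ w₃)
    (hin : ¬ (M2In w₁ w₂ w₃ t₁ ∧ M2In w₁ w₂ w₃ t₂ ∧ M2In w₁ w₂ w₃ t₃))
    (hout : ¬ (¬ M2In w₁ w₂ w₃ t₁ ∧ ¬ M2In w₁ w₂ w₃ t₂ ∧ ¬ M2In w₁ w₂ w₃ t₃)) :
    ∃ x y q, M2Tri p c x y q ∧ M2In w₁ w₂ w₃ x ∧ M2In w₁ w₂ w₃ y ∧ ¬ M2In w₁ w₂ w₃ q := by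
  by_cases h1 : M2In w₁ w₂ w₃ t₁ <;> by_cases h2 : M2In w₁ w₂ w₃ t₂ <;>
    by_cases h3 : M2In w₁ w₂ w₃ t₃
  · exact absurd ⟨h1, h2, h3⟩ hin
  · exact ⟨t₁, t₂, t₃, hc, h1, h2, h3⟩
  · exact ⟨t₃, t₁, t₂, m2_rot (m2_rot hc), h3, h1, h2⟩
  · exfalso
    refine m2_one hmul hone hord hc hd t₁ (Or.inl rfl) h1 ?_
    rintro y (rfl | rfl | rfl) hy
    · rfl
    · exact absurd hy h2
    · exact absurd hy h3
  · exact ⟨t₂, t₃, t₁, m2_rot hc, h2, h3, h1⟩
  · exfalso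
    refine m2_one hmul hone hord hc hd t₂ (Or.inr (Or.inl rfl)) h2 ?_
    rintro y (rfl | rfl | rfl) hy
    · exact absurd hy h1
    · rfl
    · exact absurd hy h3
  · exfalso
    refine m2_one hmul hone hord hc hd t₃ (Or.inr (Or.inr rfl)) h3 ?_
    rintro y (rfl | rfl | rfl) hy
    · exact absurd hy h1
    · exact absurd hy h2
    · rfl
  · exact absurd ⟨h1, h2, h3⟩ hout

theorem m2_rot_out {c : G} {t₁ t₂ t₃ : Fin n} (hc : M2Tri p c t₁ t₂ t₃) (A : Fin n → Prop)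
    (hin : ¬ (A t₁ ∧ A t₂ ∧ A t₃)) (hout : ¬ (¬ A t₁ ∧ ¬ A t₂ ∧ ¬ A t₃)) :
    ∃ a b r, M2Tri p c a b r ∧ ¬ A r ∧ (A a ∨ A b) := by
  by_cases h3 : A t₃
  · by_cases h2 : A t₂
    · have h1 : ¬ A t₁ := fun h1 => hin ⟨h1, h2, h3⟩
      exact ⟨t₂, t₃, t₁, m2_rot hc, h1, Or.inl h2⟩
    · exact ⟨t₃, t₁, t₂, m2_rot (m2_rot hc), h2, Or.inl h3⟩
  · refine ⟨t₁, t₂, t₃, hc, h3, ?_⟩
    by_contra hcon
    push_neg at hcon
    exact hout ⟨hcon.1, hcon.2, h3⟩

theorem m2_third {i₁ i₂ i₃ x y : Fin n} (hx : M2In i₁ i₂ i₃ x)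
    (hy : M2In i₁ i₂ i₃ y) (hxy : x ≠ y) (h12 : i₁ ≠ i₂) (h23 : i₂ ≠ i₃) (h13 : i₁ ≠ i₃) :
    ∃ z, z ≠ x ∧ z ≠ y ∧ ∀ j, M2In i₁ i₂ i₃ j ↔ (j = x ∨ j = y ∨ j = z) := by
  unfold M2In at *
  rcases hx with rfl | rfl | rfl <;> rcases hy with rfl | rfl | rfl
  · exact absurd rfl hxy
  · exact ⟨i₃, h13.symm, h23.symm, fun j => by tauto⟩
  · exact ⟨i₂, h12.symm, h23, fun j => by tauto⟩
  · exact ⟨i₃, h23.symm, h13.symm, fun j => by tauto⟩
  · exact absurd rfl hxy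
  · exact ⟨i₁, h12, h13, fun j => by tauto⟩
  · exact ⟨i₂, h23, h12.symm, fun j => by tauto⟩
  · exact ⟨i₁, h13, h12, fun j => by tauto⟩
  · exact absurd rfl hxy

theorem m2_out4 (hn : 5 ≤ n) (a b c d : Fin n) : ∃ j : Fin n, j ≠ a ∧ j ≠ b ∧ j ≠ c ∧ j ≠ d := by
  by_contra hcon
  push_neg at hcon
  have h0 := hcon ⟨0, by omega⟩
  have h1 := hcon ⟨1, by omega⟩
  have h2 := hcon ⟨2, by omega⟩
  have h3 := hcon ⟨3, by omega⟩
  have h4 := hcon ⟨4, by omega⟩
  simp only [ne_eq, Fin.ext_iff] at h0 h1 h2 h3 h4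
  omega

/-- a set of points which contains or avoids the support of every conjugate of `b` is invariant. -/
theorem m2_invariant (hmul : ∀ g h i, p (g * h) i = p g (p h i)) (hone : ∀ i, p 1 i = i)
    {b : G} (hgen : ∀ g : G, g ∈ Subgroup.normalClosure ({b} : Set G))
    {i₁ i₂ i₃ : Fin n} (hb : M2Tri p b i₁ i₂ i₃) (A : Fin n → Prop)
    (hA : ∀ g : G, (A (p g i₁) ∧ A (p g i₂) ∧ A (p g i₃)) ∨
      (¬ A (p g i₁) ∧ ¬ A (p g i₂) ∧ ¬ A (p g i₃))) :
    ∀ g : G, ∀ j, A j ↔ A (p g j) := by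
  intro g
  have hg := hgen g
  unfold Subgroup.normalClosure at hg
  induction hg using Subgroup.closure_induction with
  | mem x hx =>
    obtain ⟨b', hb', hconj⟩ := Group.mem_conjugatesOfSet_iff.mp hx
    rw [Set.mem_singleton_iff] at hb'
    subst hb'
    obtain ⟨h, rfl⟩ := isConj_iff.mp hconj
    obtain ⟨t12, t23, t13, e1, e2, e3, hfix⟩ := m2_conj hmul hone h hb
    intro j
    have hall : (A (p h i₁) ↔ A (p h i₂)) ∧ (A (p h i₂) ↔ A (p h i₃)) := by
      rcases hA h with ⟨a1, a2, a3⟩ | ⟨a1, a2, a3⟩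
      · exact ⟨⟨fun _ => a2, fun _ => a1⟩, ⟨fun _ => a3, fun _ => a2⟩⟩
      · exact ⟨⟨fun h' => absurd h' a1, fun h' => absurd h' a2⟩,
          ⟨fun h' => absurd h' a2, fun h' => absurd h' a3⟩⟩
    by_cases j1 : j = p h i₁
    · rw [j1, e1]
      exact hall.1
    · by_cases j2 : j = p h i₂
      · rw [j2, e2]
        exact hall.2
      · by_cases j3 : j = p h i₃
        · rw [j3, e3]
          exact (hall.1.trans hall.2).symm
        · rw [hfix j j1 j2 j3]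
  | one =>
    intro j
    rw [hone]
  | mul x y _ _ ihx ihy =>
    intro j
    rw [hmul]
    exact (ihy j).trans (ihx (p y j))
  | inv x _ ih =>
    intro j
    have h1 := ih (p x⁻¹ j)
    rw [m2_inv_right hmul hone] at h1
    exact h1.symm

theorem m2_main (hmul : ∀ g h i, p (g * h) i = p g (p h i)) (hone : ∀ i, p 1 i = i)
    (hord : ∀ g h : G, ∃ k : ℕ, Nat.Coprime k 3 ∧ (g * h * g⁻¹ * h⁻¹) ^ k = 1)
    (htr : ∀ i j : Fin n, ∃ g : G, p g i = j)
    {b : G} (hgen : ∀ g : G, g ∈ Subgroup.normalClosure ({b} : Set G))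
    {i₁ i₂ i₃ : Fin n} (hb : M2Tri p b i₁ i₂ i₃) : n ≤ 4 := by
  by_contra hn
  have hn5 : 5 ≤ n := by omega
  have hb' := hb
  obtain ⟨h12, h23, h13, eb1, eb2, eb3, bfix⟩ := hb'
  -- step (ii)
  have hstep2 : ∃ g : G, ¬ ((M2In i₁ i₂ i₃ (p g i₁) ∧ M2In i₁ i₂ i₃ (p g i₂) ∧
      M2In i₁ i₂ i₃ (p g i₃)) ∨ (¬ M2In i₁ i₂ i₃ (p g i₁) ∧ ¬ M2In i₁ i₂ i₃ (p g i₂) ∧
      ¬ M2In i₁ i₂ i₃ (p g i₃))) := by
    by_contra hcon
    push_neg at hcon
    have hinv := m2_invariant hmul hone hgen hb (M2In i₁ i₂ i₃) (fun g => by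
      by_contra h'
      exact absurd (hcon g) (by
        intro h''
        exact h' (by tauto)))
    obtain ⟨j, j1, j2, j3, -⟩ := m2_out4 hn5 i₁ i₂ i₃ i₃
    obtain ⟨g, hg⟩ := htr i₁ j
    have h1 : M2In i₁ i₂ i₃ (p g i₁) := (hinv g i₁).mp (Or.inl rfl)
    rw [hg] at h1
    rcases h1 with h1 | h1 | h1
    · exact j1 h1
    · exact j2 h1
    · exact j3 h1
  obtain ⟨g, hg⟩ := hstep2
  have hcg := m2_conj hmul hone g hb
  obtain ⟨x, y, q, hxyq, hx, hy, hq⟩ := m2_two hmul hone hord hcg hb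
    (fun h => hg (Or.inl h)) (fun h => hg (Or.inr h))
  obtain ⟨xy, yq, xq, eg1, eg2, eg3, gfix⟩ := id hxyq
  obtain ⟨z, zx, zy, hΔ⟩ := m2_third hx hy xy h12 h23 h13
  have hzΔ : M2In i₁ i₂ i₃ z := (hΔ z).mpr (Or.inr (Or.inr rfl))
  have zq : z ≠ q := fun h => hq (h ▸ hzΔ)
  -- step (iii)
  obtain ⟨A, hAdef⟩ : ∃ A : Fin n → Prop, ∀ j, A j ↔ (M2In i₁ i₂ i₃ j ∨ j = q) :=
    ⟨fun j => M2In i₁ i₂ i₃ j ∨ j = q, fun _ => Iff.rfl⟩
  have hstep3 : ∃ h : G, ¬ ((A (p h i₁) ∧ A (p h i₂) ∧ A (p h i₃)) ∨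
      (¬ A (p h i₁) ∧ ¬ A (p h i₂) ∧ ¬ A (p h i₃))) := by
    by_contra hcon
    push_neg at hcon
    have hinv := m2_invariant hmul hone hgen hb A (fun g => by
      by_contra h'
      exact absurd (hcon g) (by
        intro h''
        exact h' (by tauto)))
    obtain ⟨j, j1, j2, j3, j4⟩ := m2_out4 hn5 x y z q
    obtain ⟨g', hg'⟩ := htr i₁ j
    have h1 : A (p g' i₁) := (hinv g' i₁).mp ((hAdef i₁).mpr (Or.inl (Or.inl rfl)))
    rw [hg', hAdef] at h1
    rcases h1 with h1 | h1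
    · rcases (hΔ j).mp h1 with h2 | h2 | h2
      · exact j1 h2
      · exact j2 h2
      · exact j3 h2
    · exact j4 h1
  obtain ⟨h, hh⟩ := hstep3
  have hch := m2_conj hmul hone h hb
  obtain ⟨s₁, s₂, r, hs, hrA, hsA⟩ := m2_rot_out hch A (fun h' => hh (Or.inl h'))
    (fun h' => hh (Or.inr h'))
  obtain ⟨s12, s2r, s1r, eh1, eh2, eh3, hfix'⟩ := id hs
  have hrΔ : ¬ M2In i₁ i₂ i₃ r := fun h' => hrA ((hAdef r).mpr (Or.inl h'))
  have hrq : r ≠ q := fun h' => hrA ((hAdef r).mpr (Or.inr h'))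
  have hrx : r ≠ x := fun h' => hrΔ (h' ▸ hx)
  have hry : r ≠ y := fun h' => hrΔ (h' ▸ hy)
  have hrz : r ≠ z := fun h' => hrΔ (h' ▸ hzΔ)
  -- `s₁, s₂` are both in `Δ` or both outside
  have hα : M2In i₁ i₂ i₃ s₁ ↔ M2In i₁ i₂ i₃ s₂ := by
    constructor
    · intro h1
      by_contra h2
      refine m2_one hmul hone hord hs hb s₁ (Or.inl rfl) h1 ?_
      rintro y' (rfl | rfl | rfl) hy'
      · rfl
      · exact absurd hy' h2
      · exact absurd hy' hrΔ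
    · intro h2
      by_contra h1
      refine m2_one hmul hone hord hs hb s₂ (Or.inr (Or.inl rfl)) h2 ?_
      rintro y' (rfl | rfl | rfl) hy'
      · exact absurd hy' h1
      · rfl
      · exact absurd hy' hrΔ
  have hrT : ¬ M2In x y q r := by
    rintro (h' | h' | h')
    · exact hrx h'
    · exact hry h'
    · exact hrq h'
  have hβ : M2In x y q s₁ ↔ M2In x y q s₂ := by
    constructor
    · intro h1
      by_contra h2
      refine m2_one hmul hone hord hs hxyq s₁ (Or.inl rfl) h1 ?_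
      rintro y' (rfl | rfl | rfl) hy'
      · rfl
      · exact absurd hy' h2
      · exact absurd hy' hrT
    · intro h2
      by_contra h1
      refine m2_one hmul hone hord hs hxyq s₂ (Or.inr (Or.inl rfl)) h2 ?_
      rintro y' (rfl | rfl | rfl) hy'
      · exact absurd hy' h1
      · rfl
      · exact absurd hy' hrT
  have hqΔ : ¬ M2In i₁ i₂ i₃ q := hq
  have hfinal : (s₁ = x ∧ s₂ = y) ∨ (s₁ = y ∧ s₂ = x) := by
    by_cases h1 : M2In i₁ i₂ i₃ s₁
    · have h2 : M2In i₁ i₂ i₃ s₂ := hα.mp h1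
      have k1 := (hΔ s₁).mp h1
      have k2 := (hΔ s₂).mp h2
      have hs2q : s₂ ≠ q := fun h' => hqΔ (h' ▸ h2)
      have hs1q : s₁ ≠ q := fun h' => hqΔ (h' ▸ h1)
      rcases k1 with k1 | k1 | k1
      · -- s₁ = x
        have h3 : M2In x y q s₂ := hβ.mp (Or.inl k1)
        rcases h3 with h3 | h3 | h3
        · exact absurd (k1.trans h3.symm) s12
        · exact Or.inl ⟨k1, h3⟩
        · exact absurd h3 hs2q
      · -- s₁ = y
        have h3 : M2In x y q s₂ := hβ.mp (Or.inr (Or.inl k1))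
        rcases h3 with h3 | h3 | h3
        · exact Or.inr ⟨k1, h3⟩
        · exact absurd (k1.trans h3.symm) s12
        · exact absurd h3 hs2q
      · -- s₁ = z
        exfalso
        rcases k2 with k2 | k2 | k2
        · have h3 : M2In x y q s₁ := hβ.mpr (Or.inl k2)
          rw [k1] at h3
          rcases h3 with h3 | h3 | h3
          · exact zx h3
          · exact zy h3
          · exact zq h3
        · have h3 : M2In x y q s₁ := hβ.mpr (Or.inr (Or.inl k2))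
          rw [k1] at h3
          rcases h3 with h3 | h3 | h3
          · exact zx h3
          · exact zy h3
          · exact zq h3
        · exact s12 (k1.trans k2.symm)
    · exfalso
      have h2 : ¬ M2In i₁ i₂ i₃ s₂ := fun h' => h1 (hα.mpr h')
      rcases hsA with hsA | hsA
      · rcases (hAdef s₁).mp hsA with h3 | h3
        · exact h1 h3
        · have h4 : M2In x y q s₂ := hβ.mp (Or.inr (Or.inr h3))
          rcases h4 with h4 | h4 | h4
          · exact h2 (h4 ▸ hx)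
          · exact h2 (h4 ▸ hy)
          · exact s12 (h3.trans h4.symm)
      · rcases (hAdef s₂).mp hsA with h3 | h3
        · exact h2 h3
        · have h4 : M2In x y q s₁ := hβ.mpr (Or.inr (Or.inr h3))
          rcases h4 with h4 | h4 | h4
          · exact h1 (h4 ▸ hx)
          · exact h1 (h4 ▸ hy)
          · exact s12 (h4.trans h3.symm)
  -- the conjugate of `b` by `g * b * g⁻¹`
  have hc' := m2_conj hmul hone (g * b * g⁻¹) hb
  have hgz : p (g * b * g⁻¹) z = z := gfix z zx zy zq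
  have himg : ∀ j, M2In (p (g * b * g⁻¹) i₁) (p (g * b * g⁻¹) i₂) (p (g * b * g⁻¹) i₃) j →
      j = y ∨ j = q ∨ j = z := by
    have hpt : ∀ i, M2In i₁ i₂ i₃ i → p (g * b * g⁻¹) i = y ∨ p (g * b * g⁻¹) i = q ∨
        p (g * b * g⁻¹) i = z := by
      intro i hi
      rcases (hΔ i).mp hi with rfl | rfl | rfl
      · exact Or.inl eg1
      · exact Or.inr (Or.inl eg2)
      · exact Or.inr (Or.inr hgz)
    rintro j (rfl | rfl | rfl)
    · exact hpt i₁ (Or.inl rfl)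
    · exact hpt i₂ (Or.inr (Or.inl rfl))
    · exact hpt i₃ (Or.inr (Or.inr rfl))
  have hyimg : M2In (p (g * b * g⁻¹) i₁) (p (g * b * g⁻¹) i₂) (p (g * b * g⁻¹) i₃) y := by
    rcases hx with h' | h' | h'
    · left
      rw [← h', eg1]
    · right; left
      rw [← h', eg1]
    · right; right
      rw [← h', eg1]
  have hys : M2In s₁ s₂ r y := by
    rcases hfinal with ⟨-, h'⟩ | ⟨h', -⟩
    · exact Or.inr (Or.inl h'.symm)
    · exact Or.inl h'.symm
  refine m2_one hmul hone hord hc' hs y hyimg hys ?_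
  intro j hj1 hj2
  have hj2' : j = x ∨ j = y ∨ j = r := by
    rcases hfinal with ⟨e1, e2⟩ | ⟨e1, e2⟩
    · rcases hj2 with h' | h' | h'
      · exact Or.inl (h'.trans e1)
      · exact Or.inr (Or.inl (h'.trans e2))
      · exact Or.inr (Or.inr h')
    · rcases hj2 with h' | h' | h'
      · exact Or.inr (Or.inl (h'.trans e1))
      · exact Or.inl (h'.trans e2)
      · exact Or.inr (Or.inr h')
  rcases himg j hj1 with h' | h' | h'
  · exact h'
  · exfalso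
    rcases hj2' with h'' | h'' | h''
    · exact xq (h''.symm.trans h')
    · exact yq (h''.symm.trans h')
    · exact hrq (h''.symm.trans h')
  · exfalso
    rcases hj2' with h'' | h'' | h''
    · exact zx (h'.symm.trans h'')
    · exact zy (h'.symm.trans h'')
    · exact hrz (h''.symm.trans h')

end perm

section abs

variable {G : Type*} [Group G] [Finite G] {V : Type*} [AddCommGroup V] [Module (ZMod 3) V]
  [Finite V] {ρ : Representation (ZMod 3) G V} {R : Subgroup G} {b q₁ q₂ q₃ : G} {v₁ v₂ v₃ : V}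

theorem m2 (c : Cfg ρ R b q₁ q₂ q₃ v₁ v₂ v₃)
    (hf1 : ∀ N : Subgroup G, N.Normal → b ∈ N → N = ⊤)
    (hf3 : ∀ g h : G, g * h * g⁻¹ * h⁻¹ ∈ R)
    (n : ℕ) (e : Module.Basis (Fin n) (ZMod 3) V) (h : MonoN ρ b n e) : n ≤ 4 := by
  classical
  obtain ⟨hact, htrans, i₁, i₂, i₃, h12, h23, h13, hb1, hb2, hb3, hbfix⟩ := h
  have hne1 : (1 : ZMod 3) ≠ -1 := by decide
  have huniq : ∀ i j : Fin n, (e i = e j ∨ e i = -e j) → i = j := by
    intro i j hij
    rcases hij with hij | hij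
    · exact e.injective hij
    · exfalso
      have h1 := congrArg (fun v => e.repr v i) hij
      simp only [Module.Basis.repr_self, map_neg, Finsupp.single_eq_same,
        Finsupp.coe_neg, Pi.neg_apply] at h1
      by_cases hji : j = i
      · subst hji
        rw [Finsupp.single_eq_same] at h1
        exact hne1 h1
      · rw [Finsupp.single_eq_of_ne (Ne.symm hji)] at h1
        simp at h1
  choose p hp using hact
  have hpuniq : ∀ (g : G) (i j : Fin n), (ρ g (e i) = e j ∨ ρ g (e i) = -e j) → p g i = j := by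
    intro g i j hj
    apply huniq
    rcases hp g i with h1 | h1 <;> rcases hj with h2 | h2
    · left; rw [← h1, h2]
    · right; rw [← h1, h2]
    · right; rw [← neg_eq_iff_eq_neg.mpr h1, h2]
    · left
      have : -e (p g i) = -e j := by rw [← h1, h2]
      exact neg_injective this
  have hmul : ∀ (g g' : G) (i : Fin n), p (g * g') i = p g (p g' i) := by
    intro g g' i
    apply hpuniq
    rw [map_mul, Module.End.mul_apply]
    rcases hp g' i with h1 | h1 <;> rcases hp g (p g' i) with h2 | h2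
    · left; rw [h1, h2]
    · right; rw [h1, h2]
    · right; rw [h1, map_neg, h2]
    · left; rw [h1, map_neg, h2, neg_neg]
  have hone : ∀ i : Fin n, p 1 i = i := by
    intro i
    apply hpuniq
    left
    rw [map_one, Module.End.one_apply]
  have hord : ∀ g h : G, ∃ k : ℕ, Nat.Coprime k 3 ∧ (g * h * g⁻¹ * h⁻¹) ^ k = 1 := by
    intro g h
    refine ⟨Nat.card R, c.R3, ?_⟩
    have h1 : (⟨g * h * g⁻¹ * h⁻¹, hf3 g h⟩ : ↥R) ^ Nat.card R = 1 := pow_card_eq_one'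
    have h2 : (((⟨g * h * g⁻¹ * h⁻¹, hf3 g h⟩ : ↥R) ^ Nat.card R : ↥R) : G) = ((1 : ↥R) : G) :=
      congrArg Subtype.val h1
    rw [Subgroup.coe_pow, Subgroup.coe_one] at h2
    exact h2
  have htr : ∀ i j : Fin n, ∃ g : G, p g i = j := by
    intro i j
    obtain ⟨g, hg⟩ := htrans i j
    exact ⟨g, hpuniq g i j hg⟩
  have hgen : ∀ g : G, g ∈ Subgroup.normalClosure ({b} : Set G) := by
    intro g
    have h1 := hf1 (Subgroup.normalClosure ({b} : Set G)) Subgroup.normalClosure_normal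
      (Subgroup.subset_normalClosure (Set.mem_singleton b))
    rw [h1]
    exact Subgroup.mem_top g
  have hb : M2Tri p b i₁ i₂ i₃ := by
    refine ⟨h12, h23, h13, hpuniq b i₁ i₂ (Or.inl hb1), hpuniq b i₂ i₃ (Or.inl hb2),
      hpuniq b i₃ i₁ (Or.inl hb3), ?_⟩
    intro j j1 j2 j3
    exact hpuniq b j j (Or.inl (hbfix j j1 j2 j3))
  exact m2_main hmul hone hord htr hgen hb

end abs

end Cfsg.Agent.Helper59.N15
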