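-- helper59, CALL S4415 (helper63), piece m4a: in dimension `4` every `r ∈ R` acts on the four
-- lines trivially or as a fixed-point-free involution.
import Cfsg.Prelude.Def_Transfer
import Cfsg.Prelude.Def_Solvable
import Cfsg.Agent.Helper63.N15Defs

set_option autoImplicit false

namespace Cfsg.Agent.Helper59.N15

open Cfsg.Agent.Helper63.N15

/-- the `3`-cycle `(0 1 2)` of `Fin 4`. -/
def m4aSigma : Equiv.Perm (Fin 4) where
  toFun := ![1, 2, 0, 3]
  invFun := ![2, 0, 1, 3]
  left_inv := by decide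
  right_inv := by decide

theorem m4a_check : ∀ x : Equiv.Perm (Fin 4), (x * m4aSigma * x * m4aSigma⁻¹) ^ 8 = 1 →
    x = 1 ∨ ∀ i, x i ≠ i ∧ x (x i) = i := by
  decide +kernel

section abs

variable {G : Type*} [Group G] [Finite G] {V : Type*} [AddCommGroup V] [Module (ZMod 3) V]
  [Finite V] {ρ : Representation (ZMod 3) G V} {R : Subgroup G} {b q₁ q₂ q₃ : G} {v₁ v₂ v₃ : V}

theorem m4a (c : Cfg ρ R b q₁ q₂ q₃ v₁ v₂ v₃) (e₁ e₂ e₃ e₄ : V)
    (h : Mono4 ρ b e₁ e₂ e₃ e₄) :
    ∀ r ∈ R, (∀ e ∈ ({e₁, e₂, e₃, e₄} : Set V), ρ r e = e ∨ ρ r e = -e) ∨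
      (∀ e ∈ ({e₁, e₂, e₃, e₄} : Set V), ρ r e ≠ e ∧ ρ r e ≠ -e ∧
        (ρ r (ρ r e) = e ∨ ρ r (ρ r e) = -e)) := by
  classical
  obtain ⟨hspan, hind, hact, htrans, hb1, hb2, hb3, hb4⟩ := h
  obtain ⟨E, hE⟩ : ∃ E : Fin 4 → V, E = ![e₁, e₂, e₃, e₄] := ⟨_, rfl⟩
  have hE0 : E 0 = e₁ := by rw [hE]; rfl
  have hE1 : E 1 = e₂ := by rw [hE]; rfl
  have hE2 : E 2 = e₃ := by rw [hE]; rfl
  have hE3 : E 3 = e₄ := by rw [hE]; rfl
  have hmemE : ∀ e ∈ ({e₁, e₂, e₃, e₄} : Set V), ∃ i, e = E i := by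
    intro e he
    rcases he with rfl | rfl | rfl | rfl
    · exact ⟨0, hE0.symm⟩
    · exact ⟨1, hE1.symm⟩
    · exact ⟨2, hE2.symm⟩
    · exact ⟨3, hE3.symm⟩
  have hEmem : ∀ i, E i ∈ ({e₁, e₂, e₃, e₄} : Set V) := by
    intro i
    fin_cases i
    · exact Or.inl hE0
    · exact Or.inr (Or.inl hE1)
    · exact Or.inr (Or.inr (Or.inl hE2))
    · exact Or.inr (Or.inr (Or.inr hE3))
  -- independence
  have hne1 : (1 : ZMod 3) ≠ 0 := by decide
  have hne2 : (-1 : ZMod 3) ≠ 0 := by decide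
  have hne3 : (1 + 1 : ZMod 3) ≠ 0 := by decide
  have hcomb : ∀ a : Fin 4 → ZMod 3, a 0 • e₁ + a 1 • e₂ + a 2 • e₃ + a 3 • e₄ = ∑ i, a i • E i := by
    intro a
    rw [Fin.sum_univ_four, hE0, hE1, hE2, hE3]
  have hindE : ∀ a : Fin 4 → ZMod 3, ∑ i, a i • E i = 0 → ∀ i, a i = 0 := by
    intro a ha
    rw [← hcomb] at ha
    obtain ⟨h1, h2, h3, h4⟩ := hind _ _ _ _ ha
    intro i
    fin_cases i
    · exact h1
    · exact h2
    · exact h3
    · exact h4
  have huniq : ∀ i j : Fin 4, (E i = E j ∨ E i = -E j) → i = j := by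
    intro i j hij
    by_contra hne
    rcases hij with hij | hij
    · have h0 := hindE (fun k => if k = i then 1 else if k = j then -1 else 0) (by
        rw [Finset.sum_eq_add_of_mem i j (Finset.mem_univ _) (Finset.mem_univ _) hne]
        · simp only [if_true, if_neg (Ne.symm hne), one_smul, neg_smul]
          rw [hij]
          abel
        · intro k _ hk
          rw [if_neg hk.1, if_neg hk.2, zero_smul]) i
      simp only [if_true] at h0
      exact hne1 h0
    · have h0 := hindE (fun k => if k = i then 1 else if k = j then 1 else 0) (by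
        rw [Finset.sum_eq_add_of_mem i j (Finset.mem_univ _) (Finset.mem_univ _) hne]
        · simp only [if_true, if_neg (Ne.symm hne), one_smul]
          rw [hij]
          abel
        · intro k _ hk
          rw [if_neg hk.1, if_neg hk.2, zero_smul]) i
      simp only [if_true] at h0
      exact hne1 h0
  -- the permutation of the lines
  have hA : ∀ (g : G) (i : Fin 4), ∃ j : Fin 4, ρ g (E i) = E j ∨ ρ g (E i) = -E j := by
    intro g i
    obtain ⟨e', he', h1⟩ := hact g (E i) (hEmem i)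
    obtain ⟨j, rfl⟩ := hmemE e' he'
    exact ⟨j, h1⟩
  choose p hp using hA
  have hpuniq : ∀ (g : G) (i j : Fin 4), (ρ g (E i) = E j ∨ ρ g (E i) = -E j) → p g i = j := by
    intro g i j hj
    apply huniq
    rcases hp g i with h1 | h1 <;> rcases hj with h2 | h2
    · left; rw [← h1, h2]
    · right; rw [← h1, h2]
    · right; rw [← neg_eq_iff_eq_neg.mpr h1, h2]
    · left
      have : -E (p g i) = -E j := by rw [← h1, h2]
      exact neg_injective this
  have hpmul : ∀ (g g' : G) (i : Fin 4), p (g * g') i = p g (p g' i) := by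
    intro g g' i
    apply hpuniq
    rw [map_mul, Module.End.mul_apply]
    rcases hp g' i with h1 | h1 <;> rcases hp g (p g' i) with h2 | h2
    · left; rw [h1, h2]
    · right; rw [h1, h2]
    · right; rw [h1, map_neg, h2]
    · left; rw [h1, map_neg, h2, neg_neg]
  have hpone : ∀ i : Fin 4, p 1 i = i := by
    intro i
    apply hpuniq
    left
    rw [map_one, Module.End.one_apply]
  let π : G →* Equiv.Perm (Fin 4) :=
    { toFun := fun g =>
        { toFun := p g
          invFun := p g⁻¹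
          left_inv := fun i => by rw [← hpmul, inv_mul_cancel, hpone]
          right_inv := fun i => by rw [← hpmul, mul_inv_cancel, hpone] }
      map_one' := by
        apply Equiv.ext
        intro i
        exact hpone i
      map_mul' := by
        intro g g'
        apply Equiv.ext
        intro i
        exact hpmul g g' i }
  have hπ : ∀ g i, π g i = p g i := fun _ _ => rfl
  have hπb : π b = m4aSigma := by
    apply Equiv.ext
    intro i
    rw [hπ]
    apply hpuniq
    left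
    fin_cases i
    · show ρ b (E 0) = E 1
      rw [hE0, hE1, hb1]
    · show ρ b (E 1) = E 2
      rw [hE1, hE2, hb2]
    · show ρ b (E 2) = E 0
      rw [hE2, hE0, hb3]
    · show ρ b (E 3) = E 3
      rw [hE3, hb4]
  intro r hr
  -- the element `r * (b * r * b⁻¹)` of `R` has order prime to `3`
  have hw : r * b * r * b⁻¹ ∈ R := by
    have h1 : b * r * b⁻¹ ∈ R := c.Rn.conj_mem r hr b
    have h2 := R.mul_mem hr h1
    have e : r * (b * r * b⁻¹) = r * b * r * b⁻¹ := by group
    rw [e] at h2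
    exact h2
  have hwk : (r * b * r * b⁻¹) ^ Nat.card R = 1 := by
    have h1 : (⟨r * b * r * b⁻¹, hw⟩ : ↥R) ^ Nat.card R = 1 := pow_card_eq_one'
    have h2 : (((⟨r * b * r * b⁻¹, hw⟩ : ↥R) ^ Nat.card R : ↥R) : G) = ((1 : ↥R) : G) :=
      congrArg Subtype.val h1
    rw [Subgroup.coe_pow, Subgroup.coe_one] at h2
    exact h2
  have hy8 : (π r * m4aSigma * π r * m4aSigma⁻¹) ^ 8 = 1 := by
    have h1 : π (r * b * r * b⁻¹) = π r * m4aSigma * π r * m4aSigma⁻¹ := by
      rw [map_mul, map_mul, map_mul, map_inv, hπb]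
    rw [← h1]
    have h2 : (π (r * b * r * b⁻¹)) ^ Nat.card R = 1 := by
      rw [← map_pow, hwk, map_one]
    have h3 : (π (r * b * r * b⁻¹)) ^ 24 = 1 := by
      have h4 : Fintype.card (Equiv.Perm (Fin 4)) = 24 := by
        rw [Fintype.card_perm, Fintype.card_fin]
        rfl
      rw [← h4]
      exact pow_card_eq_one
    have h5 : orderOf (π (r * b * r * b⁻¹)) ∣ Nat.gcd (Nat.card R) 24 :=
      Nat.dvd_gcd (orderOf_dvd_of_pow_eq_one h2) (orderOf_dvd_of_pow_eq_one h3)
    have h6 : Nat.gcd (Nat.card R) 24 ∣ 8 := by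
      have h7 : (Nat.gcd (Nat.card R) 24).Coprime 3 :=
        Nat.Coprime.coprime_dvd_left (Nat.gcd_dvd_left _ _) c.R3
      exact h7.dvd_of_dvd_mul_right (Nat.gcd_dvd_right (Nat.card R) 24 : _ ∣ 8 * 3)
    exact orderOf_dvd_iff_pow_eq_one.mp (h5.trans h6)
  rcases m4a_check (π r) hy8 with hx | hx
  · left
    intro e he
    obtain ⟨i, rfl⟩ := hmemE e he
    have h1 : p r i = i := by
      rw [← hπ, hx]
      rfl
    have h2 := hp r i
    rw [h1] at h2
    exact h2
  · right
    intro e he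
    obtain ⟨i, rfl⟩ := hmemE e he
    obtain ⟨hx1, hx2⟩ := hx i
    rw [hπ, hπ] at hx2
    rw [hπ] at hx1
    refine ⟨?_, ?_, ?_⟩
    · intro h1
      exact hx1 (hpuniq r i i (Or.inl h1))
    · intro h1
      exact hx1 (hpuniq r i i (Or.inr h1))
    · rcases hp r i with h1 | h1 <;> rcases hp r (p r i) with h2 | h2
      · left; rw [h1, h2, hx2]
      · right; rw [h1, h2, hx2]
      · right; rw [h1, map_neg, h2, hx2]
      · left; rw [h1, map_neg, h2, hx2, neg_neg]

end abs

end Cfsg.Agent.Helper59.N15
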