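import Mathlib
import Cfsg.Agent.S3361
import Cfsg.Agent.S0689

set_option autoImplicit false

/-!
# Groups acting regularly on the non-identity elements of an elementary abelian group (helper59)

`dichotomy_add`: a finite group acting linearly on a finite `ZMod p`-module (`p` odd), regularly on
the non-zero vectors, has a normal subgroup of index two or is one of five explicit groups
(`SL(2,3)`, `SL(2,3) × C₅`, `SL(2,5)`, `SL(2,5) × C₇`, `SL(2,5) × C₂₉`).  This packages
`Cfsg.Agent.S3361.result` and `Cfsg.Agent.S0689.result`.  `dichotomy` is the same statement for an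
action by automorphisms on a multiplicatively written group of exponent `p`.
-/

namespace Cfsg.Agent.Helper59

namespace RegLin

universe u v

/-- The five exceptional shapes. -/
def Exceptional (D : Type u) [Group D] : Prop :=
  Nonempty (D ≃* Matrix.SpecialLinearGroup (Fin 2) (ZMod 3)) ∨
  Nonempty (D ≃* Matrix.SpecialLinearGroup (Fin 2) (ZMod 3) × Multiplicative (ZMod 5)) ∨
  Nonempty (D ≃* Matrix.SpecialLinearGroup (Fin 2) (ZMod 5)) ∨
  Nonempty (D ≃* Matrix.SpecialLinearGroup (Fin 2) (ZMod 5) × Multiplicative (ZMod 7)) ∨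
  Nonempty (D ≃* Matrix.SpecialLinearGroup (Fin 2) (ZMod 5) × Multiplicative (ZMod 29))

theorem dichotomy_add {p : ℕ} [Fact p.Prime] (hp2 : p ≠ 2) {V : Type u} [AddCommGroup V]
    [Module (ZMod p) V] [Finite V] [Nontrivial V] {D : Type v} [Group D] [Finite D]
    (ρ : D →* (V ≃ₗ[ZMod p] V))
    (htrans : ∀ v w : V, v ≠ 0 → w ≠ 0 → ∃ d : D, ρ d v = w)
    (hreg : ∀ v : V, v ≠ 0 → ∀ d : D, ρ d v = v → d = 1) :
    (∃ N : Subgroup D, N.Normal ∧ N.index = 2) ∨ Exceptional D := by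
  obtain ⟨v₀, hv₀⟩ := exists_ne (0 : V)
  have hρ : Function.Injective ρ := by
    intro d d' h
    have h1 : ρ (d'⁻¹ * d) v₀ = v₀ := by
      rw [map_mul, map_inv, h]
      show (ρ d')⁻¹ (ρ d' v₀) = v₀
      exact (ρ d').symm_apply_apply v₀
    have h2 := hreg v₀ hv₀ _ h1
    calc d = d' * (d'⁻¹ * d) := by group
      _ = d' := by rw [h2, mul_one]
  by_cases hsol : Group.IsSolvable D
  · rcases (Cfsg.Agent.S3361.result p hsol ρ hρ htrans hreg).2 hp2 with h | ⟨-, h⟩ | ⟨-, h⟩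
    · exact Or.inl h
    · exact Or.inr (Or.inl h)
    · exact Or.inr (Or.inr (Or.inl h))
  · right
    let e : D ≃* ρ.range := MonoidHom.ofInjective hρ
    have he : ∀ d : D, ((e d : ρ.range) : V ≃ₗ[ZMod p] V) = ρ d := fun d => rfl
    have hns : ¬ Group.IsSolvable ρ.range := by
      intro h
      exact hsol (Group.isSolvable_of_isSolvable_injective (f := e.toMonoidHom) e.injective)
    have hreg' : ∀ v w : V, v ≠ 0 → w ≠ 0 →
        ∃! h : ρ.range, (h : V ≃ₗ[ZMod p] V) v = w := by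
      intro v w hv hw
      obtain ⟨d, hd⟩ := htrans v w hv hw
      refine ⟨e d, by show ((e d : ρ.range) : V ≃ₗ[ZMod p] V) v = w; rw [he]; exact hd, ?_⟩
      intro h hh
      obtain ⟨d', rfl⟩ := e.surjective h
      have hh : ((e d' : ρ.range) : V ≃ₗ[ZMod p] V) v = w := hh
      rw [he] at hh
      have h1 : ρ (d⁻¹ * d') v = v := by
        rw [map_mul, map_inv]
        show (ρ d)⁻¹ (ρ d' v) = v
        rw [hh, ← hd]
        exact (ρ d).symm_apply_apply v
      have h2 := hreg v hv _ h1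
      have : d' = d := by
        calc d' = d * (d⁻¹ * d') := by group
          _ = d := by rw [h2, mul_one]
      rw [this]
    rcases Cfsg.Agent.S0689.result ρ.range hreg' hns with ⟨-, ⟨h⟩⟩ | ⟨-, ⟨h⟩⟩ | ⟨-, ⟨h⟩⟩
    · exact Or.inr (Or.inr (Or.inl ⟨e.trans h⟩))
    · exact Or.inr (Or.inr (Or.inr (Or.inl ⟨e.trans h⟩)))
    · exact Or.inr (Or.inr (Or.inr (Or.inr ⟨e.trans h⟩)))

/-- The linear automorphism of `Additive A` induced by an automorphism of `A`. -/
def linOf {p : ℕ} {A : Type u} [CommGroup A] [Module (ZMod p) (Additive A)] (φ : MulAut A) :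
    Additive A ≃ₗ[ZMod p] Additive A :=
  { MulEquiv.toAdditive φ with
    map_smul' := fun r x => ZMod.map_smul (MulEquiv.toAdditive φ).toAddMonoidHom r x }

theorem linOf_apply {p : ℕ} {A : Type u} [CommGroup A] [Module (ZMod p) (Additive A)]
    (φ : MulAut A) (x : Additive A) :
    linOf (p := p) φ x = Additive.ofMul (φ (Additive.toMul x)) := rfl

/-- `linOf` as a group homomorphism. -/
def linHom {p : ℕ} {A : Type u} [CommGroup A] [Module (ZMod p) (Additive A)] :
    MulAut A →* (Additive A ≃ₗ[ZMod p] Additive A) where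
  toFun := linOf
  map_one' := by
    ext x
    rfl
  map_mul' := by
    intro φ ψ
    ext x
    rfl

theorem linHom_apply {p : ℕ} {A : Type u} [CommGroup A] [Module (ZMod p) (Additive A)]
    (φ : MulAut A) (x : Additive A) :
    linHom (p := p) φ x = Additive.ofMul (φ (Additive.toMul x)) := rfl

theorem dichotomy {A : Type u} [CommGroup A] [Finite A] [Nontrivial A] {p : ℕ} [Fact p.Prime]
    (hp2 : p ≠ 2) (hexp : ∀ x : A, x ^ p = 1) {D : Type v} [Group D] [Finite D]
    (c : D →* MulAut A)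
    (htrans : ∀ x y : A, x ≠ 1 → y ≠ 1 → ∃ d : D, c d x = y)
    (hsemi : ∀ (d : D) (x : A), x ≠ 1 → c d x = x → d = 1) :
    (∃ N : Subgroup D, N.Normal ∧ N.index = 2) ∨ Exceptional D := by
  letI : Module (ZMod p) (Additive A) := AddCommGroup.zmodModule (n := p) (by
    intro x
    show Additive.ofMul (Additive.toMul x ^ p) = 0
    rw [hexp]
    rfl)
  haveI : Finite (Additive A) := inferInstanceAs (Finite A)
  haveI : Nontrivial (Additive A) := inferInstanceAs (Nontrivial A)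
  have hne : ∀ v : Additive A, v ≠ 0 → Additive.toMul v ≠ 1 := by
    intro v hv h
    exact hv (by rw [← ofMul_toMul v, h]; rfl)
  refine dichotomy_add hp2 ((linHom (p := p)).comp c) ?_ ?_
  · intro v w hv hw
    obtain ⟨d, hd⟩ := htrans _ _ (hne v hv) (hne w hw)
    refine ⟨d, ?_⟩
    show Additive.ofMul (c d (Additive.toMul v)) = w
    rw [hd]
    rfl
  · intro v hv d hd
    refine hsemi d _ (hne v hv) ?_
    have h1 : Additive.ofMul (c d (Additive.toMul v)) = v := hd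
    have h2 := congrArg Additive.toMul h1
    exact h2

/-- A group has "two subgroups of order three". -/
def TwoThree (S : Type v) [Group S] : Prop :=
  ∃ x y : S, x ^ 3 = 1 ∧ x ≠ 1 ∧ y ^ 3 = 1 ∧ y ≠ 1 ∧ y ≠ x ∧ y ≠ x ^ 2

theorem TwoThree.prod {S : Type v} [Group S] (h : TwoThree S) (C : Type v) [Group C] :
    TwoThree (S × C) := by
  obtain ⟨x, y, hx, hx1, hy, hy1, h1, h2⟩ := h
  refine ⟨(x, 1), (y, 1), ?_, ?_, ?_, ?_, ?_, ?_⟩
  · rw [Prod.pow_mk, hx, one_pow]; rfl
  · intro h; exact hx1 (congrArg Prod.fst h)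
  · rw [Prod.pow_mk, hy, one_pow]; rfl
  · intro h; exact hy1 (congrArg Prod.fst h)
  · intro h; exact h1 (congrArg Prod.fst h)
  · intro h; exact h2 (congrArg Prod.fst h)

theorem TwoThree.of_equiv {S : Type v} [Group S] (h : TwoThree S) {D : Type u} [Group D]
    (e : D ≃* S) : ∃ A B : Subgroup D, Nat.card A = 3 ∧ Nat.card B = 3 ∧ A ≠ B := by
  obtain ⟨x, y, hx, hx1, hy, hy1, h1, h2⟩ := h
  haveI : Fact (Nat.Prime 3) := ⟨Nat.prime_three⟩
  have hx' : (e.symm x) ^ 3 = 1 := by rw [← map_pow, hx, map_one]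
  have hy' : (e.symm y) ^ 3 = 1 := by rw [← map_pow, hy, map_one]
  have hx1' : e.symm x ≠ 1 := fun h => hx1 (by simpa using congrArg e h)
  have hy1' : e.symm y ≠ 1 := fun h => hy1 (by simpa using congrArg e h)
  have hox : orderOf (e.symm x) = 3 := orderOf_eq_prime hx' hx1'
  have hoy : orderOf (e.symm y) = 3 := orderOf_eq_prime hy' hy1'
  refine ⟨Subgroup.zpowers (e.symm x), Subgroup.zpowers (e.symm y), ?_, ?_, ?_⟩
  · rw [Nat.card_zpowers, hox]
  · rw [Nat.card_zpowers, hoy]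
  · intro hAB
    have hmem : e.symm y ∈ Subgroup.zpowers (e.symm x) := by
      rw [hAB]; exact Subgroup.mem_zpowers _
    obtain ⟨k, hk⟩ := Subgroup.mem_zpowers_iff.mp hmem
    rw [← zpow_mod_orderOf, hox] at hk
    have h3c : ((3 : ℕ) : ℤ) = 3 := rfl
    rw [h3c] at hk
    have hk0 : 0 ≤ k % 3 := Int.emod_nonneg k (by norm_num)
    have hk3 : k % 3 < 3 := Int.emod_lt_of_pos k (by norm_num)
    obtain ⟨n, hn⟩ := Int.eq_ofNat_of_zero_le hk0
    rw [hn] at hk hk3
    rw [zpow_natCast] at hk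
    have hn3 : n < 3 := by exact_mod_cast hk3
    have hk' : y = x ^ n := by
      have := congrArg e hk
      simpa using this.symm
    interval_cases n
    · exact hy1 (by rw [hk', pow_zero])
    · exact h1 (by rw [hk', pow_one])
    · exact h2 hk'

/-- Two matrices of order three in `SL(2,3)`. -/
def m3a : Matrix.SpecialLinearGroup (Fin 2) (ZMod 3) :=
  ⟨!![1, 1; 0, 1], by rw [Matrix.det_fin_two_of]; decide⟩

def m3b : Matrix.SpecialLinearGroup (Fin 2) (ZMod 3) :=
  ⟨!![1, 0; 1, 1], by rw [Matrix.det_fin_two_of]; decide⟩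

def m5a : Matrix.SpecialLinearGroup (Fin 2) (ZMod 5) :=
  ⟨!![0, -1; 1, -1], by rw [Matrix.det_fin_two_of]; decide⟩

def m5b : Matrix.SpecialLinearGroup (Fin 2) (ZMod 5) :=
  ⟨!![-1, -1; 1, 0], by rw [Matrix.det_fin_two_of]; decide⟩

theorem sl_ne {n : ℕ} {x y : Matrix.SpecialLinearGroup (Fin 2) (ZMod n)}
    (h : (x : Matrix (Fin 2) (Fin 2) (ZMod n)) ≠ y) : x ≠ y :=
  fun h' => h (congrArg Subtype.val h')

theorem twoThree_sl3 : TwoThree (Matrix.SpecialLinearGroup (Fin 2) (ZMod 3)) := by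
  refine ⟨m3a, m3b, ?_, sl_ne ?_, ?_, sl_ne ?_, sl_ne ?_, sl_ne ?_⟩
  · apply Subtype.ext
    rw [Matrix.SpecialLinearGroup.coe_pow]
    show (!![1, 1; 0, 1] : Matrix (Fin 2) (Fin 2) (ZMod 3)) ^ 3 = 1
    decide
  · show (!![1, 1; 0, 1] : Matrix (Fin 2) (Fin 2) (ZMod 3)) ≠ 1
    decide
  · apply Subtype.ext
    rw [Matrix.SpecialLinearGroup.coe_pow]
    show (!![1, 0; 1, 1] : Matrix (Fin 2) (Fin 2) (ZMod 3)) ^ 3 = 1
    decide
  · show (!![1, 0; 1, 1] : Matrix (Fin 2) (Fin 2) (ZMod 3)) ≠ 1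
    decide
  · show (!![1, 0; 1, 1] : Matrix (Fin 2) (Fin 2) (ZMod 3)) ≠ !![1, 1; 0, 1]
    decide
  · rw [Matrix.SpecialLinearGroup.coe_pow]
    show (!![1, 0; 1, 1] : Matrix (Fin 2) (Fin 2) (ZMod 3)) ≠ !![1, 1; 0, 1] ^ 2
    decide

theorem twoThree_sl5 : TwoThree (Matrix.SpecialLinearGroup (Fin 2) (ZMod 5)) := by
  refine ⟨m5a, m5b, ?_, sl_ne ?_, ?_, sl_ne ?_, sl_ne ?_, sl_ne ?_⟩
  · apply Subtype.ext
    rw [Matrix.SpecialLinearGroup.coe_pow]
    show (!![0, -1; 1, -1] : Matrix (Fin 2) (Fin 2) (ZMod 5)) ^ 3 = 1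
    decide
  · show (!![0, -1; 1, -1] : Matrix (Fin 2) (Fin 2) (ZMod 5)) ≠ 1
    decide
  · apply Subtype.ext
    rw [Matrix.SpecialLinearGroup.coe_pow]
    show (!![-1, -1; 1, 0] : Matrix (Fin 2) (Fin 2) (ZMod 5)) ^ 3 = 1
    decide
  · show (!![-1, -1; 1, 0] : Matrix (Fin 2) (Fin 2) (ZMod 5)) ≠ 1
    decide
  · show (!![-1, -1; 1, 0] : Matrix (Fin 2) (Fin 2) (ZMod 5)) ≠ !![0, -1; 1, -1]
    decide
  · rw [Matrix.SpecialLinearGroup.coe_pow]
    show (!![-1, -1; 1, 0] : Matrix (Fin 2) (Fin 2) (ZMod 5)) ≠ !![0, -1; 1, -1] ^ 2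
    decide

/-- The exceptional groups have two distinct subgroups of order three. -/
theorem Exceptional.two_three {D : Type u} [Group D] (h : Exceptional D) :
    ∃ A B : Subgroup D, Nat.card A = 3 ∧ Nat.card B = 3 ∧ A ≠ B := by
  rcases h with h | h | h | h | h
  · obtain ⟨e⟩ := h
    exact twoThree_sl3.of_equiv e
  · obtain ⟨e⟩ := h
    exact (twoThree_sl3.prod _).of_equiv e
  · obtain ⟨e⟩ := h
    exact twoThree_sl5.of_equiv e
  · obtain ⟨e⟩ := h
    exact (twoThree_sl5.prod _).of_equiv e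
  · obtain ⟨e⟩ := h
    exact (twoThree_sl5.prod _).of_equiv e

end RegLin

end Cfsg.Agent.Helper59
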