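import Mathlib
import Cfsg.Agent.Helper12.Sharp3
import Cfsg.Agent.Helper12.Idx2
import Cfsg.Agent.Helper59.RegLin

set_option autoImplicit false

/-!
# Sharply 3-transitive groups of even degree (helper59)

Abstract setting: `G` acts sharply 3-transitively on `α`; `K` is the regular normal abelian
subgroup of the stabiliser of `a` ("translations"), `H` the stabiliser of `a` and `b`.

* `Ctx`: the hypotheses, `Ctx.of_sharp`: they hold for a sharply 3-transitive group of even degree;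
* `Ctx.dichotomy`: `H` has a normal subgroup of index two or is one of five exceptional groups;
* `Ctx.rel_R`: the relation `τ e τ = e τ e⁻¹ z`;
* `Ctx.exists_hom`: a character of `H` invariant under `τ` extends to a character of `G`.
-/

namespace Cfsg.Agent.Helper59

namespace Sharp3Even

open MulAction

universe u v

/-- The context: a sharply 3-transitive action, and a regular normal abelian subgroup `K` of the
stabiliser of `a`. -/
structure Ctx (G : Type u) [Group G] (α : Type v) [MulAction G α] (a b : α) (K : Subgroup G) :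
    Prop where
  hab : a ≠ b
  t3 : ∀ x y z x' y' z' : α, x ≠ y → x ≠ z → y ≠ z → x' ≠ y' → x' ≠ z' → y' ≠ z' →
    ∃ g : G, g • x = x' ∧ g • y = y' ∧ g • z = z'
  s3 : ∀ (g : G) (x y z : α), x ≠ y → x ≠ z → y ≠ z → g • x = x → g • y = y → g • z = z → g = 1
  Ka : ∀ k ∈ K, k • a = a
  Kn : ∀ g : G, g • a = a → ∀ k ∈ K, g * k * g⁻¹ ∈ K
  Kc : ∀ x ∈ K, ∀ y ∈ K, x * y = y * x
  Kt : ∀ x y : α, x ≠ a → y ≠ a → ∃ k ∈ K, k • x = y
  Ks : ∀ k ∈ K, ∀ x : α, x ≠ a → k • x = x → k = 1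

namespace Ctx

variable {G : Type u} [Group G] {α : Type v} [MulAction G α] {a b : α} {K : Subgroup G}

theorem K_ne_a (C : Ctx G α a b K) {k : G} (hk : k ∈ K) {x : α} (hx : x ≠ a) : k • x ≠ a := by
  intro h
  apply hx
  have h2 : k • x = k • a := by rw [h, C.Ka k hk]
  exact smul_left_cancel k h2

theorem K_eq (C : Ctx G α a b K) {k k' : G} (hk : k ∈ K) (hk' : k' ∈ K) {x : α} (hx : x ≠ a)
    (h : k • x = k' • x) : k = k' := by
  have h1 : (k'⁻¹ * k) • x = x := by rw [mul_smul, h, inv_smul_smul]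
  have h2 := C.Ks _ (K.mul_mem (K.inv_mem hk') hk) x hx h1
  exact inv_mul_eq_one.mp h2 |>.symm

theorem K_smul_ne (C : Ctx G α a b K) {k : G} (hk : k ∈ K) (hk1 : k ≠ 1) {x : α} (hx : x ≠ a) :
    k • x ≠ x := fun h => hk1 (C.Ks k hk x hx h)

/-- An element of `H` commuting with a non-identity element of `K` is trivial. -/
theorem cent_eq_one (C : Ctx G α a b K) {h : G} (ha : h • a = a) (hb : h • b = b) {k : G}
    (hk : k ∈ K) (hk1 : k ≠ 1) (hc : h * k = k * h) : h = 1 := by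
  have hba : b ≠ a := C.hab.symm
  refine C.s3 h a b (k • b) C.hab (C.K_ne_a hk hba).symm (C.K_smul_ne hk hk1 hba).symm ha hb ?_
  rw [← mul_smul, hc, mul_smul, hb]

/-- An involution of `H` inverts `K`. -/
theorem invol_inv (C : Ctx G α a b K) {z : G} (ha : z • a = a) (hb : z • b = b)
    (hz2 : z * z = 1) (hz1 : z ≠ 1) {k : G} (hk : k ∈ K) : z * k * z⁻¹ = k⁻¹ := by
  have hzk : z * k * z⁻¹ ∈ K := C.Kn z ha k hk
  have hzi : z⁻¹ = z := inv_eq_of_mul_eq_one_left hz2
  by_contra hne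
  have hm1 : k * (z * k * z⁻¹) ≠ 1 := by
    intro h
    apply hne
    exact (inv_eq_of_mul_eq_one_right h).symm ▸ rfl
  have hm : k * (z * k * z⁻¹) ∈ K := K.mul_mem hk hzk
  have hcomm : z * (k * (z * k * z⁻¹)) = k * (z * k * z⁻¹) * z := by
    have h1 : k * (z * k * z⁻¹) = (z * k * z⁻¹) * k := C.Kc _ hk _ hzk
    calc z * (k * (z * k * z⁻¹)) = (z * k * z⁻¹) * (z * z) * k * z⁻¹ := by group
      _ = (z * k * z⁻¹) * k * z⁻¹ := by rw [hz2, mul_one]
      _ = k * (z * k * z⁻¹) * z⁻¹ := by rw [h1]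
      _ = k * (z * k * z⁻¹) * z := by rw [hzi]
  exact hz1 (C.cent_eq_one ha hb hm hm1 hcomm)

/-- `H` has at most one involution. -/
theorem invol_unique (C : Ctx G α a b K) {c : α} (hca : c ≠ a) (hcb : c ≠ b) {z z' : G}
    (ha : z • a = a) (hb : z • b = b) (hz2 : z * z = 1) (hz1 : z ≠ 1)
    (ha' : z' • a = a) (hb' : z' • b = b) (hz2' : z' * z' = 1) (hz1' : z' ≠ 1) : z = z' := by
  obtain ⟨k, hk, hkb⟩ := C.Kt b c C.hab.symm hca
  have hk1 : k ≠ 1 := by
    rintro rfl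
    rw [one_smul] at hkb
    exact hcb hkb.symm
  have h1 := C.invol_inv ha hb hz2 hz1 hk
  have h2 := C.invol_inv ha' hb' hz2' hz1' hk
  have hzi : z⁻¹ = z := inv_eq_of_mul_eq_one_left hz2
  have hzi' : z'⁻¹ = z' := inv_eq_of_mul_eq_one_left hz2'
  have hcomm : (z * z') * k = k * (z * z') := by
    have e1 : z' * k = k⁻¹ * z' := by
      have := congrArg (· * z') h2
      simpa [mul_assoc] using this
    have e2 : z * k⁻¹ = k * z := by
      have h1' : z * k⁻¹ * z⁻¹ = k := by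
        have := congrArg (fun x => x⁻¹) h1
        simpa [mul_assoc] using this
      have := congrArg (· * z) h1'
      simpa [mul_assoc] using this
    calc (z * z') * k = z * (z' * k) := by group
      _ = z * (k⁻¹ * z') := by rw [e1]
      _ = (z * k⁻¹) * z' := by group
      _ = (k * z) * z' := by rw [e2]
      _ = k * (z * z') := by group
  have h3 : z * z' = 1 :=
    C.cent_eq_one (by rw [mul_smul, ha', ha]) (by rw [mul_smul, hb', hb]) hk hk1 hcomm
  calc z = z * (z' * z') := by rw [hz2', mul_one]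
    _ = (z * z') * z' := by group
    _ = z' := by rw [h3, one_mul]

/-- An element interchanging `a` and `b` and fixing `c` is an involution. -/
theorem tau_sq (C : Ctx G α a b K) {c : α} (hca : c ≠ a) (hcb : c ≠ b) {τ : G}
    (hτa : τ • a = b) (hτb : τ • b = a) (hτc : τ • c = c) : τ * τ = 1 :=
  C.s3 _ a b c C.hab hca.symm hcb.symm (by rw [mul_smul, hτa, hτb]) (by rw [mul_smul, hτb, hτa])
    (by rw [mul_smul, hτc, hτc])

/-- `τ` centralises the involution of `H`. -/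
theorem tau_z (C : Ctx G α a b K) {c : α} (hca : c ≠ a) (hcb : c ≠ b) {τ : G}
    (hτa : τ • a = b) (hτb : τ • b = a) (hττ : τ * τ = 1) {z : G}
    (ha : z • a = a) (hb : z • b = b) (hz2 : z * z = 1) (hz1 : z ≠ 1) : τ * z * τ = z := by
  have h1 : (τ * z * τ) • a = a := by rw [mul_smul, mul_smul, hτa, hb, hτb]
  have h2 : (τ * z * τ) • b = b := by rw [mul_smul, mul_smul, hτb, ha, hτa]
  have h3 : (τ * z * τ) * (τ * z * τ) = 1 := by
    calc (τ * z * τ) * (τ * z * τ) = τ * z * (τ * τ) * z * τ := by group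
      _ = τ * (z * z) * τ := by rw [hττ]; group
      _ = 1 := by rw [hz2, mul_one, hττ]
  have h4 : τ * z * τ ≠ 1 := by
    intro h
    apply hz1
    calc z = (τ * τ) * z * (τ * τ) := by rw [hττ, one_mul, mul_one]
      _ = τ * (τ * z * τ) * τ := by group
      _ = 1 := by rw [h, mul_one, hττ]
  exact (C.invol_unique hca hcb ha hb hz2 hz1 h1 h2 h3 h4).symm

/-- The relation `τ e τ = e τ e⁻¹ z`. -/
theorem rel_R (C : Ctx G α a b K) {c : α} (hca : c ≠ a) (hcb : c ≠ b) {τ : G}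
    (hτa : τ • a = b) (hτb : τ • b = a) (hτc : τ • c = c) {z : G}
    (ha : z • a = a) (hb : z • b = b) (hz2 : z * z = 1) (hz1 : z ≠ 1) {e : G} (he : e ∈ K)
    (heb : e • b = c) : τ * e * τ = e * τ * e⁻¹ * z := by
  have hττ := C.tau_sq hca hcb hτa hτb hτc
  have hτz := C.tau_z hca hcb hτa hτb hττ ha hb hz2 hz1
  have hτz' : τ * z = z * τ := by
    calc τ * z = (τ * z * τ) * τ⁻¹ := by group
      _ = z * τ⁻¹ := by rw [hτz]
      _ = z * τ := by rw [inv_eq_of_mul_eq_one_left hττ]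
  have hea : e • a = a := C.Ka e he
  have hea' : e⁻¹ • a = a := by rw [inv_smul_eq_iff, hea]
  have hec' : e⁻¹ • c = b := by rw [inv_smul_eq_iff, heb]
  have hzb' : z⁻¹ • b = b := by rw [inv_smul_eq_iff, hb]
  have hinv := C.invol_inv ha hb hz2 hz1 he
  have heb' : e⁻¹ • b = z • c := by
    rw [← hinv, mul_smul, mul_smul, hzb', heb]
  have hzca : z • c ≠ a := by
    intro h
    apply hca
    have : z • c = z • a := by rw [h, ha]
    exact smul_left_cancel z this
  have hzcb : z • c ≠ b := by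
    intro h
    apply hcb
    have : z • c = z • b := by rw [h, hb]
    exact smul_left_cancel z this
  have hτzc : τ • z • c = z • c := by
    rw [← mul_smul, hτz', mul_smul, hτc]
  have hezc : e • z • c = b := by rw [← heb', smul_inv_smul]
  have hzzc : z • z • c = c := by rw [← mul_smul, hz2, one_smul]
  have hLa : (τ * e * τ) • a = c := by rw [mul_smul, mul_smul, hτa, heb, hτc]
  have hRa : (e * τ * e⁻¹ * z) • a = c := by
    rw [mul_smul, mul_smul, mul_smul, ha, hea', hτa, heb]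
  have hLb : (τ * e * τ) • b = b := by rw [mul_smul, mul_smul, hτb, hea, hτa]
  have hRb : (e * τ * e⁻¹ * z) • b = b := by
    rw [mul_smul, mul_smul, mul_smul, hb, heb', hτzc, hezc]
  have hLz : (τ * e * τ) • (z • c) = a := by
    rw [mul_smul, mul_smul, hτzc, hezc, hτb]
  have hRz : (e * τ * e⁻¹ * z) • (z • c) = a := by
    rw [mul_smul, mul_smul, mul_smul, hzzc, hec', hτb, hea]
  have key : (τ * e * τ)⁻¹ * (e * τ * e⁻¹ * z) = 1 := by
    refine C.s3 _ a b (z • c) C.hab hzca.symm hzcb.symm ?_ ?_ ?_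
    · rw [mul_smul, hRa, inv_smul_eq_iff, hLa]
    · rw [mul_smul, hRb, inv_smul_eq_iff, hLb]
    · rw [mul_smul, hRz, inv_smul_eq_iff, hLz]
  exact inv_mul_eq_one.mp key

/-- `H` is transitive on `K \ {1}` by conjugation. -/
theorem exists_conj (C : Ctx G α a b K) {k k' : G} (hk : k ∈ K) (hk1 : k ≠ 1) (hk' : k' ∈ K)
    (hk1' : k' ≠ 1) : ∃ u : G, u • a = a ∧ u • b = b ∧ u * k * u⁻¹ = k' := by
  have hba : b ≠ a := C.hab.symm
  obtain ⟨u, hua, hub, huc⟩ := C.t3 a b (k • b) a b (k' • b) C.hab (C.K_ne_a hk hba).symm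
    (C.K_smul_ne hk hk1 hba).symm C.hab (C.K_ne_a hk' hba).symm (C.K_smul_ne hk' hk1' hba).symm
  refine ⟨u, hua, hub, ?_⟩
  apply C.K_eq (C.Kn u hua k hk) hk' hba
  have hub' : u⁻¹ • b = b := by rw [inv_smul_eq_iff, hub]
  rw [mul_smul, mul_smul, hub', huc]

end Ctx

/-- Conjugation by an element interchanging `a` and `b`, on the two-point stabiliser. -/
def conjH {G : Type u} [Group G] {α : Type v} [MulAction G α] {a b : α} {τ : G}
    (hτa : τ • a = b) (hτb : τ • b = a) :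
    ↥(stabilizer G a ⊓ stabilizer G b) →* ↥(stabilizer G a ⊓ stabilizer G b) where
  toFun h := ⟨τ * h * τ⁻¹, by
    have h1 := h.2
    rw [Subgroup.mem_inf, mem_stabilizer_iff, mem_stabilizer_iff] at h1 ⊢
    have ha' : τ⁻¹ • a = b := by rw [inv_smul_eq_iff, hτb]
    have hb' : τ⁻¹ • b = a := by rw [inv_smul_eq_iff, hτa]
    constructor
    · rw [mul_smul, mul_smul, ha', h1.2, hτb]
    · rw [mul_smul, mul_smul, hb', h1.1, hτa]⟩
  map_one' := Subtype.ext (by simp)
  map_mul' x y := Subtype.ext (by simp [mul_assoc])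

theorem conjH_coe {G : Type u} [Group G] {α : Type v} [MulAction G α] {a b : α} {τ : G}
    (hτa : τ • a = b) (hτb : τ • b = a) (h : ↥(stabilizer G a ⊓ stabilizer G b)) :
    ((conjH hτa hτb h : ↥(stabilizer G a ⊓ stabilizer G b)) : G) = τ * h * τ⁻¹ := rfl

/-- A character with kernel a given subgroup of index two. -/
noncomputable def charOfIndexTwo {D : Type u} [Group D] (N : Subgroup D) (hN : N.index = 2) :
    D →* ℤˣ := by
  classical
  exact MonoidHom.mk' (fun h => if h ∈ N then 1 else -1) (by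
    intro x y
    by_cases hx : x ∈ N <;> by_cases hy : y ∈ N <;>
      simp [hx, hy, Subgroup.mul_mem_iff_of_index_two hN])

theorem charOfIndexTwo_ne_one {D : Type u} [Group D] (N : Subgroup D) (hN : N.index = 2) :
    charOfIndexTwo N hN ≠ 1 := by
  classical
  intro h
  have hne : N ≠ ⊤ := by
    intro h'
    rw [h', Subgroup.index_top] at hN
    omega
  obtain ⟨x, hx⟩ : ∃ x, x ∉ N := by
    by_contra hcon
    push Not at hcon
    exact hne (Subgroup.eq_top_iff' N |>.mpr hcon)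
  have h1 : charOfIndexTwo N hN x = 1 := by rw [h]; rfl
  have h2 : charOfIndexTwo N hN x = -1 := by
    show (if x ∈ N then (1 : ℤˣ) else -1) = -1
    rw [if_neg hx]
  rw [h2] at h1
  exact absurd h1 (by decide)

/-- A group with a subgroup of index two and an involutory endomorphism has a non-trivial
character invariant under the endomorphism. -/
theorem exists_invariant_char {D : Type u} [Group D] (N : Subgroup D) (hN : N.index = 2)
    (σ : D →* D) (hσ : ∀ x, σ (σ x) = x) :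
    ∃ f : D →* ℤˣ, f ≠ 1 ∧ ∀ x, f (σ x) = f x := by
  set f₀ := charOfIndexTwo N hN with hf₀
  have hne := charOfIndexTwo_ne_one N hN
  by_cases hinv : ∀ x, f₀ (σ x) = f₀ x
  · exact ⟨f₀, hne, hinv⟩
  · refine ⟨f₀ * f₀.comp σ, ?_, ?_⟩
    · intro h
      apply hinv
      intro x
      have h1 : f₀ x * f₀ (σ x) = 1 := by
        have := DFunLike.congr_fun h x
        simpa using this
      have h2 : f₀ x * f₀ x = 1 := Int.units_mul_self _
      exact mul_left_cancel (h1.trans h2.symm)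
    · intro x
      show f₀ (σ x) * f₀ (σ (σ x)) = f₀ x * f₀ (σ x)
      rw [hσ, mul_comm]

/-- Extension of a character from a subgroup `B` with `G = B ∪ B τ B`, `τ² = 1`. -/
theorem bruhat_extend {G : Type u} [Group G] (B : Subgroup G) (τ : G) (hτ2 : τ * τ = 1)
    (hτB : τ ∉ B) (hgen : ∀ g : G, g ∉ B → ∃ b₁ ∈ B, ∃ b₂ ∈ B, g = b₁ * τ * b₂)
    (χ : B →* ℤˣ) (ε₀ : ℤˣ)
    (h1 : ∀ (b : B) (hb : τ * b * τ ∈ B), χ ⟨τ * b * τ, hb⟩ = χ b)
    (h2 : ∀ b : B, τ * b * τ ∉ B →
      ∃ b₁ b₂ : B, τ * b * τ = b₁ * τ * b₂ ∧ χ b₁ * χ b₂ = ε₀ * χ b) :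
    ∃ ε : G →* ℤˣ, (∀ b : B, ε b = χ b) ∧ ε τ = ε₀ := by
  have hτi : τ⁻¹ = τ := inv_eq_of_mul_eq_one_left hτ2
  have hε₀ : ε₀ * ε₀ = 1 := Int.units_mul_self ε₀
  -- the relation defining the extension
  let R : G → ℤˣ → Prop := fun g u =>
    (∃ hb : g ∈ B, u = χ ⟨g, hb⟩) ∨ (∃ b₁ b₂ : B, g = b₁ * τ * b₂ ∧ u = χ b₁ * ε₀ * χ b₂)
  have hnotB : ∀ b₁ b₂ : B, (b₁ : G) * τ * b₂ ∉ B := by
    intro b₁ b₂ h
    apply hτB
    have : τ = (b₁ : G)⁻¹ * ((b₁ : G) * τ * b₂) * (b₂ : G)⁻¹ := by group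
    rw [this]
    exact B.mul_mem (B.mul_mem (B.inv_mem b₁.2) h) (B.inv_mem b₂.2)
  have hex : ∀ g, ∃ u, R g u := by
    intro g
    by_cases hg : g ∈ B
    · exact ⟨_, Or.inl ⟨hg, rfl⟩⟩
    · obtain ⟨b₁, hb₁, b₂, hb₂, rfl⟩ := hgen g hg
      exact ⟨_, Or.inr ⟨⟨b₁, hb₁⟩, ⟨b₂, hb₂⟩, rfl, rfl⟩⟩
  have huniq : ∀ g u u', R g u → R g u' → u = u' := by
    intro g u u' hu hu'
    rcases hu with ⟨hb, rfl⟩ | ⟨b₁, b₂, rfl, rfl⟩
    · rcases hu' with ⟨hb', rfl⟩ | ⟨b₁', b₂', rfl, rfl⟩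
      · rfl
      · exact absurd hb (hnotB _ _)
    · rcases hu' with ⟨hb', rfl⟩ | ⟨b₁', b₂', heq, rfl⟩
      · exact absurd hb' (hnotB _ _)
      · have hmem : τ * ((b₁'⁻¹ * b₁ : B) : G) * τ = ((b₂' * b₂⁻¹ : B) : G) := by
          have e1 : (b₁ : G) * τ = b₁' * τ * b₂' * (b₂ : G)⁻¹ := by
            rw [← heq]; group
          push_cast
          calc τ * ((b₁' : G)⁻¹ * b₁) * τ = τ * (b₁' : G)⁻¹ * ((b₁ : G) * τ) := by group
            _ = τ * (b₁' : G)⁻¹ * (b₁' * τ * b₂' * (b₂ : G)⁻¹) := by rw [e1]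
            _ = (τ * τ) * b₂' * (b₂ : G)⁻¹ := by group
            _ = b₂' * (b₂ : G)⁻¹ := by rw [hτ2, one_mul]
        have hmem' : τ * ((b₁'⁻¹ * b₁ : B) : G) * τ ∈ B := by
          rw [hmem]; exact (b₂' * b₂⁻¹).2
        have h3 := h1 (b₁'⁻¹ * b₁) hmem'
        have h4 : (⟨τ * ((b₁'⁻¹ * b₁ : B) : G) * τ, hmem'⟩ : B) = b₂' * b₂⁻¹ :=
          Subtype.ext hmem
        rw [h4, map_mul, map_mul, map_inv, map_inv] at h3
        -- χ b₂' * (χ b₂)⁻¹ = (χ b₁')⁻¹ * χ b₁
        have h5 : χ b₁ * χ b₂ = χ b₁' * χ b₂' := by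
          have h6 : χ b₂' = (χ b₁')⁻¹ * χ b₁ * χ b₂ := by
            rw [← h3]; group
          rw [h6]; group
        calc χ b₁ * ε₀ * χ b₂ = (χ b₁ * χ b₂) * ε₀ := by rw [mul_assoc, mul_comm ε₀, ← mul_assoc]
          _ = (χ b₁' * χ b₂') * ε₀ := by rw [h5]
          _ = χ b₁' * ε₀ * χ b₂' := by rw [mul_assoc, mul_comm (χ b₂'), ← mul_assoc]
  choose ε hε using hex
  have hεeq : ∀ g u, R g u → ε g = u := fun g u hu => huniq g _ _ (hε g) hu
  -- left multiplication by `B`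
  have hB : ∀ (b : B) g u, R g u → R (b * g) (χ b * u) := by
    intro b g u hu
    rcases hu with ⟨hb, rfl⟩ | ⟨b₁, b₂, rfl, rfl⟩
    · refine Or.inl ⟨B.mul_mem b.2 hb, ?_⟩
      rw [← map_mul]; rfl
    · refine Or.inr ⟨b * b₁, b₂, ?_, ?_⟩
      · push_cast; group
      · rw [map_mul]; group
  -- left multiplication by `τ`
  have hT : ∀ g u, R g u → R (τ * g) (ε₀ * u) := by
    intro g u hu
    rcases hu with ⟨hb, rfl⟩ | ⟨b₁, b₂, rfl, rfl⟩
    · refine Or.inr ⟨1, ⟨g, hb⟩, ?_, ?_⟩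
      · push_cast; group
      · rw [map_one, one_mul]
    · by_cases hmem : τ * (b₁ : G) * τ ∈ B
      · refine Or.inl ⟨?_, ?_⟩
        · have : τ * ((b₁ : G) * τ * b₂) = (τ * b₁ * τ) * b₂ := by group
          rw [this]
          exact B.mul_mem hmem b₂.2
        · have e1 : (⟨τ * ((b₁ : G) * τ * b₂), by
              have : τ * ((b₁ : G) * τ * b₂) = (τ * b₁ * τ) * b₂ := by group
              rw [this]
              exact B.mul_mem hmem b₂.2⟩ : B) = ⟨τ * b₁ * τ, hmem⟩ * b₂ :=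
            Subtype.ext (by push_cast; group)
          rw [e1, map_mul, h1 b₁ hmem]
          calc ε₀ * (χ b₁ * ε₀ * χ b₂) = (ε₀ * ε₀) * (χ b₁ * χ b₂) := by
                rw [mul_comm (χ b₁) ε₀]; group
            _ = χ b₁ * χ b₂ := by rw [hε₀, one_mul]
      · obtain ⟨b₃, b₄, h3, h4⟩ := h2 b₁ hmem
        refine Or.inr ⟨b₃, b₄ * b₂, ?_, ?_⟩
        · push_cast
          calc τ * ((b₁ : G) * τ * b₂) = (τ * b₁ * τ) * b₂ := by group
            _ = (b₃ * τ * b₄) * b₂ := by rw [h3]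
            _ = b₃ * τ * (b₄ * b₂) := by group
        · rw [map_mul]
          calc ε₀ * (χ b₁ * ε₀ * χ b₂) = (ε₀ * χ b₁) * ε₀ * χ b₂ := by group
            _ = (χ b₃ * χ b₄) * ε₀ * χ b₂ := by rw [h4]
            _ = χ b₃ * ε₀ * (χ b₄ * χ b₂) := by
                rw [mul_right_comm (χ b₃) (χ b₄) ε₀, mul_assoc]
  have hmul : ∀ g₁ g₂, ε (g₁ * g₂) = ε g₁ * ε g₂ := by
    intro g₁ g₂
    apply hεeq
    rcases hε g₁ with ⟨hb, hu⟩ | ⟨b₁, b₂, hg, hu⟩
    · rw [hu]
      exact hB ⟨g₁, hb⟩ g₂ _ (hε g₂)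
    · rw [hu, hg]
      have e1 := hB b₂ g₂ _ (hε g₂)
      have e2 := hT _ _ e1
      have e3 := hB b₁ _ _ e2
      have e4 : (b₁ : G) * (τ * (b₂ * g₂)) = b₁ * τ * b₂ * g₂ := by group
      have e5 : χ b₁ * (ε₀ * (χ b₂ * ε g₂)) = χ b₁ * ε₀ * χ b₂ * ε g₂ := by group
      rw [e4, e5] at e3
      exact e3
  refine ⟨MonoidHom.mk' ε hmul, ?_, ?_⟩
  · intro b
    exact hεeq _ _ (Or.inl ⟨b.2, rfl⟩)
  · apply hεeq
    refine Or.inr ⟨1, 1, ?_, ?_⟩
    · push_cast; group
    · rw [map_one, one_mul, mul_one]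

theorem bruhat_identity {G : Type u} [Group G] {τ e z u k g : G} (hττ : τ * τ = 1)
    (hR : τ * e * τ = e * τ * e⁻¹ * z) (huk : u * e * u⁻¹ = k) :
    τ * g * τ = (τ * u * τ⁻¹) * e * (τ * u * τ⁻¹)⁻¹ * τ *
      ((u * e⁻¹ * u⁻¹) * (u * z * (τ * u * τ⁻¹)⁻¹ * (τ * (k⁻¹ * g) * τ⁻¹))) := by
  have hτi : τ⁻¹ = τ := inv_eq_of_mul_eq_one_left hττ
  have hττ' : ∀ x, τ * (τ * x) = x := fun x => by rw [← mul_assoc, hττ, one_mul]
  have hRr : ∀ x, τ * (e * (τ * (e⁻¹ * (z * (τ * x))))) = e * x := by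
    intro x
    calc τ * (e * (τ * (e⁻¹ * (z * (τ * x))))) = τ * (e * τ * e⁻¹ * z) * τ * x := by group
      _ = τ * (τ * e * τ) * τ * x := by rw [hR]
      _ = (τ * τ) * e * (τ * τ) * x := by group
      _ = e * x := by rw [hττ, one_mul, mul_one]
  have hukr : ∀ x, u * (e * (u⁻¹ * x)) = k * x := by
    intro x
    rw [← huk]; group
  simp only [hτi, mul_inv_rev, mul_assoc, hττ', inv_mul_cancel_left, hRr, hukr,
    mul_inv_cancel_left]

namespace Ctx

variable {G : Type u} [Group G] {α : Type v} [MulAction G α] {a b : α} {K : Subgroup G}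

theorem mem_H (h : ↥(stabilizer G a ⊓ stabilizer G b)) : (h : G) • a = a ∧ (h : G) • b = b := by
  have := h.2
  rw [Subgroup.mem_inf, mem_stabilizer_iff, mem_stabilizer_iff] at this
  exact this

/-- Extension of a character of `H` to the stabiliser of `a`, trivial on `K`. -/
theorem exists_ext_stab (C : Ctx G α a b K) (f : ↥(stabilizer G a ⊓ stabilizer G b) →* ℤˣ) :
    ∃ χ : ↥(stabilizer G a) →* ℤˣ, ∀ (k : G) (_ : k ∈ K)
      (h : ↥(stabilizer G a ⊓ stabilizer G b)) (hkh : k * h ∈ stabilizer G a),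
      χ ⟨k * h, hkh⟩ = f h := by
  have hba : b ≠ a := C.hab.symm
  have hex : ∀ g : ↥(stabilizer G a), ∃ k ∈ K, k • b = (g : G) • b := by
    intro g
    apply C.Kt b _ hba
    intro h
    have hg : (g : G) • a = a := g.2
    apply hba
    have : (g : G) • b = (g : G) • a := by rw [h, hg]
    exact smul_left_cancel _ this
  choose κ hκK hκb using hex
  have hr : ∀ g : ↥(stabilizer G a), (κ g)⁻¹ * (g : G) ∈ stabilizer G a ⊓ stabilizer G b := by
    intro g
    rw [Subgroup.mem_inf, mem_stabilizer_iff, mem_stabilizer_iff]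
    have hg : (g : G) • a = a := g.2
    constructor
    · rw [mul_smul, hg, inv_smul_eq_iff, C.Ka _ (hκK g)]
    · rw [mul_smul, inv_smul_eq_iff, hκb]
  have hκmul : ∀ g g' : ↥(stabilizer G a),
      κ (g * g') = (g : G) * κ g' * (g : G)⁻¹ * κ g := by
    intro g g'
    have hg : (g : G) • a = a := g.2
    apply C.K_eq (hκK _) (K.mul_mem (C.Kn g hg _ (hκK g')) (hκK g)) hba
    rw [hκb, mul_smul, hκb, mul_smul, mul_smul, inv_smul_smul, hκb]
    show ((g : G) * (g' : G)) • b = _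
    rw [mul_smul]
  refine ⟨MonoidHom.mk' (fun g => f ⟨(κ g)⁻¹ * g, hr g⟩) ?_, ?_⟩
  · intro g g'
    rw [← map_mul]
    congr 1
    apply Subtype.ext
    show (κ (g * g'))⁻¹ * ((g : G) * (g' : G)) = (κ g)⁻¹ * g * ((κ g')⁻¹ * g')
    rw [hκmul]; group
  · intro k hk h hkh
    show f ⟨(κ ⟨k * h, hkh⟩)⁻¹ * (k * h), _⟩ = f h
    congr 1
    apply Subtype.ext
    show (κ ⟨k * h, hkh⟩)⁻¹ * (k * h) = h
    have h1 : κ ⟨k * h, hkh⟩ = k := by
      apply C.K_eq (hκK _) hk hba
      rw [hκb]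
      show (k * (h : G)) • b = k • b
      rw [mul_smul, (mem_H h).2]
    rw [h1]; group

/-- A character of `H` invariant under `τ` extends to `G`. -/
theorem exists_hom (C : Ctx G α a b K) {c : α} (hca : c ≠ a) (hcb : c ≠ b) {τ : G}
    (hτa : τ • a = b) (hτb : τ • b = a) (hτc : τ • c = c)
    {z : ↥(stabilizer G a ⊓ stabilizer G b)} (hz2 : z * z = 1) (hz1 : z ≠ 1)
    (f : ↥(stabilizer G a ⊓ stabilizer G b) →* ℤˣ) (hf : ∀ h, f (conjH hτa hτb h) = f h) :
    ∃ ε : G →* ℤˣ, ∀ h : ↥(stabilizer G a ⊓ stabilizer G b), ε h = f h := by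
  have hττ := C.tau_sq hca hcb hτa hτb hτc
  have hτi : τ⁻¹ = τ := inv_eq_of_mul_eq_one_left hττ
  have hba : b ≠ a := C.hab.symm
  obtain ⟨hza, hzb⟩ := mem_H z
  have hz2' : (z : G) * z = 1 := congrArg Subtype.val hz2
  have hz1' : (z : G) ≠ 1 := fun h => hz1 (Subtype.ext h)
  obtain ⟨e, he, heb⟩ := C.Kt b c hba hca
  have he1 : e ≠ 1 := by
    rintro rfl
    rw [one_smul] at heb
    exact hcb heb.symm
  have hR := C.rel_R hca hcb hτa hτb hτc hza hzb hz2' hz1' he heb
  obtain ⟨χ, hχ⟩ := C.exists_ext_stab f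
  have hχH : ∀ (h : ↥(stabilizer G a ⊓ stabilizer G b)) (hh : (h : G) ∈ stabilizer G a),
      χ ⟨h, hh⟩ = f h := by
    intro h hh
    have h1 := hχ 1 K.one_mem h (by rw [one_mul]; exact hh)
    have e1 : (⟨1 * (h : G), by rw [one_mul]; exact hh⟩ : ↥(stabilizer G a)) = ⟨h, hh⟩ :=
      Subtype.ext (one_mul _)
    rw [e1] at h1
    exact h1
  have hχK : ∀ (k : G) (_ : k ∈ K) (hk' : k ∈ stabilizer G a), χ ⟨k, hk'⟩ = 1 := by
    intro k hk hk'
    have h1 := hχ k hk 1 (by rw [Subgroup.coe_one, mul_one]; exact hk')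
    have e1 : (⟨k * ((1 : ↥(stabilizer G a ⊓ stabilizer G b)) : G),
        by rw [Subgroup.coe_one, mul_one]; exact hk'⟩ : ↥(stabilizer G a)) = ⟨k, hk'⟩ :=
      Subtype.ext (show k * ((1 : ↥(stabilizer G a ⊓ stabilizer G b)) : G) = k from mul_one k)
    rw [e1, map_one] at h1
    exact h1
  have hgen : ∀ g : G, g ∉ stabilizer G a →
      ∃ b₁ ∈ stabilizer G a, ∃ b₂ ∈ stabilizer G a, g = b₁ * τ * b₂ := by
    intro g hg
    rw [mem_stabilizer_iff] at hg
    obtain ⟨k, hk, hkb⟩ := C.Kt b (g • a) hba hg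
    refine ⟨k, mem_stabilizer_iff.mpr (C.Ka k hk), τ * k⁻¹ * g, ?_, ?_⟩
    · rw [mem_stabilizer_iff, mul_smul, mul_smul, ← hkb, inv_smul_smul, hτb]
    · calc g = k * (τ * τ) * k⁻¹ * g := by rw [hττ]; group
        _ = k * τ * (τ * k⁻¹ * g) := by group
  have hinvH : ∀ (g : ↥(stabilizer G a)) (hg : τ * g * τ ∈ stabilizer G a),
      χ ⟨τ * g * τ, hg⟩ = χ g := by
    intro g hg
    have hga : (g : G) • a = a := g.2
    have hgb : (g : G) • b = b := by
      rw [mem_stabilizer_iff, mul_smul, mul_smul, hτa] at hg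
      have : τ • (g : G) • b = τ • b := by rw [hg, hτb]
      exact smul_left_cancel τ this
    have hgH : (g : G) ∈ stabilizer G a ⊓ stabilizer G b := by
      rw [Subgroup.mem_inf, mem_stabilizer_iff, mem_stabilizer_iff]
      exact ⟨hga, hgb⟩
    have e1 : (⟨τ * (g : G) * τ, hg⟩ : ↥(stabilizer G a)) =
        ⟨(conjH hτa hτb ⟨g, hgH⟩ : ↥(stabilizer G a ⊓ stabilizer G b)),
          mem_stabilizer_iff.mpr (mem_H (conjH hτa hτb ⟨g, hgH⟩)).1⟩ :=
      Subtype.ext (by rw [conjH_coe, hτi])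
    rw [e1, hχH, hf]
    exact (hχH ⟨g, hgH⟩ g.2).symm
  have hbig : ∀ g : ↥(stabilizer G a), τ * g * τ ∉ stabilizer G a →
      ∃ b₁ b₂ : ↥(stabilizer G a), τ * g * τ = b₁ * τ * b₂ ∧ χ b₁ * χ b₂ = f z * χ g := by
    intro g hg
    have hga : (g : G) • a = a := g.2
    have hgb : (g : G) • b ≠ b := by
      intro h
      apply hg
      rw [mem_stabilizer_iff, mul_smul, mul_smul, hτa, h, hτb]
    have hgba : (g : G) • b ≠ a := by
      intro h
      apply hba
      have : (g : G) • b = (g : G) • a := by rw [h, hga]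
      exact smul_left_cancel _ this
    obtain ⟨k, hk, hkb⟩ := C.Kt b ((g : G) • b) hba hgba
    have hk1 : k ≠ 1 := by
      rintro rfl
      rw [one_smul] at hkb
      exact hgb hkb.symm
    have hhH : k⁻¹ * (g : G) ∈ stabilizer G a ⊓ stabilizer G b := by
      rw [Subgroup.mem_inf, mem_stabilizer_iff, mem_stabilizer_iff]
      constructor
      · rw [mul_smul, hga, inv_smul_eq_iff, C.Ka k hk]
      · rw [mul_smul, inv_smul_eq_iff, hkb]
    obtain ⟨u, hua, hub, huk⟩ := C.exists_conj he he1 hk hk1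
    have huH : u ∈ stabilizer G a ⊓ stabilizer G b := by
      rw [Subgroup.mem_inf, mem_stabilizer_iff, mem_stabilizer_iff]
      exact ⟨hua, hub⟩
    have hσa := (mem_H (conjH hτa hτb ⟨u, huH⟩)).1
    have hk₁ : ((conjH hτa hτb ⟨u, huH⟩ : ↥(stabilizer G a ⊓ stabilizer G b)) : G) * e *
        ((conjH hτa hτb ⟨u, huH⟩ : ↥(stabilizer G a ⊓ stabilizer G b)) : G)⁻¹ ∈ K :=
      C.Kn _ hσa e he
    have hk₂ : u * e⁻¹ * u⁻¹ ∈ K := C.Kn u hua _ (K.inv_mem he)
    have hb₂ : (u * e⁻¹ * u⁻¹) * (((⟨u, huH⟩ * z * (conjH hτa hτb ⟨u, huH⟩)⁻¹ *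
        conjH hτa hτb ⟨k⁻¹ * (g : G), hhH⟩ : ↥(stabilizer G a ⊓ stabilizer G b)) : G)) ∈
        stabilizer G a := by
      rw [mem_stabilizer_iff, mul_smul, (mem_H _).1]
      exact C.Ka _ hk₂
    refine ⟨⟨_, mem_stabilizer_iff.mpr (C.Ka _ hk₁)⟩, ⟨_, hb₂⟩, ?_, ?_⟩
    · exact bruhat_identity hττ hR huk
    · rw [hχK _ hk₁, one_mul, hχ _ hk₂]
      rw [map_mul, map_mul, map_mul, map_inv, hf, hf]
      have hg' : χ g = f ⟨k⁻¹ * (g : G), hhH⟩ := by
        have h1 := hχ k hk ⟨k⁻¹ * (g : G), hhH⟩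
          (by show k * (k⁻¹ * (g : G)) ∈ _; rw [mul_inv_cancel_left]; exact g.2)
        have e1 : (⟨k * (k⁻¹ * (g : G)),
            by rw [mul_inv_cancel_left]; exact g.2⟩ : ↥(stabilizer G a)) = g :=
          Subtype.ext (mul_inv_cancel_left k _)
        rw [e1] at h1
        exact h1
      rw [hg', mul_right_comm (f ⟨u, huH⟩) (f z), mul_inv_cancel, one_mul]
  obtain ⟨ε, hεB, -⟩ := bruhat_extend (stabilizer G a) τ hττ
    (by rw [mem_stabilizer_iff, hτa]; exact hba) hgen χ (f z) hinvH hbig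
  refine ⟨ε, fun h => ?_⟩
  exact (hεB ⟨h, mem_stabilizer_iff.mpr (mem_H h).1⟩).trans (hχH h _)

end Ctx

namespace Ctx

variable {G : Type u} [Group G] {α : Type v} [MulAction G α] {a b : α} {K : Subgroup G}

/-- `H` has a normal subgroup of index two, or is one of five exceptional groups. -/
theorem dichotomy [Finite G] (C : Ctx G α a b K) {c : α} (hca : c ≠ a) (hcb : c ≠ b) {p : ℕ}
    [Fact p.Prime] (hp2 : p ≠ 2) (Kp : ∀ x ∈ K, x ^ p = 1) :
    (∃ N : Subgroup ↥(stabilizer G a ⊓ stabilizer G b), N.Normal ∧ N.index = 2) ∨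
      RegLin.Exceptional ↥(stabilizer G a ⊓ stabilizer G b) := by
  have hba : b ≠ a := C.hab.symm
  letI : CommGroup ↥K :=
    { (inferInstance : Group ↥K) with
      mul_comm := fun x y => Subtype.ext (C.Kc x x.2 y y.2) }
  haveI : Nontrivial ↥K := by
    obtain ⟨e, he, heb⟩ := C.Kt b c hba hca
    refine ⟨⟨⟨e, he⟩, 1, ?_⟩⟩
    intro h
    have h1 : e = 1 := congrArg Subtype.val h
    rw [h1, one_smul] at heb
    exact hcb heb.symm
  let cj : ↥(stabilizer G a ⊓ stabilizer G b) →* MulAut ↥K :=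
    { toFun := fun h =>
        { toFun := fun k => ⟨h * k * (h : G)⁻¹, C.Kn h (mem_H h).1 k k.2⟩
          invFun := fun k => ⟨(h : G)⁻¹ * k * h, by
            have h1 := C.Kn (h : G)⁻¹ (by rw [inv_smul_eq_iff, (mem_H h).1]) k k.2
            rwa [inv_inv] at h1⟩
          left_inv := fun k => Subtype.ext (by
            show (h : G)⁻¹ * (h * k * (h : G)⁻¹) * h = k
            group)
          right_inv := fun k => Subtype.ext (by
            show (h : G) * ((h : G)⁻¹ * k * h) * (h : G)⁻¹ = k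
            group)
          map_mul' := fun k k' => Subtype.ext (by
            show (h : G) * ((k : G) * (k' : G)) * (h : G)⁻¹ =
              (h * k * (h : G)⁻¹) * (h * k' * (h : G)⁻¹)
            group) }
      map_one' := by
        apply MulEquiv.ext
        intro k
        apply Subtype.ext
        show ((1 : ↥(stabilizer G a ⊓ stabilizer G b)) : G) * k *
          ((1 : ↥(stabilizer G a ⊓ stabilizer G b)) : G)⁻¹ = k
        rw [Subgroup.coe_one]; group
      map_mul' := fun h h' => by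
        apply MulEquiv.ext
        intro k
        apply Subtype.ext
        show ((h * h' : ↥(stabilizer G a ⊓ stabilizer G b)) : G) * k *
          ((h * h' : ↥(stabilizer G a ⊓ stabilizer G b)) : G)⁻¹ =
          h * (h' * k * (h' : G)⁻¹) * (h : G)⁻¹
        rw [Subgroup.coe_mul]; group }
  have hcj : ∀ (h : ↥(stabilizer G a ⊓ stabilizer G b)) (k : ↥K),
      ((cj h k : ↥K) : G) = h * k * (h : G)⁻¹ := fun _ _ => rfl
  refine RegLin.dichotomy hp2 (fun x => Subtype.ext (Kp x x.2)) cj ?_ ?_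
  · intro x y hx hy
    have hx1 : (x : G) ≠ 1 := fun h => hx (Subtype.ext h)
    have hy1 : (y : G) ≠ 1 := fun h => hy (Subtype.ext h)
    obtain ⟨u, hua, hub, huk⟩ := C.exists_conj x.2 hx1 y.2 hy1
    have huH : u ∈ stabilizer G a ⊓ stabilizer G b := by
      rw [Subgroup.mem_inf, mem_stabilizer_iff, mem_stabilizer_iff]
      exact ⟨hua, hub⟩
    refine ⟨⟨u, huH⟩, ?_⟩
    apply Subtype.ext
    rw [hcj]
    exact huk
  · intro d x hx hd
    have hx1 : (x : G) ≠ 1 := fun h => hx (Subtype.ext h)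
    have h1 : (d : G) * x * (d : G)⁻¹ = x := by
      rw [← hcj, hd]
    have h2 : (d : G) * x = x * d := by
      calc (d : G) * x = ((d : G) * x * (d : G)⁻¹) * d := by group
        _ = x * d := by rw [h1]
    exact Subtype.ext (C.cent_eq_one (mem_H d).1 (mem_H d).2 x.2 hx1 h2)

/-- `H` has an involution. -/
theorem exists_invol [Fintype α] [Finite G] (C : Ctx G α a b K) (heven : Even (Fintype.card α))
    {c : α} (hca : c ≠ a) (hcb : c ≠ b) :
    ∃ z : ↥(stabilizer G a ⊓ stabilizer G b), z * z = 1 ∧ z ≠ 1 := by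
  classical
  have hmemc : ∀ h : ↥(stabilizer G a ⊓ stabilizer G b), (h : G) • c ≠ a ∧ (h : G) • c ≠ b := by
    intro h
    constructor
    · intro h'
      apply hca
      have : (h : G) • c = (h : G) • a := by rw [h', (mem_H h).1]
      exact smul_left_cancel _ this
    · intro h'
      apply hcb
      have : (h : G) • c = (h : G) • b := by rw [h', (mem_H h).2]
      exact smul_left_cancel _ this
  have hbij : Function.Bijective (fun h : ↥(stabilizer G a ⊓ stabilizer G b) =>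
      (⟨(h : G) • c, hmemc h⟩ : {x : α // x ≠ a ∧ x ≠ b})) := by
    constructor
    · intro h h' hh
      have h1 : (h : G) • c = (h' : G) • c := congrArg Subtype.val hh
      have h2 : ((h' : G)⁻¹ * h) = 1 := by
        refine C.s3 _ a b c C.hab hca.symm hcb.symm ?_ ?_ ?_
        · rw [mul_smul, (mem_H h).1, inv_smul_eq_iff, (mem_H h').1]
        · rw [mul_smul, (mem_H h).2, inv_smul_eq_iff, (mem_H h').2]
        · rw [mul_smul, h1, inv_smul_smul]
      exact Subtype.ext (inv_mul_eq_one.mp h2).symm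
    · rintro ⟨x, hxa, hxb⟩
      obtain ⟨g, hga, hgb, hgc⟩ := C.t3 a b c a b x C.hab hca.symm hcb.symm C.hab hxa.symm
        hxb.symm
      have hgH : g ∈ stabilizer G a ⊓ stabilizer G b := by
        rw [Subgroup.mem_inf, mem_stabilizer_iff, mem_stabilizer_iff]
        exact ⟨hga, hgb⟩
      exact ⟨⟨g, hgH⟩, Subtype.ext hgc⟩
  have hcard : Nat.card ↥(stabilizer G a ⊓ stabilizer G b) = Fintype.card α - 2 := by
    rw [Nat.card_congr (Equiv.ofBijective _ hbij), Nat.card_eq_fintype_card,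
      Fintype.card_subtype]
    have hfilter : (Finset.univ.filter (fun x : α => x ≠ a ∧ x ≠ b)) =
        (Finset.univ.erase a).erase b := by
      ext x
      simp only [Finset.mem_filter, Finset.mem_univ, true_and, Finset.mem_erase, and_true]
      tauto
    rw [hfilter, Finset.card_erase_of_mem, Finset.card_erase_of_mem (Finset.mem_univ a),
      Finset.card_univ]
    · rfl
    · rw [Finset.mem_erase]
      exact ⟨C.hab.symm, Finset.mem_univ b⟩
  have hdvd : 2 ∣ Nat.card ↥(stabilizer G a ⊓ stabilizer G b) := by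
    rw [hcard]
    obtain ⟨r, hr⟩ := heven
    exact ⟨r - 1, by omega⟩
  haveI : Fact (Nat.Prime 2) := ⟨Nat.prime_two⟩
  obtain ⟨z, hz⟩ := exists_prime_orderOf_dvd_card' 2 hdvd
  refine ⟨z, ?_, ?_⟩
  · have := pow_orderOf_eq_one z
    rw [hz, pow_two] at this
    exact this
  · rintro rfl
    rw [orderOf_one] at hz
    omega

end Ctx

theorem inj3' {α : Type v} {x y z : α} (hxy : x ≠ y) (hxz : x ≠ z) (hyz : y ≠ z) :
    Function.Injective ![x, y, z] := by
  intro i j hij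
  fin_cases i <;> fin_cases j <;> simp_all

/-- The context holds for sharply 3-transitive groups of even degree. -/
theorem Ctx.of_sharp {G : Type u} [Group G] {α : Type v} [MulAction G α] [Fintype α]
    (h3 : IsMultiplyPretransitive G α 3)
    (hsharp : ∀ x : Fin 3 ↪ α, stabilizer G x = ⊥) (heven : Even (Fintype.card α))
    (h4 : 4 ≤ Fintype.card α) {a b : α} (hab : a ≠ b) :
    ∃ (p : ℕ) (K : Subgroup G), p.Prime ∧ p ≠ 2 ∧ (∀ x ∈ K, x ^ p = 1) ∧ Ctx G α a b K := by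
  classical
  have hfinG : Finite G := Helper12.sharp_finite hsharp (by omega)
  have htr : IsPretransitive G α :=
    Helper12.isPretransitive_of_multTrans (k := 3) (by norm_num)
      (by rw [Nat.card_eq_fintype_card]; omega) h3
  obtain ⟨h2H, hsharpH⟩ := Helper12.sharp_ofStabilizer (k := 2) h3 hsharp a
  have hfinβ : Fintype (SubMulAction.ofStabilizer G a) := Fintype.ofFinite _
  have hcardβ : Fintype.card (SubMulAction.ofStabilizer G a) = Fintype.card α - 1 := by
    rw [← Nat.card_eq_fintype_card, SubMulAction.nat_card_ofStabilizer_eq G a,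
      Nat.card_eq_fintype_card]
  have htrH : IsPretransitive (stabilizer G a) (SubMulAction.ofStabilizer G a) :=
    Helper12.isPretransitive_of_multTrans (k := 2) (by norm_num)
      (by rw [Nat.card_eq_fintype_card, hcardβ]; omega) h2H
  have hcardH : Nat.card (stabilizer G a) = Fintype.card (SubMulAction.ofStabilizer G a) *
      (Fintype.card (SubMulAction.ofStabilizer G a) - 1) := by
    rw [Helper12.sharp_card h2H hsharpH (by rw [hcardβ]; omega), Helper12.descFactorial_two']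
  have hsh2 : ∀ (g : stabilizer G a) (b c : SubMulAction.ofStabilizer G a), b ≠ c →
      g • b = b → g • c = c → g = 1 := by
    intro g b c hbc hb hc
    have hinj : Function.Injective ![b, c] := by
      intro i j hij
      fin_cases i <;> fin_cases j <;> simp_all
    apply Helper12.sharpK_eq hsharpH ![b, c] hinj
    intro i
    fin_cases i
    · show g • b = (1 : stabilizer G a) • b
      rw [one_smul]; exact hb
    · show g • c = (1 : stabilizer G a) • c
      rw [one_smul]; exact hc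
  obtain ⟨p, j, N, hp, hj, hpj, hNn, hNc, hNe, hNt, hNs, hNm, hNQ, hNp⟩ :=
    Helper12.sharp2_main htrH hsh2 (by rw [hcardβ]; omega) hcardH
  have hp2 : p ≠ 2 := by
    rintro rfl
    have h2 : Even (2 ^ j) := Nat.even_pow.mpr ⟨even_two, by omega⟩
    rw [← hpj, hcardβ] at h2
    obtain ⟨r, hr⟩ := heven
    obtain ⟨r', hr'⟩ := h2
    omega
  refine ⟨p, N.map (stabilizer G a).subtype, hp, hp2, ?_, ?_⟩
  · rintro _ ⟨x, hx, rfl⟩
    exact congrArg (fun z : stabilizer G a => (z : G)) (hNe x hx)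
  · refine ⟨hab, ?_, ?_, ?_, ?_, ?_, ?_, ?_⟩
    · intro x y z x' y' z' hxy hxz hyz hxy' hxz' hyz'
      obtain ⟨g, hg⟩ := Helper12.sharpK_ex h3 ![x, y, z] ![x', y', z'] (inj3' hxy hxz hyz)
        (inj3' hxy' hxz' hyz')
      exact ⟨g, hg 0, hg 1, hg 2⟩
    · intro g x y z hxy hxz hyz hx hy hz
      exact Helper12.sharp3_eq_one hsharp hxy hxz hyz hx hy hz
    · rintro _ ⟨x, -, rfl⟩
      exact x.2
    · rintro g hg _ ⟨x, hx, rfl⟩
      exact ⟨(⟨g, hg⟩ : stabilizer G a) * x * (⟨g, hg⟩ : stabilizer G a)⁻¹,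
        hNn.conj_mem x hx ⟨g, hg⟩, rfl⟩
    · rintro _ ⟨x, hx, rfl⟩ _ ⟨y, hy, rfl⟩
      exact congrArg (fun z : stabilizer G a => (z : G)) (hNc x hx y hy)
    · intro x y hx hy
      have hxm : x ∈ SubMulAction.ofStabilizer G a := by
        rw [SubMulAction.mem_ofStabilizer_iff]; exact hx
      have hym : y ∈ SubMulAction.ofStabilizer G a := by
        rw [SubMulAction.mem_ofStabilizer_iff]; exact hy
      obtain ⟨g, hg, hgx⟩ := hNt ⟨x, hxm⟩ ⟨y, hym⟩
      exact ⟨g, ⟨g, hg, rfl⟩, congrArg Subtype.val hgx⟩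
    · rintro _ ⟨x, hx, rfl⟩ y hy hxy
      have hym : y ∈ SubMulAction.ofStabilizer G a := by
        rw [SubMulAction.mem_ofStabilizer_iff]; exact hy
      have h1 := hNs x hx ⟨y, hym⟩ (Subtype.ext hxy)
      rw [h1]; rfl

end Sharp3Even

end Cfsg.Agent.Helper59
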