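import Mathlib
import Cfsg.Agent.S0729
import Cfsg.Agent.Helper59.Sharp3Even

set_option autoImplicit false

/-!
# Sharply 3-transitive permutation groups of even degree have a subgroup of index two (helper59)

`exists_normal_index_two`: a sharply 3-transitive subgroup of `Equiv.Perm α`, `|α|` even and at
least 4, has a normal subgroup of index two (for `PGL(2,q)` this is `PSL(2,q)`, for `M(q²)` it is
`PSL(2,q²)` as well).
-/

namespace Cfsg.Agent.Helper59

namespace Sharp3Even

open MulAction

universe u v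

/-- The order of the two-point stabiliser. -/
theorem Ctx.card_H {G : Type u} [Group G] {α : Type v} [MulAction G α] {a b : α}
    {K : Subgroup G} [Fintype α] [Finite G] (C : Ctx G α a b K)
    {c : α} (hca : c ≠ a) (hcb : c ≠ b) :
    Nat.card ↥(stabilizer G a ⊓ stabilizer G b) = Fintype.card α - 2 := by
  classical
  have hmemc : ∀ h : ↥(stabilizer G a ⊓ stabilizer G b), (h : G) • c ≠ a ∧ (h : G) • c ≠ b := by
    intro h
    constructor
    · intro h'
      apply hca
      have : (h : G) • c = (h : G) • a := by rw [h', (Ctx.mem_H h).1]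
      exact smul_left_cancel _ this
    · intro h'
      apply hcb
      have : (h : G) • c = (h : G) • b := by rw [h', (Ctx.mem_H h).2]
      exact smul_left_cancel _ this
  have hbij : Function.Bijective (fun h : ↥(stabilizer G a ⊓ stabilizer G b) =>
      (⟨(h : G) • c, hmemc h⟩ : {x : α // x ≠ a ∧ x ≠ b})) := by
    constructor
    · intro h h' hh
      have h1 : (h : G) • c = (h' : G) • c := congrArg Subtype.val hh
      have h2 : ((h' : G)⁻¹ * h) = 1 := by
        refine C.s3 _ a b c C.hab hca.symm hcb.symm ?_ ?_ ?_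
        · rw [mul_smul, (Ctx.mem_H h).1, inv_smul_eq_iff, (Ctx.mem_H h').1]
        · rw [mul_smul, (Ctx.mem_H h).2, inv_smul_eq_iff, (Ctx.mem_H h').2]
        · rw [mul_smul, h1, inv_smul_smul]
      exact Subtype.ext (inv_mul_eq_one.mp h2).symm
    · rintro ⟨x, hxa, hxb⟩
      obtain ⟨g, hga, hgb, hgc⟩ := C.t3 a b c a b x C.hab hca.symm hcb.symm C.hab hxa.symm
        hxb.symm
      have hgH : g ∈ stabilizer G a ⊓ stabilizer G b := by
        rw [Subgroup.mem_inf, mem_stabilizer_iff, mem_stabilizer_iff]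
        exact ⟨hga, hgb⟩
      exact ⟨⟨g, hgH⟩, Subtype.ext hgc⟩
  rw [Nat.card_congr (Equiv.ofBijective _ hbij), Nat.card_eq_fintype_card,
    Fintype.card_subtype]
  have hfilter : (Finset.univ.filter (fun x : α => x ≠ a ∧ x ≠ b)) =
      (Finset.univ.erase a).erase b := by
    ext x
    simp only [Finset.mem_filter, Finset.mem_univ, true_and, Finset.mem_erase, and_true]
    tauto
  rw [hfilter, Finset.card_erase_of_mem, Finset.card_erase_of_mem (Finset.mem_univ a),
    Finset.card_univ]
  · rfl
  · rw [Finset.mem_erase]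
    exact ⟨C.hab.symm, Finset.mem_univ b⟩

/-- A sharply 3-transitive permutation group of even degree at least 4 has a normal subgroup of
index two. -/
theorem exists_normal_index_two {α : Type*} [Fintype α] [DecidableEq α]
    (heven : Even (Fintype.card α)) (h4 : 4 ≤ Fintype.card α) (G : Subgroup (Equiv.Perm α))
    (h3 : MulAction.IsMultiplyPretransitive G α 3)
    (hsharp : ∀ x : Fin 3 ↪ α, MulAction.stabilizer G x = ⊥) :
    ∃ N : Subgroup G, N.Normal ∧ N.index = 2 := by
  obtain ⟨a, b, c, hab, hac, hbc⟩ := Fintype.two_lt_card_iff.mp (show 2 < Fintype.card α by omega)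
  obtain ⟨p, K, hp, hp2, Kp, C⟩ := Ctx.of_sharp h3 hsharp heven h4 hab
  have hN : ∃ N : Subgroup ↥(stabilizer G a ⊓ stabilizer G b), N.index = 2 := by
    by_cases h6 : 6 ≤ Fintype.card α
    · obtain ⟨N, -, hN⟩ := Cfsg.Agent.S0729.exists_index_two heven h6 G h3 hsharp hab hac hbc
        hp hp2 Kp C
      exact ⟨N, hN⟩
    · refine ⟨⊥, ?_⟩
      rw [Subgroup.index_bot, C.card_H hac.symm hbc.symm]
      obtain ⟨r, hr⟩ := heven
      omega
  obtain ⟨N, hN2⟩ := hN
  obtain ⟨τ, hτa, hτb, hτc⟩ := C.t3 a b c b a c hab hac hbc hab.symm hbc hac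
  have hττ : τ * τ = 1 := C.tau_sq hac.symm hbc.symm hτa hτb hτc
  have hτi : τ⁻¹ = τ := inv_eq_of_mul_eq_one_left hττ
  obtain ⟨f, hf1, hfinv⟩ := exists_invariant_char N hN2 (conjH hτa hτb) (by
    intro x
    apply Subtype.ext
    rw [conjH_coe, conjH_coe, hτi]
    calc τ * (τ * (x : G) * τ) * τ = (τ * τ) * x * (τ * τ) := by group
      _ = x := by rw [hττ, one_mul, mul_one])
  obtain ⟨z, hz2, hz1⟩ := C.exists_invol heven hac.symm hbc.symm
  obtain ⟨ε, hε⟩ := C.exists_hom hac.symm hbc.symm hτa hτb hτc hz2 hz1 f hfinv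
  obtain ⟨x, hx⟩ : ∃ x, f x ≠ 1 := by
    by_contra hcon
    push Not at hcon
    exact hf1 (MonoidHom.ext hcon)
  have hx' : ε (x : G) = -1 := by
    rw [hε]
    exact (Int.units_eq_one_or (f x)).resolve_left hx
  exact ⟨ε.ker, inferInstance, Helper12.index_two_ker_of_neg_one ε x hx'⟩

end Sharp3Even

end Cfsg.Agent.Helper59
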