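import Mathlib
import Cfsg.Agent.S0738
import Cfsg.Agent.S0741
import Cfsg.Agent.Helper6.Zass
import Cfsg.Agent.Helper15.Zassenhaus
import Cfsg.Agent.Helper1.FpfMain

set_option autoImplicit false

/-!
# Zassenhaus groups with two-point stabilisers of even order (helper59)

Setting `Ctx0`: a 2-transitive action in which only the identity fixes three points, with a
regular normal abelian subgroup `K` of the stabiliser of `a` (for a Zassenhaus group whose
two-point stabiliser `H` has even order: `Ctx0.of_zass`).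

* `Ctx0.invol_inv`, `Ctx0.invol_unique`: the involution `z` of `H` inverts `K` and is unique;
* `Ctx0.exists_swap`: every point `c ≠ a, b` is fixed by an involution interchanging `a` and `b`;
* `Ctx0.swap_sq`: if `H` is not transitive on the remaining points, every element interchanging
  `a` and `b` is an involution;
* `Ctx0.inverting`: in that case `H` is cyclic and inverted by an involution interchanging
  `a` and `b`.
-/

namespace Cfsg.Agent.Helper59

namespace ZassEven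

open MulAction

universe u v

/-- The context. -/
structure Ctx0 (G : Type u) [Group G] (α : Type v) [MulAction G α] (a b : α) (K : Subgroup G) :
    Prop where
  hab : a ≠ b
  t2 : ∀ x y x' y' : α, x ≠ y → x' ≠ y' → ∃ g : G, g • x = x' ∧ g • y = y'
  s3 : ∀ (g : G) (x y z : α), x ≠ y → x ≠ z → y ≠ z → g • x = x → g • y = y → g • z = z → g = 1
  Ka : ∀ k ∈ K, k • a = a
  Kn : ∀ g : G, g • a = a → ∀ k ∈ K, g * k * g⁻¹ ∈ K
  Kc : ∀ x ∈ K, ∀ y ∈ K, x * y = y * x
  Kt : ∀ x y : α, x ≠ a → y ≠ a → ∃ k ∈ K, k • x = y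
  Ks : ∀ k ∈ K, ∀ x : α, x ≠ a → k • x = x → k = 1

namespace Ctx0

variable {G : Type u} [Group G] {α : Type v} [MulAction G α] {a b : α} {K : Subgroup G}

theorem K_ne_a (C : Ctx0 G α a b K) {k : G} (hk : k ∈ K) {x : α} (hx : x ≠ a) : k • x ≠ a := by
  intro h
  apply hx
  have h2 : k • x = k • a := by rw [h, C.Ka k hk]
  exact smul_left_cancel k h2

theorem K_smul_ne (C : Ctx0 G α a b K) {k : G} (hk : k ∈ K) (hk1 : k ≠ 1) {x : α} (hx : x ≠ a) :
    k • x ≠ x := fun h => hk1 (C.Ks k hk x hx h)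

/-- An element of `H` commuting with a non-identity element of `K` is trivial. -/
theorem cent_eq_one (C : Ctx0 G α a b K) {h : G} (ha : h • a = a) (hb : h • b = b) {k : G}
    (hk : k ∈ K) (hk1 : k ≠ 1) (hc : h * k = k * h) : h = 1 := by
  have hba : b ≠ a := C.hab.symm
  refine C.s3 h a b (k • b) C.hab (C.K_ne_a hk hba).symm (C.K_smul_ne hk hk1 hba).symm ha hb ?_
  rw [← mul_smul, hc, mul_smul, hb]

/-- An involution of `H` inverts `K`. -/
theorem invol_inv (C : Ctx0 G α a b K) {z : G} (ha : z • a = a) (hb : z • b = b)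
    (hz2 : z * z = 1) (hz1 : z ≠ 1) {k : G} (hk : k ∈ K) : z * k * z⁻¹ = k⁻¹ := by
  have hzk : z * k * z⁻¹ ∈ K := C.Kn z ha k hk
  have hzi : z⁻¹ = z := inv_eq_of_mul_eq_one_left hz2
  by_contra hne
  have hm1 : k * (z * k * z⁻¹) ≠ 1 := by
    intro h
    apply hne
    exact (inv_eq_of_mul_eq_one_right h).symm ▸ rfl
  have hm : k * (z * k * z⁻¹) ∈ K := K.mul_mem hk hzk
  have hcomm : z * (k * (z * k * z⁻¹)) = k * (z * k * z⁻¹) * z := by
    have h1 : k * (z * k * z⁻¹) = (z * k * z⁻¹) * k := C.Kc _ hk _ hzk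
    calc z * (k * (z * k * z⁻¹)) = (z * k * z⁻¹) * (z * z) * k * z⁻¹ := by group
      _ = (z * k * z⁻¹) * k * z⁻¹ := by rw [hz2, mul_one]
      _ = k * (z * k * z⁻¹) * z⁻¹ := by rw [h1]
      _ = k * (z * k * z⁻¹) * z := by rw [hzi]
  exact hz1 (C.cent_eq_one ha hb hm hm1 hcomm)

/-- `H` has at most one involution. -/
theorem invol_unique (C : Ctx0 G α a b K) {c : α} (hca : c ≠ a) (hcb : c ≠ b) {z z' : G}
    (ha : z • a = a) (hb : z • b = b) (hz2 : z * z = 1) (hz1 : z ≠ 1)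
    (ha' : z' • a = a) (hb' : z' • b = b) (hz2' : z' * z' = 1) (hz1' : z' ≠ 1) : z = z' := by
  obtain ⟨k, hk, hkb⟩ := C.Kt b c C.hab.symm hca
  have hk1 : k ≠ 1 := by
    rintro rfl
    rw [one_smul] at hkb
    exact hcb hkb.symm
  have h1 := C.invol_inv ha hb hz2 hz1 hk
  have h2 := C.invol_inv ha' hb' hz2' hz1' hk
  have hzi : z⁻¹ = z := inv_eq_of_mul_eq_one_left hz2
  have hzi' : z'⁻¹ = z' := inv_eq_of_mul_eq_one_left hz2'
  have hcomm : (z * z') * k = k * (z * z') := by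
    have e1 : z' * k = k⁻¹ * z' := by
      have := congrArg (· * z') h2
      simpa [mul_assoc] using this
    have e2 : z * k⁻¹ = k * z := by
      have h1' : z * k⁻¹ * z⁻¹ = k := by
        have := congrArg (fun x => x⁻¹) h1
        simpa [mul_assoc] using this
      have := congrArg (· * z) h1'
      simpa [mul_assoc] using this
    calc (z * z') * k = z * (z' * k) := by group
      _ = z * (k⁻¹ * z') := by rw [e1]
      _ = (z * k⁻¹) * z' := by group
      _ = (k * z) * z' := by rw [e2]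
      _ = k * (z * z') := by group
  have h3 : z * z' = 1 :=
    C.cent_eq_one (by rw [mul_smul, ha', ha]) (by rw [mul_smul, hb', hb]) hk hk1 hcomm
  calc z = z * (z' * z') := by rw [hz2', mul_one]
    _ = (z * z') * z' := by group
    _ = z' := by rw [h3, one_mul]

/-- Every point other than `a`, `b` is fixed by an involution interchanging `a` and `b`. -/
theorem exists_swap (C : Ctx0 G α a b K) {z : G} (hza : z • a = a) (hzb : z • b = b)
    (hz2 : z * z = 1) (hz1 : z ≠ 1) {c : α} (hca : c ≠ a) (hcb : c ≠ b) :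
    ∃ t : G, t • a = b ∧ t • b = a ∧ t • c = c ∧ t • (z • c) = z • c ∧ t * t = 1 := by
  have hzi : z⁻¹ = z := inv_eq_of_mul_eq_one_left hz2
  have hzc : z • c ≠ c := fun h => hz1 (C.s3 z a b c C.hab hca.symm hcb.symm hza hzb h)
  have hzca : z • c ≠ a := by
    intro h
    apply hca
    have : z • c = z • a := by rw [h, hza]
    exact smul_left_cancel z this
  have hzzc : z • z • c = c := by rw [← mul_smul, hz2, one_smul]
  obtain ⟨g, hga, hgb⟩ := C.t2 a b c (z • c) C.hab hzc.symm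
  have hga' : g⁻¹ • c = a := by rw [inv_smul_eq_iff, hga]
  have hgb' : g⁻¹ • (z • c) = b := by rw [inv_smul_eq_iff, hgb]
  have htc : (g * z * g⁻¹) • c = c := by rw [mul_smul, mul_smul, hga', hza, hga]
  have htzc : (g * z * g⁻¹) • (z • c) = z • c := by rw [mul_smul, mul_smul, hgb', hzb, hgb]
  have htt : (g * z * g⁻¹) * (g * z * g⁻¹) = 1 := by
    calc (g * z * g⁻¹) * (g * z * g⁻¹) = g * (z * z) * g⁻¹ := by group
      _ = 1 := by rw [hz2]; group
  have ht1 : g * z * g⁻¹ ≠ 1 := by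
    intro h
    apply hz1
    calc z = g⁻¹ * (g * z * g⁻¹) * g := by group
      _ = 1 := by rw [h]; group
  -- the involution `g⁻¹ (z t z⁻¹) g` of `H` is `z`
  have hz' : g⁻¹ * (z * (g * z * g⁻¹) * z⁻¹) * g = z := by
    symm
    apply C.invol_unique hca hcb hza hzb hz2 hz1
    · rw [mul_smul, mul_smul, mul_smul, mul_smul, hga, hzi, htzc, hzzc, hga']
    · rw [mul_smul, mul_smul, mul_smul, mul_smul, hgb, hzi, hzzc, htc, hgb']
    · calc g⁻¹ * (z * (g * z * g⁻¹) * z⁻¹) * g * (g⁻¹ * (z * (g * z * g⁻¹) * z⁻¹) * g)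
          = g⁻¹ * z * ((g * z * g⁻¹) * (g * z * g⁻¹)) * z⁻¹ * g := by group
        _ = 1 := by rw [htt]; group
    · intro h
      apply ht1
      calc g * z * g⁻¹ = z⁻¹ * (g * (g⁻¹ * (z * (g * z * g⁻¹) * z⁻¹) * g) * g⁻¹) * z := by group
        _ = 1 := by rw [h]; group
  have hcomm : z * (g * z * g⁻¹) = (g * z * g⁻¹) * z := by
    calc z * (g * z * g⁻¹) = g * (g⁻¹ * (z * (g * z * g⁻¹) * z⁻¹) * g) * g⁻¹ * z := by group
      _ = (g * z * g⁻¹) * z := by rw [hz']
  -- `t a` is fixed by `z`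
  have hfix : z • ((g * z * g⁻¹) • a) = (g * z * g⁻¹) • a := by
    rw [← mul_smul, hcomm, mul_smul, hza]
  have hta : (g * z * g⁻¹) • a = b := by
    by_contra hne
    by_cases hta : (g * z * g⁻¹) • a = a
    · exact ht1 (C.s3 _ a c (z • c) hca.symm hzca.symm hzc.symm hta htc htzc)
    · exact hz1 (C.s3 z a b _ C.hab (Ne.symm hta) (Ne.symm hne) hza hzb hfix)
  refine ⟨g * z * g⁻¹, hta, ?_, htc, htzc, htt⟩
  calc (g * z * g⁻¹) • b = (g * z * g⁻¹) • (g * z * g⁻¹) • a := by rw [hta]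
    _ = a := by rw [← mul_smul, htt, one_smul]

/-- If `H` is not transitive on the points other than `a`, `b`, every element interchanging `a`
and `b` is an involution. -/
theorem swap_sq [Finite G] (C : Ctx0 G α a b K) {z : G} (hza : z • a = a) (hzb : z • b = b)
    (hz2 : z * z = 1) (hz1 : z ≠ 1) {c c' : α} (hca : c ≠ a) (hcb : c ≠ b) (hca' : c' ≠ a)
    (hcb' : c' ≠ b) (hcc' : ∀ h : G, h • a = a → h • b = b → h • c ≠ c') :
    ∀ s : G, s • a = b → s • b = a → s * s = 1 := by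
  classical
  haveI := Fintype.ofFinite G
  obtain ⟨t, hta, htb, htc, htzc, htt⟩ := C.exists_swap hza hzb hz2 hz1 hca hcb
  obtain ⟨t', hta', htb', htc', -, htt'⟩ := C.exists_swap hza hzb hz2 hz1 hca' hcb'
  have hzc : z • c ≠ c := fun h => hz1 (C.s3 z a b c C.hab hca.symm hcb.symm hza hzb h)
  have ht1 : t ≠ 1 := by
    rintro rfl
    rw [one_smul] at hta
    exact C.hab hta
  set Hf := Finset.univ.filter (fun g : G => g • a = a ∧ g • b = b) with hHf
  set Sf := Finset.univ.filter (fun g : G => g • a = b ∧ g • b = a) with hSf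
  have hHmem : ∀ g : G, g ∈ Hf ↔ (g • a = a ∧ g • b = b) := by
    intro g
    rw [hHf, Finset.mem_filter]
    simp
  have hSmem : ∀ g : G, g ∈ Sf ↔ (g • a = b ∧ g • b = a) := by
    intro g
    rw [hSf, Finset.mem_filter]
    simp
  -- conjugates of a swap fixing a point
  have hconj : ∀ (t₀ u : G), t₀ • a = b → t₀ • b = a → u • a = a → u • b = b →
      (u * t₀ * u⁻¹) • a = b ∧ (u * t₀ * u⁻¹) • b = a := by
    intro t₀ u h1 h2 h3 h4
    have h3' : u⁻¹ • a = a := by rw [inv_smul_eq_iff, h3]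
    have h4' : u⁻¹ • b = b := by rw [inv_smul_eq_iff, h4]
    constructor
    · rw [mul_smul, mul_smul, h3', h1, h4]
    · rw [mul_smul, mul_smul, h4', h2, h3]
  have hfib : ∀ (t₀ : G) (x : α), t₀ • a = b → t₀ • b = a → t₀ • x = x → x ≠ a → x ≠ b →
      Hf.card ≤ 2 * (Hf.image (fun u => u * t₀ * u⁻¹)).card := by
    intro t₀ x ht₀a ht₀b ht₀x hxa hxb
    apply Finset.card_le_mul_card_image
    intro w _
    by_contra hcon
    push Not at hcon
    obtain ⟨u₁, hu₁, u₂, hu₂, u₃, hu₃, h12, h13, h23⟩ := Finset.two_lt_card.mp hcon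
    rw [Finset.mem_filter, hHmem] at hu₁ hu₂ hu₃
    have hfixw : ∀ u : G, u * t₀ * u⁻¹ = w → w • (u • x) = u • x := by
      intro u hu
      rw [← hu, mul_smul, mul_smul, inv_smul_smul, ht₀x]
    have hinj : ∀ u u' : G, (u • a = a ∧ u • b = b) → (u' • a = a ∧ u' • b = b) →
        u • x = u' • x → u = u' := by
      intro u u' hu hu' h
      have h1 : u'⁻¹ * u = 1 := C.s3 _ a b x C.hab hxa.symm hxb.symm
        (by rw [mul_smul, hu.1, inv_smul_eq_iff, hu'.1])
        (by rw [mul_smul, hu.2, inv_smul_eq_iff, hu'.2])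
        (by rw [mul_smul, h, inv_smul_smul])
      exact (inv_mul_eq_one.mp h1).symm
    have hw1 : w = 1 := C.s3 w (u₁ • x) (u₂ • x) (u₃ • x)
      (fun h => h12 (hinj _ _ hu₁.1 hu₂.1 h)) (fun h => h13 (hinj _ _ hu₁.1 hu₃.1 h))
      (fun h => h23 (hinj _ _ hu₂.1 hu₃.1 h)) (hfixw u₁ hu₁.2) (hfixw u₂ hu₂.2) (hfixw u₃ hu₃.2)
    have hwa : w • a = b := by
      rw [← hu₁.2]
      exact (hconj t₀ u₁ ht₀a ht₀b hu₁.1.1 hu₁.1.2).1
    rw [hw1, one_smul] at hwa
    exact C.hab hwa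
  have h1 := hfib t c hta htb htc hca hcb
  have h1' := hfib t' c' hta' htb' htc' hca' hcb'
  have hdisj : Disjoint (Hf.image (fun u => u * t * u⁻¹)) (Hf.image (fun u => u * t' * u⁻¹)) := by
    rw [Finset.disjoint_left]
    intro w hw hw'
    rw [Finset.mem_image] at hw hw'
    obtain ⟨u, hu, rfl⟩ := hw
    obtain ⟨u', hu', huu⟩ := hw'
    rw [hHmem] at hu hu'
    -- `t` fixes `u⁻¹ u' c'`
    have hu1 : u⁻¹ • a = a := by rw [inv_smul_eq_iff, hu.1]
    have hu2 : u⁻¹ • b = b := by rw [inv_smul_eq_iff, hu.2]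
    have hfix : t • ((u⁻¹ * u') • c') = (u⁻¹ * u') • c' := by
      have e1 : t = u⁻¹ * (u' * t' * u'⁻¹) * u := by rw [huu]; group
      have e2 : t * (u⁻¹ * u') = u⁻¹ * u' * t' := by
        rw [e1]; group
      rw [← mul_smul, e2, mul_smul, htc']
    have hva : (u⁻¹ * u') • a = a := by rw [mul_smul, hu'.1, hu1]
    have hvb : (u⁻¹ * u') • b = b := by rw [mul_smul, hu'.2, hu2]
    have hva' : (u'⁻¹ * u) • a = a := by rw [mul_smul, hu.1, inv_smul_eq_iff, hu'.1]
    have hvb' : (u'⁻¹ * u) • b = b := by rw [mul_smul, hu.2, inv_smul_eq_iff, hu'.2]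
    by_cases hc1 : (u⁻¹ * u') • c' = c
    · apply hcc' (u'⁻¹ * u) hva' hvb'
      rw [← hc1, ← mul_smul]
      have : u'⁻¹ * u * (u⁻¹ * u') = 1 := by group
      rw [this, one_smul]
    · by_cases hc2 : (u⁻¹ * u') • c' = z • c
      · apply hcc' (u'⁻¹ * u * z) (by rw [mul_smul, hza, hva']) (by rw [mul_smul, hzb, hvb'])
        rw [mul_smul, ← hc2, ← mul_smul]
        have : u'⁻¹ * u * (u⁻¹ * u') = 1 := by group
        rw [this, one_smul]
      · exact ht1 (C.s3 t c (z • c) _ hzc.symm (Ne.symm hc1) (Ne.symm hc2) htc htzc hfix)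
  have hsub : Hf.image (fun u => u * t * u⁻¹) ∪ Hf.image (fun u => u * t' * u⁻¹) ⊆
      Sf.filter (fun s => s * s = 1) := by
    intro w hw
    rw [Finset.mem_union, Finset.mem_image, Finset.mem_image] at hw
    rw [Finset.mem_filter, hSmem]
    rcases hw with ⟨u, hu, rfl⟩ | ⟨u, hu, rfl⟩
    · rw [hHmem] at hu
      refine ⟨hconj t u hta htb hu.1 hu.2, ?_⟩
      calc u * t * u⁻¹ * (u * t * u⁻¹) = u * (t * t) * u⁻¹ := by group
        _ = 1 := by rw [htt]; group
    · rw [hHmem] at hu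
      refine ⟨hconj t' u hta' htb' hu.1 hu.2, ?_⟩
      calc u * t' * u⁻¹ * (u * t' * u⁻¹) = u * (t' * t') * u⁻¹ := by group
        _ = 1 := by rw [htt']; group
  have hS : Sf.card ≤ Hf.card := by
    apply Finset.card_le_card_of_injOn (fun s => t * s)
    · intro s hs
      rw [Finset.mem_coe, hSmem] at hs
      rw [Finset.mem_coe, hHmem]
      exact ⟨by rw [mul_smul, hs.1, htb], by rw [mul_smul, hs.2, hta]⟩
    · intro s _ s' _ h
      exact mul_left_cancel h
  have hcard := Finset.card_le_card hsub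
  rw [Finset.card_union_of_disjoint hdisj] at hcard
  have hle := Finset.card_filter_le Sf (fun s => s * s = 1)
  have heq : (Sf.filter (fun s => s * s = 1)).card = Sf.card := by omega
  intro s hsa hsb
  exact Finset.card_filter_eq_iff.mp heq s ((hSmem s).mpr ⟨hsa, hsb⟩)

/-- If `H` is not transitive on the points other than `a`, `b`: `H` is cyclic, and inverted by an
involution interchanging `a` and `b`. -/
theorem inverting [Finite G] (C : Ctx0 G α a b K) {z : G} (hza : z • a = a) (hzb : z • b = b)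
    (hz2 : z * z = 1) (hz1 : z ≠ 1) {c c' : α} (hca : c ≠ a) (hcb : c ≠ b) (hca' : c' ≠ a)
    (hcb' : c' ≠ b) (hcc' : ∀ h : G, h • a = a → h • b = b → h • c ≠ c') :
    IsCyclic ↥(stabilizer G a ⊓ stabilizer G b) ∧
      ∃ v : G, orderOf v = 2 ∧ v • a = b ∧ v • b = a ∧
        ∀ h ∈ stabilizer G a ⊓ stabilizer G b, v * h * v⁻¹ = h⁻¹ := by
  have hsq := C.swap_sq hza hzb hz2 hz1 hca hcb hca' hcb' hcc'
  obtain ⟨t, hta, htb, htc, -, htt⟩ := C.exists_swap hza hzb hz2 hz1 hca hcb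
  have hti : t⁻¹ = t := inv_eq_of_mul_eq_one_left htt
  have ht1 : t ≠ 1 := by
    rintro rfl
    rw [one_smul] at hta
    exact C.hab hta
  have hmem : ∀ h : G, h ∈ stabilizer G a ⊓ stabilizer G b ↔ (h • a = a ∧ h • b = b) := by
    intro h
    rw [Subgroup.mem_inf, mem_stabilizer_iff, mem_stabilizer_iff]
  have hinv : ∀ h ∈ stabilizer G a ⊓ stabilizer G b, t * h * t⁻¹ = h⁻¹ := by
    intro h hh
    rw [hmem] at hh
    have h1 : (t * h) * (t * h) = 1 :=
      hsq (t * h) (by rw [mul_smul, hh.1, hta]) (by rw [mul_smul, hh.2, htb])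
    rw [hti]
    have h2 : t * h * t * h = 1 := by rw [← h1]; group
    exact eq_inv_of_mul_eq_one_left h2
  have hcomm : ∀ h ∈ stabilizer G a ⊓ stabilizer G b, ∀ h' ∈ stabilizer G a ⊓ stabilizer G b,
      h * h' = h' * h := by
    intro h hh h' hh'
    have e1 := hinv (h * h') (mul_mem hh hh')
    have e2 := hinv h hh
    have e3 := hinv h' hh'
    have e4 : (h * h')⁻¹ = h⁻¹ * h'⁻¹ := by
      rw [← e1, ← e2, ← e3]; group
    have e5 := congrArg (fun x => x⁻¹) e4
    simpa [mul_inv_rev] using e5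
  haveI : IsMulCommutative ↥(stabilizer G a ⊓ stabilizer G b) :=
    ⟨⟨fun x y => Subtype.ext (hcomm x x.2 y y.2)⟩⟩
  haveI : IsMulCommutative ↥K := ⟨⟨fun x y => Subtype.ext (C.Kc x x.2 y y.2)⟩⟩
  have hK1 : K ≠ ⊥ := by
    obtain ⟨k, hk, hkb⟩ := C.Kt b c C.hab.symm hca
    intro h
    rw [h, Subgroup.mem_bot] at hk
    rw [hk, one_smul] at hkb
    exact hcb hkb.symm
  have hnorm : stabilizer G a ⊓ stabilizer G b ≤ Subgroup.normalizer (K : Set G) := by
    intro h hh
    rw [hmem] at hh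
    rw [Subgroup.mem_normalizer_iff]
    intro k
    constructor
    · intro hk
      exact C.Kn h hh.1 k hk
    · intro hk
      have h1 := C.Kn h⁻¹ (by rw [inv_smul_eq_iff, hh.1]) _ hk
      have h2 : h⁻¹ * (h * k * h⁻¹) * h⁻¹⁻¹ = k := by group
      rw [h2] at h1
      exact h1
  have hfpf : ∀ h ∈ stabilizer G a ⊓ stabilizer G b, h ≠ 1 →
      K ⊓ Subgroup.centralizer {h} = ⊥ := by
    intro h hh hh1
    rw [hmem] at hh
    rw [eq_bot_iff]
    intro k hk
    rw [Subgroup.mem_inf, Subgroup.mem_centralizer_iff] at hk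
    rw [Subgroup.mem_bot]
    by_contra hk1
    exact hh1 (C.cent_eq_one hh.1 hh.2 hk.1 hk1 (hk.2 h rfl))
  refine ⟨Cfsg.Agent.Helper1.fpf_abelian_isCyclic (stabilizer G a ⊓ stabilizer G b) K hK1 hnorm
    hfpf, t, ?_, hta, htb, hinv⟩
  haveI : Fact (Nat.Prime 2) := ⟨Nat.prime_two⟩
  exact orderOf_eq_prime (by rw [pow_two]; exact htt) ht1

/-- The context holds in a Zassenhaus group whose two-point stabilisers have even order. -/
theorem of_zass {G : Type u} {Ω : Type v} [Group G] [Finite G] [MulAction G Ω] [Fintype Ω]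
    (hZ : Cfsg.IsZassenhausGroup G Ω) {a b : Ω} (hab : a ≠ b)
    (heven : Even (Nat.card ↥(stabilizer G a ⊓ stabilizer G b))) :
    ∃ K : Subgroup G, Ctx0 G Ω a b K := by
  haveI : Finite Ω := Finite.of_fintype Ω
  obtain ⟨K, hKa, hKn, hKs, hKt⟩ := Cfsg.Agent.Helper6.zs_kernel hZ a
  have hd := Cfsg.Agent.S0741.result hZ hab heven
  have hKle : K ≤ stabilizer G a := fun k hk => mem_stabilizer_iff.mpr (hKa k hk)
  have hKn' : (K.subgroupOf (stabilizer G a)).Normal := by
    constructor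
    intro n hn g
    rw [Subgroup.mem_subgroupOf] at hn ⊢
    exact hKn g g.2 n hn
  have hreg : ∀ y z : Ω, y ≠ a → z ≠ a → ∃! u : K, (u : G) • y = z := by
    intro y z hy hz
    obtain ⟨k, hk, hky⟩ := hKt y z hy hz
    refine ⟨⟨k, hk⟩, hky, ?_⟩
    rintro ⟨k', hk'⟩ hk'y
    apply Subtype.ext
    show k' = k
    by_contra hne
    have h1 : k⁻¹ * k' ≠ 1 := fun h => hne (by rw [inv_mul_eq_one] at h; exact h.symm)
    have hk'y' : k' • y = z := hk'y
    exact hKs _ (K.mul_mem (K.inv_mem hk) hk') h1 y hy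
      (by rw [mul_smul, hk'y', ← hky, inv_smul_smul])
  obtain ⟨hcomm, -⟩ := Cfsg.Agent.S0738.result hZ hab hd K hKle hKn' hreg
  refine ⟨K, hab, ?_, ?_, hKa, hKn, ?_, hKt, ?_⟩
  · intro x y x' y' hxy hxy'
    exact Cfsg.Agent.Helper15.zass_two_trans hZ hxy hxy'
  · intro g x y z hxy hxz hyz hx hy hz
    exact hZ.2.2.1 g x y z hxy hyz hxz hx hy hz
  · intro x hx y hy
    have h1 := mul_comm' (⟨x, hx⟩ : K) ⟨y, hy⟩
    exact congrArg Subtype.val h1
  · intro k hk x hx hkx
    by_contra h1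
    exact hKs k hk h1 x hx hkx

end Ctx0

end ZassEven

end Cfsg.Agent.Helper59
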